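import Cfsg.Agent.H42.PcDefs

/-! Project PC: counting a coset by the `2`-parts of its elements. -/

set_option autoImplicit false
set_option maxHeartbeats 400000

namespace Cfsg.Agent.H65.PcCnt

open Subgroup Cfsg.Agent.H42.Pc

universe u

theorem cnt : CntStmt.{u} := by
  intro G _ _ S hS y l yy hl
  obtain ⟨k, m, hm, hn⟩ := Nat.exists_eq_two_pow_mul_odd (Nat.card_pos (α := G)).ne'
  have cop : Nat.Coprime (2 ^ k) m := (Nat.coprime_two_left.2 hm).pow_left k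
  obtain ⟨a, b, hab⟩ : ∃ a b : ℤ, a * (2 ^ k : ℕ) + b * m = 1 := Nat.isCoprime_iff_coprime.2 cop
  have all : ∀ g : G, g ^ (((2 ^ k : ℕ) : ℤ) * m) = 1 := fun g => by
    rw [← Nat.cast_mul, ← hn, zpow_natCast, pow_card_eq_one']
  have h2 : ∀ g : G, Two g → g ^ (b * m) = g := by
    rintro g ⟨j, hj⟩
    have h1 : orderOf g ∣ 2 ^ k := Nat.Coprime.dvd_of_dvd_mul_right
      (((Nat.coprime_two_left.2 hm).pow_left j).coprime_dvd_left (orderOf_dvd_of_pow_eq_one hj))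
      (hn ▸ orderOf_dvd_natCard g)
    rw [show b * m = (2 ^ k : ℕ) * (-a) + 1 by linarith, zpow_add_one, zpow_mul, zpow_natCast,
      orderOf_dvd_iff_pow_eq_one.1 h1, one_zpow, one_mul]
  have h3 : ∀ g : G, Odd (orderOf g) → g ^ (b * m) = 1 := fun g hg => by
    have h1 : orderOf g ∣ m := Nat.Coprime.dvd_of_dvd_mul_left
      ((Nat.coprime_two_right.2 hg).pow_right k) (hn ▸ orderOf_dvd_natCard g)
    rw [mul_comm, zpow_mul, zpow_natCast, orderOf_dvd_iff_pow_eq_one.1 h1, one_zpow]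
  let f : (Σ y' : {y' : G // y⁻¹ * y' ∈ S ∧ Two y'},
      {g : G // g ∈ S ∧ Commute g y'.1 ∧ Odd (orderOf g)}) → S :=
    fun x => ⟨y⁻¹ * x.1.1 * x.2.1, mul_mem x.1.2.1 x.2.2.1⟩
  have hf : Function.Bijective f := by
    constructor
    · rintro ⟨⟨y1, a1, a2⟩, g1, a3, a4, a5⟩ ⟨⟨y2, b1, b2⟩, g2, b3, b4, b5⟩ e
      have e1 : y1 * g1 = y2 * g2 := by
        have e0 : y⁻¹ * y1 * g1 = y⁻¹ * y2 * g2 := congrArg Subtype.val e
        rwa [mul_assoc, mul_assoc, mul_right_inj] at e0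
      have e2 := congrArg (· ^ (b * m)) e1
      simp only [Commute.mul_zpow (Commute.symm a4), Commute.mul_zpow (Commute.symm b4), h2 _ a2,
        h2 _ b2, h3 _ a5, h3 _ b5, mul_one] at e2
      subst e2
      obtain rfl := mul_left_cancel e1
      rfl
    · rintro ⟨s, hs⟩
      obtain ⟨g, hg⟩ : ∃ g, g = y * s := ⟨_, rfl⟩
      have g2 : g ^ (2 : ℤ) ∈ S := by
        rw [hg, show (y * s) ^ (2 : ℤ) = y * y * (y⁻¹ * s * y⁻¹⁻¹) * s by rw [zpow_two]; group]
        exact mul_mem (mul_mem yy (hS.conj_mem s hs _)) hs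
      have e1 : g ^ (b * m) * g ^ (a * (2 ^ k : ℕ)) = g := by
        rw [← zpow_add, add_comm, hab, zpow_one]
      have o1 : (g ^ (a * (2 ^ k : ℕ))) ^ m = 1 := by
        rw [← zpow_natCast, ← zpow_mul, mul_assoc, mul_comm a, zpow_mul, all, one_zpow]
      have s1 : g ^ (a * (2 ^ k : ℕ)) ∈ S := by
        have s2 : (g ^ (a * (2 ^ k : ℕ))) ^ 2 ∈ S := by
          rw [← zpow_natCast, ← zpow_mul, mul_comm, zpow_mul]
          exact zpow_mem g2 _
        obtain ⟨j, hj⟩ := hm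
        rw [hj, pow_succ, pow_mul] at o1
        rw [eq_inv_of_mul_eq_one_right o1]
        exact inv_mem (pow_mem s2 j)
      refine ⟨⟨⟨g ^ (b * m), ?_, k, ?_⟩, g ^ (a * (2 ^ k : ℕ)), s1, Commute.zpow_zpow_self _ _ _,
        hm.of_dvd_nat (orderOf_dvd_of_pow_eq_one o1)⟩, Subtype.ext ?_⟩
      · rw [← S.mul_mem_cancel_right s1, mul_assoc, e1, hg, inv_mul_cancel_left]
        exact hs
      · rw [← zpow_natCast, ← zpow_mul, mul_assoc, mul_comm b, mul_comm (m : ℤ), zpow_mul, all,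
          one_zpow]
      · show y⁻¹ * g ^ (b * m) * g ^ (a * (2 ^ k : ℕ)) = s
        rw [mul_assoc, e1, hg, inv_mul_cancel_left]
  have := Fintype.ofFinite {y' : G // y⁻¹ * y' ∈ S ∧ Two y'}
  rw [← Nat.card_eq_of_bijective f hf, Nat.card_sigma,
    Finset.sum_congr rfl fun x _ => hl x.1 x.2.1 x.2.2, Finset.sum_const, Finset.card_univ,
    Nat.card_eq_fintype_card, smul_eq_mul]

end Cfsg.Agent.H65.PcCnt
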