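import Cfsg.Agent.H11.CyLp

/-! Project CY, chapter LP: the pair stabiliser (piece LT). -/

set_option autoImplicit false
set_option maxHeartbeats 400000

namespace Cfsg.Agent.H65.CyLt

open Subgroup MulAction Cfsg.Agent.H11.Cy Cfsg.Agent.H11.Cy.Lp
open Cfsg.Agent.H11.EL (Nm Ct C1 Ex)

theorem exists_m {G : Type} [Group G] {p : ℕ} [Fact p.Prime] {A : Subgroup G}
    (hA : Nat.card A = p) : ∃ m : Nm A →* (ZMod p)ˣ,
    ∀ (g : Nm A) (i : ℤ), Ex (g : G) A i ↔ (m g : ZMod p) = i := by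
  obtain ⟨a, rfl⟩ := (Subgroup.isCyclic_iff_exists_zpowers_eq_top A).mp (isCyclic_of_prime_card hA)
  have ha : orderOf a = p := by rw [← Nat.card_zpowers, hA]
  have h1 : ∀ (g : G) (i : ℤ), Ex g (zpowers a) i ↔ g * a * g⁻¹ = a ^ i := fun g i => by
    refine ⟨fun h => h a (mem_zpowers a), fun h b hb => ?_⟩
    obtain ⟨k, rfl⟩ := mem_zpowers_iff.1 hb
    rw [← conj_zpow, h, ← zpow_mul, ← zpow_mul, mul_comm]
  have h2 : ∀ i j : ℤ, a ^ i = a ^ j ↔ (i : ZMod p) = j := fun i j => by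
    rw [zpow_eq_zpow_iff_modEq, ha, ZMod.intCast_eq_intCast_iff]
  have h3 : ∀ g : Nm (zpowers a), ∃ i : ℤ, (g : G) * a * (g : G)⁻¹ = a ^ i := fun g => by
    obtain ⟨k, hk⟩ := mem_zpowers_iff.1 ((mem_normalizer_iff.1 g.2 a).1 (mem_zpowers a))
    exact ⟨k, hk.symm⟩
  choose e he using h3
  let m : Nm (zpowers a) →* ZMod p :=
    { toFun g := e g
      map_one' := by
        have := he 1
        rw [← Int.cast_one, ← h2, ← this]
        simp
      map_mul' g h := by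
        rw [← Int.cast_mul, ← h2, ← he, zpow_mul, ← he g, conj_zpow, ← he h]
        simp [mul_assoc] }
  refine ⟨m.toHomUnits, fun g i => ?_⟩
  rw [h1, he, h2]
  rfl

theorem ex_one {G : Type} [Group G] {A : Subgroup G} {g : G} : Ex g A 1 ↔ g ∈ Ct A := by
  rw [mem_centralizer_iff]
  refine forall₂_congr fun a _ => ?_
  rw [zpow_one, mul_inv_eq_iff_eq_mul, eq_comm]

theorem lt (hMM : MMStmt) : LTStmt := by
  intro G _ _ Ω _ _ p A h l0 hla x y hxy f s c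
  have : Fact p.Prime := ⟨h.pp⟩
  have la := hla x y hxy
  have ep := l0.mc.ep
  have p5 := l0.ty.1
  obtain ⟨m, hm⟩ := exists_m (h.card x)
  have HN : Hs G x y ≤ Nm (A x) := fun g hg => (ep.nA x g).2 hg.1
  have KH : Kl A x y ≤ Hs G x y := fun k hk =>
    ⟨(ep.kfix x y hxy k).1 hk x la.mx, (ep.kfix x y hxy k).1 hk y la.my⟩
  obtain ⟨φ, hφ⟩ : ∃ φ : Hs G x y →* (ZMod p)ˣ, ∀ (g : Hs G x y) (i : ℤ),
      Ex (g : G) (A x) i ↔ (φ g : ZMod p) = i := ⟨m.comp (inclusion HN), fun g i => hm ⟨g, HN g.2⟩ i⟩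
  have dv : ∀ i : ℤ, (p : ℤ) ∣ i - 1 ↔ (i : ZMod p) = 1 := fun i => by
    rw [← ZMod.intCast_zmod_eq_zero_iff_dvd]
    push_cast
    exact sub_eq_zero
  have m1 : ∀ g, φ g = 1 ↔ (g : G) ∈ Kl A x y := fun g => by
    have e : φ g = 1 ↔ (g : G) ∈ Ct (A x) := by
      rw [← ex_one, hφ, Units.ext_iff]; simp
    exact e.trans ⟨ep.eps x y hxy g g.2,
      fun hk => centralizer_le (SetLike.coe_subset_coe.2 le_sup_left) hk⟩
  have m2 : ∀ g, φ g = -1 ↔ Ex (g : G) (A x) (-1) := fun g => by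
    rw [hφ, Units.ext_iff]; simp
  obtain ⟨F, hF⟩ : ∃ F : Hs G x y, F = ⟨f, c.fH⟩ := ⟨_, rfl⟩
  have eF : (F : G) = f := by rw [hF]
  have oF : orderOf (φ F) = orderOf f := by
    obtain ⟨i, hi, e⟩ := c.fe
    rw [← eF, hφ] at hi
    have e' : ∀ n : ℕ, orderOf (φ F) ∣ n ↔ orderOf f ∣ n := fun n => by
      rw [← e, dv, orderOf_dvd_iff_pow_eq_one, Units.ext_iff, Units.val_pow_eq_pow_val, hi]
      simp
    exact Nat.dvd_antisymm ((e' _).2 dvd_rfl) ((e' _).1 dvd_rfl)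
  have fo := c.fo
  have cU : Nat.card (ZMod p)ˣ = 2 * orderOf f := by
    rw [Nat.card_eq_fintype_card, ZMod.card_units]
    omega
  have i2 : (zpowers (φ F)).index = 2 := by
    have := card_mul_index (zpowers (φ F))
    rw [Nat.card_zpowers, oF, cU, mul_comm] at this
    exact Nat.eq_of_mul_eq_mul_right (by omega) this
  have kf : ∀ g ∈ Hs G x y, g ∈ Kl A x y ⊔ Fl A x y → ∃ k ∈ Kl A x y, ∃ n : ℕ, g = k * f ^ n := by
    intro g hg hg'
    obtain ⟨k, hk, l, hl, rfl⟩ := la.dec g hg'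
    obtain ⟨n, rfl⟩ := mem_powers_iff_mem_zpowers.2
      (c.TL l hl (((Hs G x y).mul_mem_cancel_left (KH hk)).1 hg))
    exact ⟨k, hk, n, rfl⟩
  have zp : ∀ g, φ g ∈ zpowers (φ F) ↔ (g : G) ∈ Kl A x y ⊔ Fl A x y := fun g => by
    constructor
    · rintro ⟨n, hn⟩
      have h1 := (m1 (g * (F ^ n)⁻¹)).1 (by rw [map_mul, map_inv, map_zpow, ← hn]; simp)
      have h2 : (g : G) = (g * (F ^ n)⁻¹ : Hs G x y) * f ^ n := by simp [eF]
      rw [h2]
      exact mul_mem (mem_sup_left h1) (mem_sup_right (zpow_mem c.fL n))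
    · intro hg
      obtain ⟨k, hk, n, e⟩ := kf g g.2 hg
      have e' : g = ⟨k, KH hk⟩ * F ^ n := Subtype.ext (by simpa [eF] using e)
      rw [e', map_mul, (m1 ⟨k, KH hk⟩).2 hk, one_mul, map_pow]
      exact pow_mem (mem_zpowers _) n
  have cT : Nat.card (Hs G x y) = Nat.card φ.range * Nat.card (Kl A x y) := by
    have hk : φ.ker = (Kl A x y).subgroupOf _ := by
      ext g
      rw [MonoidHom.mem_ker, mem_subgroupOf]
      exact m1 g
    rw [← index_ker, ← Nat.card_congr (subgroupOfEquivOfLe KH).toEquiv, ← hk, mul_comm,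
      card_mul_index]
  have top : ¬ E1 A x y → φ.range = ⊤ := fun e => by
    obtain ⟨g, hg, hg'⟩ := SetLike.not_le_iff_exists.1 e
    have h1 := mt (zp ⟨g, hg⟩).1 hg'
    have h2 : zpowers (φ F) ≤ φ.range := zpowers_le_of_mem ⟨F, rfl⟩
    refine eq_top_iff.2 fun u _ => ?_
    by_cases hu : u ∈ zpowers (φ F)
    · exact h2 hu
    · exact (φ.range.mul_mem_cancel_right ⟨⟨g, hg⟩, rfl⟩).1
        (h2 ((mul_mem_iff_of_index_two i2).2 (iff_of_false hu h1)))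
  have ss : s * s = 1 := by rw [← pow_two, ← c.so, pow_orderOf_eq_one]
  have si : s⁻¹ = s := inv_eq_of_mul_eq_one_right ss
  have sH : ∀ g ∈ Hs G x y, s * g * s⁻¹ ∈ Hs G x y := fun g hg => by
    have h1 : g • x = x := hg.1
    have h2 : g • y = y := hg.2
    refine ⟨mem_stabilizer_iff.2 ?_, mem_stabilizer_iff.2 ?_⟩
    · rw [si, mul_smul, mul_smul, c.sx, h2, c.sy]
    · rw [si, mul_smul, mul_smul, c.sy, h1, c.sx]
  have tw : ∀ (g : G) (j : ℤ), Ex g (A y) j → Ex (s * g * s⁻¹) (A x) j := fun g j e a ha => by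
    have h1 := h.eqv s x a ha
    rw [c.sx] at h1
    have h2 := e _ h1
    rw [conj_zpow] at h2
    calc _ = s * (g * (s⁻¹ * a * s) * g⁻¹) * s⁻¹ := by group
      _ = s * (s * a ^ j * s⁻¹) * s⁻¹ := by rw [← h2, si]
      _ = s * s * a ^ j * (s * s)⁻¹ := by group
      _ = _ := by rw [ss]; group
  have mm : ∀ g ∈ Hs G x y, ∀ i j : ℤ, Ex g (A x) i → Ex g (A y) j → (p : ℤ) ∣ i * j - 1 := by
    intro g hg i j hi hj
    refine hMM G Ω p A h l0 hla x y hxy g hg i j hi hj ?_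
    have h1 := (hφ ⟨g, hg⟩ i).1 hi
    have h2 := (hφ ⟨_, sH g hg⟩ j).1 (tw g j hj)
    obtain ⟨k, hk, n, e⟩ := kf _ (pow_mem hg 2) ((zp (⟨g, hg⟩ ^ 2)).1 (by
      rw [map_pow]; exact sq_mem_of_index_two i2 _))
    have e1 : (⟨g, hg⟩ : Hs G x y) ^ 2 = ⟨k, KH hk⟩ * F ^ n := Subtype.ext (by simpa [eF] using e)
    have e2 : (⟨_, sH g hg⟩ : Hs G x y) ^ 2 = ⟨k, KH hk⟩ * (F ^ n)⁻¹ := Subtype.ext (by
      have e3 : (s * g * s⁻¹) ^ 2 = k * (f ^ n)⁻¹ := by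
        rw [conj_pow, e, ← inv_pow, ← c.sf, conj_pow, ← mul_assoc, mem_centralizer_iff.1 hk s c.sL]
        group
      simpa [eF] using e3)
    have e4 : (φ ⟨g, hg⟩ * φ ⟨_, sH g hg⟩) ^ 2 = 1 := by
      rw [mul_pow, ← map_pow, ← map_pow, e1, e2, map_mul, map_mul, (m1 ⟨k, KH hk⟩).2 hk, map_inv]
      simp
    rw [dv]
    push_cast
    rw [← h1, ← h2, ← Units.val_mul, ← Units.val_pow_eq_pow_val, e4, Units.val_one]
  have ms : ∀ g : Hs G x y, φ g * φ ⟨_, sH g g.2⟩ = 1 := fun g => by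
    obtain ⟨i, hi, -⟩ := la.ex g g.2.1
    obtain ⟨j, hj, -⟩ := (hla y x hxy.symm).ex g g.2.2
    have h1 := (dv _).1 (mm g g.2 i j hi hj)
    rw [Units.ext_iff, Units.val_mul, (hφ g i).1 hi, (hφ ⟨_, sH g g.2⟩ j).1 (tw g j hj),
      Units.val_one, ← h1, Int.cast_mul]
  have sw : ∀ u : G, u • x = y → u • y = x → s * u ∈ Hs G x y := fun u h1 h2 =>
    ⟨mem_stabilizer_iff.2 (by rw [mul_smul, h1, c.sy]),
      mem_stabilizer_iff.2 (by rw [mul_smul, h2, c.sx])⟩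
  have inv : ∀ u : G, u • x = y → u • y = x → ∀ g ∈ Hs G x y, u * g * u⁻¹ * g ∈ Kl A x y := by
    intro u h1 h2 g hg
    obtain ⟨v, hv⟩ : ∃ v : Hs G x y, v = ⟨_, sw u h1 h2⟩ := ⟨_, rfl⟩
    have h3 := ms (v * ⟨g, hg⟩ * v⁻¹)
    rw [map_mul, map_mul, map_inv, mul_inv_cancel_comm, mul_comm, ← map_mul, m1] at h3
    have e : u * g * u⁻¹ * g = s * (s * u * g * (s * u)⁻¹) * s⁻¹ * g := by
      calc _ = s * s * u * g * u⁻¹ * (s * s)⁻¹ * g := by rw [ss]; group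
        _ = _ := by group
    rw [e]
    simpa [hv] using h3
  refine ⟨fun g hg => ?_, inv, fun u h1 h2 => ?_, mm, kf, fun g hg g' hg' n1 n2 => ?_,
    fun e => ?_, fun e => by rw [cT, top e, card_top, cU], fun e g hg => ?_, fun g hg => ?_,
    fun p3 => ⟨fun e g hg hi => ?_, fun e => ?_⟩⟩
  · have h1 := (m1 (⟨g, hg⟩ * F * ⟨g, hg⟩⁻¹ * F⁻¹)).1 (by simp)
    have h2 : g * f * g⁻¹ * f⁻¹ = 1 := la.ctr _
      (mul_mem ((mem_normalizer_iff.1 (la.hN hg) f).1 c.fL) (inv_mem c.fL)) (by simpa [eF] using h1)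
    rwa [mul_inv_eq_one, mul_inv_eq_iff_eq_mul] at h2
  · have h3 := inv s c.sx c.sy _ (sw u h1 h2)
    have e : s * (s * u) * s⁻¹ * (s * u) = u * u := by
      calc _ = s * s * u * u := by group
        _ = _ := by rw [ss, one_mul]
    rwa [e] at h3
  · obtain ⟨l, hl, a, ha, rfl⟩ := la.NM g hg
    obtain ⟨l', hl', b, hb, rfl⟩ := la.NM g' hg'
    have h1 := mt (zp ⟨a, ha⟩).1 fun e => n1 (mul_mem (mem_sup_right hl) e)
    have h2 := mt (zp ⟨b, hb⟩).1 fun e => n2 (mul_mem (mem_sup_right hl') e)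
    have h3 : a * b ∈ Kl A x y ⊔ Fl A x y := (zp (⟨a, ha⟩ * ⟨b, hb⟩)).1 (by
      rw [map_mul]; exact (mul_mem_iff_of_index_two i2).2 (iff_of_false h1 h2))
    rw [show l * a * (l' * b) = l * (a * l' * a⁻¹) * (a * b) by group]
    exact mul_mem (mem_sup_right (mul_mem hl ((mem_normalizer_iff.1 (la.hN ha) l').1 hl'))) h3
  · have h1 : φ.range = zpowers (φ F) := le_antisymm (by
      rintro _ ⟨g, rfl⟩
      exact (zp g).2 (e g.2)) (zpowers_le_of_mem ⟨F, rfl⟩)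
    rw [cT, h1, Nat.card_zpowers, oF]
  · obtain ⟨l, hl, a, ha, rfl⟩ := la.NM g hg
    exact mul_mem (mem_sup_right hl) (e ha)
  · obtain ⟨i, hi, -⟩ := la.ex g hg.1
    by_cases h1 : (p : ℤ) ∣ i ^ 2 - 1
    · rw [dv, Int.cast_pow, ← (hφ ⟨g, hg⟩ i).1 hi, pow_two, mul_self_eq_one_iff] at h1
      rcases h1 with e | e
      · exact Or.inl ((m1 ⟨g, hg⟩).1 (Units.ext e))
      · exact Or.inr (Or.inl ((m2 ⟨g, hg⟩).1 (Units.ext e)))
    · exact Or.inr (Or.inr ⟨i, hi, h1⟩)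
  · have h1 := (zp ⟨g, hg⟩).2 (e hg)
    rw [(m2 ⟨g, hg⟩).2 hi] at h1
    have h2 := orderOf_dvd_of_mem_zpowers h1
    rw [oF, orderOf_dvd_iff_pow_eq_one, Odd.neg_one_pow ⟨p / 4, by omega⟩, Units.ext_iff] at h2
    have : Fact (2 < p) := ⟨by omega⟩
    exact ZMod.neg_one_ne_one (by simpa using h2)
  · by_contra e'
    obtain ⟨g, hg⟩ : -1 ∈ φ.range := top e' ▸ mem_top _
    exact e g g.2 ((m2 g).1 hg)

end Cfsg.Agent.H65.CyLt
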