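import Cfsg.Agent.H56.SpDefs
import Cfsg.Agent.H81.ZSup

/-! Project CY, chapter SP: the odd core of a point stabiliser is transitive on the other points. -/

set_option autoImplicit false
set_option maxHeartbeats 400000

namespace Cfsg.Agent.H65.CyOt

open Subgroup MulAction Cfsg.Agent.H11.Cy Cfsg.Agent.H56.Sp

/-- `A x` is transitive on the other points of a line with `p + 1` points. -/
theorem reg {G : Type} [Group G] {Ω : Type} [Finite Ω] [MulAction G Ω] {p : ℕ}
    {A : Ω → Subgroup G} (h : St p A) (ep : Eps A) {x y : Ω} (hxy : x ≠ y)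
    (hl : (Ln A x y).ncard = p + 1) {w : Ω} (hw : w ∈ Ln A x y) (hx : w ≠ x) :
    ∃ a ∈ A x, a • y = w := by
  have mx : x ∈ Ln A x y := le_sup_left (b := A y)
  have my : y ∈ Ln A x y := le_sup_right (a := A x)
  have h1 : (fun a : G => a • y) '' (A x : Set G) ⊆ Ln A x y \ {x} := by
    rintro _ ⟨a, ha, rfl⟩
    refine ⟨(ep.nrm x y hxy a).1 (le_normalizer (mem_sup_left ha)) y my, fun e => hxy ?_⟩
    have e' : a • y = a • x := e.trans (h.fix x a ha).symm
    exact ((smul_left_cancel_iff a).1 e').symm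
  have h2 : Set.InjOn (fun a : G => a • y) (A x : Set G) := fun a ha b hb e => by
    have e' : a • y = b • y := e
    rcases h.semi x y (b⁻¹ * a) (mul_mem (inv_mem hb) ha) (by rw [mul_smul, e', inv_smul_smul]) with
      c | c
    · exact (inv_mul_eq_one.1 c).symm
    · exact absurd c.symm hxy
  have h3 := Set.eq_of_subset_of_ncard_le h1 (by
    rw [Set.ncard_image_of_injOn h2, Set.ncard_diff_singleton_of_mem mx, hl]
    exact (h.card x).ge) (Set.toFinite _)
  exact h3.ge ⟨hw, hx⟩

theorem ot : OtStmt := by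
  intro G _ _ Ω _ _ p A h hy x
  have ep := hy.mc.ep
  refine ⟨(pPrimeCore 2 (stabilizer G x)).map (stabilizer G x).subtype, ?_, map_subtype_le _,
    fun g hg => mem_normalizer_fintype ?_, fun y y' hyx hyx' => ?_⟩
  · rw [card_map_of_injective (subtype_injective _), ← Nat.coprime_two_right]
    exact H3.pPrimeCore_coprime 2 _
  · rintro _ ⟨o, ho, rfl⟩
    exact ⟨_, (inferInstance : (pPrimeCore 2 (stabilizer G x)).Normal).conj_mem o ho ⟨g, hg⟩, rfl⟩
  have hxy := hyx.symm
  have lf := hy.lf x y hxy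
  obtain ⟨z, hz⟩ := lf.ex
  have zx : z ∈ stabilizer G x := (ep.kfix x y hxy z).1 (lf.cen z hz) x lf.mem.1
  have iso : IsIsolatedInvolution (⟨z, zx⟩ : stabilizer G x) := by
    refine ⟨orderOf_eq_prime (Subtype.ext (by simpa [pow_two] using hz.2.2))
      (fun e => hz.2.1 (congrArg Subtype.val e)), fun g hg => ?_⟩
    by_contra e
    refine (hy.cz.hi x y hxy z hz (g * z * (g : G)⁻¹) ⟨_, _, fun c => hxy ((smul_left_cancel_iff _).1 c),
      hy.cz.cj g x y z hz⟩ (fun c => e (Subtype.ext c)) (congrArg Subtype.val hg.eq).symm).2 x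
      lf.mem.1 (mem_stabilizer_iff.1 (mul_mem (mul_mem g.2 zx) (inv_mem g.2)))
  obtain ⟨g, -, g1, g2⟩ := h.two x trivial y trivial x trivial y' trivial hxy hyx'.symm
  have h1 : (⟨g, g1⟩ : stabilizer G x) ∈ pPrimeCore 2 (stabilizer G x) ⊔
      centralizer {(⟨z, zx⟩ : stabilizer G x)} := by
    rw [sup_comm, H81.cent_sup_core_of_isolated iso]
    exact mem_top _
  obtain ⟨o, ho, c, hc, e⟩ := mem_sup_of_normal_left.1 h1
  have h2 : (c : G) ∈ Nl A x y := by
    rw [← hy.cz.cz x y hxy z hz, mem_centralizer_singleton_iff]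
    exact congrArg Subtype.val (mem_centralizer_singleton_iff.1 hc)
  obtain ⟨a, ha, e'⟩ := reg h ep hxy lf.ln ((ep.nrm x y hxy c).1 h2 y lf.mem.2) (fun e => hxy
    ((smul_left_cancel_iff (c : G)).1 (e.trans (mem_stabilizer_iff.1 c.2).symm)).symm)
  have AH : A x ≤ stabilizer G x := fun b hb => h.fix x b hb
  have : ((A x).subgroupOf (stabilizer G x)).Normal := ⟨fun b hb k => by
    have := h.eqv k x b hb
    rwa [mem_stabilizer_iff.1 k.2] at this⟩
  have h3 : (A x).subgroupOf (stabilizer G x) ≤ pPrimeCore 2 _ := H3.le_pPrimeCore (by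
    rw [Nat.card_congr (subgroupOfEquivOfLe AH).toEquiv, h.card]
    exact (Nat.coprime_primes h.pp Nat.prime_two).2 hy.mc.p2)
  refine ⟨_, mem_map_of_mem _ (mul_mem ho (h3 (show (⟨a, AH ha⟩ : stabilizer G x) ∈ _ from ha))), ?_⟩
  show ((o : G) * a) • y = y'
  rw [mul_smul, e', ← mul_smul, ← g2]
  exact congrArg (fun t : stabilizer G x => (t : G) • y) e

end Cfsg.Agent.H65.CyOt
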