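import Cfsg.Agent.H50.E72Defs
import Cfsg.Agent.H37.Autos

/-!
# S5935, piece GEN: the root subgroups of the simple roots and their negatives generate
-/

set_option autoImplicit false

namespace Cfsg.Agent.H65.E72Gen

open Cfsg.Lie Cfsg.Agent.H37 Cfsg.Agent.H34 Cfsg.Agent.H50.E72

theorem simple_mem : ∀ i < chevE7.rank,
    chevE7.simple i ∈ sr14 ∧ chevE7.neg (chevE7.simple i) ∈ sr14 := by
  decide +kernel

theorem gen : GenStmt := by
  intro F _ P hP
  rw [eq_top_iff]
  intro g _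
  have h1 : chevE7.group F ≤ P.map (chevE7.group F).subtype := by
    refine C7.V.group_eq_simple.le.trans ((Subgroup.closure_le _).2 ?_)
    rintro _ ⟨i, hi, t, rfl | rfl⟩
    · exact ⟨_, hP _ (simple_mem i hi).1 t, rfl⟩
    · exact ⟨_, hP _ (simple_mem i hi).2 t, rfl⟩
  obtain ⟨x, hx, e⟩ := h1 g.2
  exact (Subtype.ext e : x = g) ▸ hx

end Cfsg.Agent.H65.E72Gen
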