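import Mathlib
import Cfsg.Agent.H6.E82Defs

/-! `SL₂(64)` is triply transitive on the cosets of its Borel subgroup. -/

set_option autoImplicit false

namespace Cfsg.Agent.H65.E82Tr3

open Cfsg.Agent.H6.E82 H82 H50.SL2S Finset
open scoped MatrixGroups

theorem bru (g : SL) : g ∈ BB F ∨ ∃ t, ∃ b ∈ BB F, g = uu t * ww F * b := by
  by_cases hg : g ∈ BB F
  · exact Or.inl hg
  · refine Or.inr ⟨g 0 0 * (g 1 0)⁻¹, (uu (g 0 0 * (g 1 0)⁻¹) * ww F)⁻¹ * g, ?_, ?_⟩
    · rw [mem_BB] at hg ⊢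
      simp only [ent, ent2]
      field_simp
      ring
    · rw [mul_inv_cancel_left]

theorem two (g g' : SL) (h : g⁻¹ * g' ∉ BB F) :
    ∃ s : SL, s * g ∈ BB F ∧ (ww F)⁻¹ * (s * g') ∈ BB F := by
  obtain ⟨t, b, hb, e⟩ := (bru (g⁻¹ * g')).resolve_left h
  refine ⟨(uu t)⁻¹ * g⁻¹, ?_, ?_⟩
  · rw [inv_mul_cancel_right]
    exact (BB F).inv_mem (UU_le_BB (uu_mem t))
  · rw [mul_assoc, e, mul_assoc (uu t), inv_mul_cancel_left, inv_mul_cancel_left]
    exact hb

theorem sqrt (a : F) : ∃ r : F, r * r = a := by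
  obtain ⟨r, hr⟩ := FiniteField.isSquare_of_char_two (F := F) (ringChar.eq F 2) a
  exact ⟨r, hr.symm⟩

theorem three (g g' g'' : SL) (h1 : g⁻¹ * g' ∉ BB F) (h2 : g⁻¹ * g'' ∉ BB F)
    (h3 : g'⁻¹ * g'' ∉ BB F) : ∃ s : SL,
    s * g ∈ BB F ∧ (ww F)⁻¹ * (s * g') ∈ BB F ∧ (uu 1 * ww F)⁻¹ * (s * g'') ∈ BB F := by
  obtain ⟨s, hs, hs'⟩ := two g g' h1
  have ha : (s * g'') 1 0 ≠ 0 := fun h => h2 <| by
    have := (BB F).mul_mem ((BB F).inv_mem hs) (mem_BB.2 h)
    rwa [mul_inv_rev, mul_assoc, inv_mul_cancel_left] at this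
  have hb : (s * g'') 0 0 ≠ 0 := fun h => h3 <| by
    have h4 : (ww F)⁻¹ * (s * g'') ∈ BB F := by
      rw [mem_BB, SL2_mul_apply, h, SL2_inv_11, ent2.1]
      ring
    have := (BB F).mul_mem ((BB F).inv_mem hs') h4
    rwa [mul_inv_rev, mul_inv_rev, inv_inv, mul_assoc, mul_inv_cancel_left, mul_assoc,
      inv_mul_cancel_left] at this
  obtain ⟨r, hr⟩ := sqrt ((s * g'') 1 0 * ((s * g'') 0 0)⁻¹)
  have hr0 : r ≠ 0 := by
    rintro rfl
    rw [mul_zero] at hr
    exact mul_ne_zero ha (inv_ne_zero hb) hr.symm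
  refine ⟨hh r hr0 * s, ?_, ?_, ?_⟩
  · rw [mul_assoc]
    exact (BB F).mul_mem (mem_BB.2 rfl) hs
  · have e : (ww F)⁻¹ * (hh r hr0 * s * g') =
        ((ww F)⁻¹ * hh r hr0 * ww F) * ((ww F)⁻¹ * (s * g')) := by group
    rw [e]
    refine (BB F).mul_mem ?_ hs'
    rw [mem_BB]
    simp only [ent, ent2]
  · rw [mul_assoc, mem_BB]
    generalize s * g'' = a at ha hb hr
    simp only [ent, ent2]
    have e : a 1 0 = r * r * a 0 0 := by rw [hr]; field_simp
    rw [e]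
    field_simp
    ring

theorem four (s t : F) : (uu s * ww F)⁻¹ * (uu t * ww F) ∈ BB F ↔ s = t := by
  rw [mem_BB]
  simp only [ent, ent2]
  constructor
  · intro h
    linear_combination h
  · rintro rfl
    ring

theorem five (t : F) : uu t * ww F ∉ BB F := by
  rw [mem_BB]
  simp only [ent, ent2]
  exact one_ne_zero

theorem six {W : Type} [AddCommGroup W] [Module K W] (ρ : SL →* Module.End K W) (q : W)
    (hq : q ∈ Fx ρ (BB F)) : q + ∑ t : F, ρ (uu t * ww F) q ∈ Fx ρ Set.univ := by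
  replace hq : ∀ g ∈ BB F, ρ g q = q := hq
  have app : ∀ (g h : SL) (v : W), ρ g (ρ h v) = ρ (g * h) v := fun g h v => by
    rw [map_mul, Module.End.mul_apply]
  set v := q + ∑ t : F, ρ (uu t * ww F) q with hv
  have hu : ∀ s, ρ (uu s) v = v := fun s => by
    rw [hv, map_add, map_sum, hq _ (UU_le_BB (uu_mem s))]
    congr 1
    refine Fintype.sum_equiv (Equiv.addLeft s) _ _ fun t => ?_
    rw [app, ← mul_assoc, ← uu_add]
    rfl
  have hw : ρ (ww F) v = v := by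
    have h0 : ρ (ww F * (uu 0 * ww F)) q = q := hq _ (by rw [mem_BB]; simp only [ent, ent2])
    have h1 : ∀ t : F, t ≠ 0 → ρ (ww F * (uu t * ww F)) q = ρ (uu (-t⁻¹) * ww F) q := by
      intro t ht
      have hb : (uu (-t⁻¹) * ww F)⁻¹ * (ww F * (uu t * ww F)) ∈ BB F := by
        rw [mem_BB]
        simp only [ent, ent2]
        field_simp
        ring
      conv_rhs => rw [← hq _ hb, app, mul_inv_cancel_left]
    have h2 : ∑ t : F, ρ (uu (-t⁻¹) * ww F) q = ∑ t : F, ρ (uu t * ww F) q :=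
      Fintype.sum_equiv ((Equiv.inv F).trans (Equiv.neg F)) _ _ fun t => rfl
    rw [hv, map_add, map_sum]
    conv_rhs => rw [← h2]
    simp only [app]
    rw [← add_sum_erase _ _ (mem_univ (0 : F)), ← add_sum_erase _ _ (mem_univ (0 : F)), h0,
      sum_congr rfl fun t ht => h1 t (ne_of_mem_erase ht), inv_zero, neg_zero, uu_zero, one_mul,
      add_left_comm]
  intro g _
  refine SL2_ind (fun g => ρ g v = v) hu (fun t => ?_) (fun a b ha hb => ?_) g
  · have e : ll t * ww F = ww F * uu (-t) := by apply SL2_ext <;> simp only [ent, ent2] <;> ring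
    show ρ (ll t) v = v
    conv_lhs => rw [← hw, app, e, ← app, hu, hw]
  · show ρ (a * b) v = v
    rw [← app, hb, ha]

theorem tr3 : Tr3Stmt := ⟨bru, two, three, four, five, fun _ _ _ _ ρ q hq => six ρ q hq⟩

end Cfsg.Agent.H65.E82Tr3
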