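import Mathlib
import Cfsg.Agent.H98.GbH

/-! The big cell in the Gelfand-Graev multiplicity of a parabolically induced function. -/

set_option autoImplicit false
set_option linter.unusedSectionVars false

namespace Cfsg.Agent.H65.GbDel1b

open Cfsg.Agent.H98.GB Matrix Finset
open scoped ComplexConjugate MatrixGroups

universe u

variable {F : Type u} [Field F] {a b n : ℕ}

theorem eqv_inl (h : a + b = n) (i : Fin a) : (eqv h (Sum.inl i)).val = i := by simp [eqv]

theorem eqv_inr (h : a + b = n) (i : Fin b) : (eqv h (Sum.inr i)).val = a + i := by simp [eqv]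

theorem tri_apply (h : a + b = n) (u : GL (Fin a) F) (c : Matrix (Fin a) (Fin b) F)
    (v : GL (Fin b) F) (i j : Fin a ⊕ Fin b) :
    (tri h u c v).1 (eqv h i) (eqv h j) = fromBlocks u.1 c 0 v.1 i j := by simp [coe_tri]

theorem exists_tri (h : a + b = n) (g : GL (Fin n) F)
    (hz : ∀ i j, g.1 (eqv h (Sum.inr i)) (eqv h (Sum.inl j)) = 0) : ∃ u c v, g = tri h u c v := by
  let M := g.1.submatrix (eqv h) (eqv h)
  have hM : M = fromBlocks M.toBlocks₁₁ M.toBlocks₁₂ 0 M.toBlocks₂₂ := by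
    conv_lhs => rw [← fromBlocks_toBlocks M]
    congr 1
    ext i j
    exact hz i j
  have hd : M.toBlocks₁₁.det * M.toBlocks₂₂.det ≠ 0 := by
    rw [← det_fromBlocks_zero₂₁ _ M.toBlocks₁₂, ← hM, det_submatrix_equiv_self]
    exact g.det_ne_zero
  refine ⟨GeneralLinearGroup.mkOfDetNeZero _ (left_ne_zero_of_mul hd), M.toBlocks₁₂,
    GeneralLinearGroup.mkOfDetNeZero _ (right_ne_zero_of_mul hd), Units.ext ?_⟩
  rw [coe_tri]
  show _ = reindex _ _ (fromBlocks M.toBlocks₁₁ M.toBlocks₁₂ 0 M.toBlocks₂₂)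
  rw [← hM]
  simp [M]

theorem isU_tri (h : a + b = n) (u : GL (Fin a) F) (c : Matrix (Fin a) (Fin b) F)
    (v : GL (Fin b) F) : IsU (tri h u c v) ↔ IsU u ∧ IsU v := by
  constructor
  · refine fun H => ⟨fun i j hij => ?_, fun i j hij => ?_⟩
    · have := H (eqv h (Sum.inl i)) (eqv h (Sum.inl j))
        (by rw [Fin.le_def, eqv_inl, eqv_inl]; exact hij)
      simpa [tri_apply] using this
    · have := H (eqv h (Sum.inr i)) (eqv h (Sum.inr j))
        (by rw [Fin.le_def, eqv_inr, eqv_inr]; exact Nat.add_le_add_left hij _)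
      simpa [tri_apply] using this
  · rintro ⟨hu, hv⟩ i j hij
    obtain ⟨i, rfl⟩ := (eqv h).surjective i
    obtain ⟨j, rfl⟩ := (eqv h).surjective j
    rw [tri_apply]
    rw [Fin.le_def] at hij
    rcases i with i | i <;> rcases j with j | j <;> simp only [eqv_inl, eqv_inr] at hij
    · simpa using hu i j hij
    · have := i.2
      omega
    · simp
    · simpa using hv i j (Nat.le_of_add_le_add_left hij)

theorem exists_tri_of_isU (h : a + b = n) {g : GL (Fin n) F} (hg : IsU g) :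
    ∃ u c v, g = tri h u c v := exists_tri h g fun i j => by
  have := hg (eqv h (Sum.inr i)) (eqv h (Sum.inl j))
    (by rw [Fin.le_def, eqv_inl, eqv_inr]; have := j.2; omega)
  simpa using this

theorem sd_tri (h : a + b = n) (u : GL (Fin a) F) (c : Matrix (Fin a) (Fin b) F)
    (v : GL (Fin b) F) : sd (tri h u c v) =
      sd u + sd v + ∑ i, ∑ j, if a + j.val = i.val + 1 then c i j else 0 := by
  have e : sd (tri h u c v) = ∑ i, ∑ j, if (eqv h j).val = (eqv h i).val + 1 then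
      fromBlocks u.1 c 0 v.1 i j else 0 := by
    rw [sd, ← (eqv h).sum_comp]
    refine sum_congr rfl fun i _ => ?_
    rw [← (eqv h).sum_comp]
    simp only [tri_apply]
  rw [e]
  simp only [Fintype.sum_sum_type, eqv_inl, eqv_inr, fromBlocks_apply₁₁, fromBlocks_apply₁₂,
    fromBlocks_apply₂₁, fromBlocks_apply₂₂, Matrix.zero_apply, ite_self, sum_const_zero, zero_add,
    sum_add_distrib, sd, add_assoc, Nat.add_left_cancel_iff]
  ring

theorem sd_comm (h : a + b = n) {u : GL (Fin a) F} {v : GL (Fin b) F} (hu : IsU u) (hv : IsU v)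
    (s : Matrix (Fin a) (Fin b) F) : sd (tri h u (s * v.1 - u.1 * s) v) = sd u + sd v := by
  rw [sd_tri, add_eq_left]
  refine sum_eq_zero fun i _ => sum_eq_zero fun j _ => ?_
  split_ifs with hij
  · have hi := i.2
    have h1 : (s * v.1) i j = s i j := by
      rw [mul_apply, sum_eq_single j]
      · rw [hv j j le_rfl, if_pos rfl, mul_one]
      · intro k _ hk
        rw [hv k j (by rw [Fin.le_def]; omega), if_neg hk, mul_zero]
      · simp
    have h2 : (u.1 * s) i j = s i j := by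
      rw [mul_apply, sum_eq_single i]
      · rw [hu i i le_rfl, if_pos rfl, one_mul]
      · intro k _ hk
        have := k.2
        rw [hu i k (by rw [Fin.le_def]; omega), if_neg (Ne.symm hk), zero_mul]
      · simp
    rw [Matrix.sub_apply, h1, h2, sub_self]
  · rfl

theorem tri_inv (h : a + b = n) (u : GL (Fin a) F) (c : Matrix (Fin a) (Fin b) F)
    (v : GL (Fin b) F) : (tri h u c v)⁻¹ = tri h u⁻¹ (-((u⁻¹).1 * c * (v⁻¹).1)) v⁻¹ := by
  refine inv_eq_of_mul_eq_one_right ?_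
  rw [tri_mul, mul_inv_cancel, mul_inv_cancel, Matrix.mul_neg, ← Matrix.mul_assoc,
    ← Matrix.mul_assoc, Units.mul_inv, Matrix.one_mul, neg_add_cancel, tri_one]

/-- The block swap. -/
def sw (F : Type u) [Field F] (h : a + b = n) (h' : b + a = n) : GL (Fin n) F where
  val := (fromBlocks 0 1 1 0 : Matrix (Fin b ⊕ Fin a) (Fin a ⊕ Fin b) F).submatrix
    (eqv h').symm (eqv h).symm
  inv := (fromBlocks 0 1 1 0 : Matrix (Fin a ⊕ Fin b) (Fin b ⊕ Fin a) F).submatrix
    (eqv h).symm (eqv h').symm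
  val_inv := by simp [submatrix_mul_equiv, fromBlocks_multiply]
  inv_val := by simp [submatrix_mul_equiv, fromBlocks_multiply]

theorem coe_wm (h : a + b = n) (h' : b + a = n) : (sw F h h').1 =
    (fromBlocks 0 1 1 0 : Matrix (Fin b ⊕ Fin a) (Fin a ⊕ Fin b) F).submatrix
      (eqv h').symm (eqv h).symm := rfl

theorem coe_wm_inv (h : a + b = n) (h' : b + a = n) : ((sw F h h')⁻¹).1 =
    (fromBlocks 0 1 1 0 : Matrix (Fin a ⊕ Fin b) (Fin b ⊕ Fin a) F).submatrix
      (eqv h).symm (eqv h').symm := rfl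

theorem rot_pow (k : ℕ) (i : Fin n) : ((finRotate n ^ k) i).val = (i.val + k) % n := by
  rcases n with _ | n
  · exact i.elim0
  induction k with
  | zero => simp [Nat.mod_eq_of_lt i.2]
  | succ k ih =>
    rw [pow_succ', Equiv.Perm.mul_apply, finRotate_apply, Fin.val_add, ih, Fin.val_one',
      ← Nat.add_mod, add_assoc]

theorem dl_wm (h : a + b = n) (h' : b + a = n) {η : Fˣ →* ℂˣ} (hη : η ^ a = 1) :
    dl η n (sw F h h') = 1 := by
  have e : (sw F h h').1 = (finRotate n ^ a).permMatrix F := by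
    ext i j
    obtain ⟨i, rfl⟩ := (eqv h').surjective i
    obtain ⟨j, rfl⟩ := (eqv h).surjective j
    have h1 : ((finRotate n ^ a).permMatrix F) (eqv h' i) (eqv h j) =
        if ((eqv h' i).val + a) % n = (eqv h j).val then 1 else 0 := by
      simp only [PEquiv.toMatrix_apply, Equiv.toPEquiv_apply, Option.mem_def, Option.some.injEq,
        Fin.ext_iff, rot_pow]
    rw [h1, coe_wm, submatrix_apply, Equiv.symm_apply_apply, Equiv.symm_apply_apply]
    rcases i with i | i <;> rcases j with j | j <;> have hi := i.2 <;> have hj := j.2 <;>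
      simp only [eqv_inl, eqv_inr, fromBlocks_apply₁₁, fromBlocks_apply₁₂, fromBlocks_apply₂₁,
        fromBlocks_apply₂₂, Matrix.zero_apply, one_apply, Fin.ext_iff]
    · rw [Nat.mod_eq_of_lt (by omega), if_neg (by omega)]
    · rw [Nat.mod_eq_of_lt (by omega)]
      exact if_congr (by omega) rfl rfl
    · rw [show b + i + a = i + n by omega, Nat.add_mod_right, Nat.mod_eq_of_lt (by omega)]
    · rw [show b + i + a = i + n by omega, Nat.add_mod_right, Nat.mod_eq_of_lt (by omega),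
        if_neg (by omega)]
  have e2 : GeneralLinearGroup.det (sw F h h') =
      Units.map (Int.castRingHom F).toMonoidHom (Equiv.Perm.sign (finRotate n)) ^ a := by
    refine Units.ext ?_
    rw [GeneralLinearGroup.val_det_apply, e, det_permutation]
    simp
  rw [dl, MonoidHom.comp_apply, e2, map_pow, ← MonoidHom.pow_apply, hη, MonoidHom.one_apply]

theorem coe_mk (h : a + b = n) (h' : b + a = n) (s : Matrix (Fin b) (Fin a) F) (u : GL (Fin a) F)
    (c : Matrix (Fin a) (Fin b) F) (v : GL (Fin b) F) :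
    (tri h' 1 s 1 * sw F h h' * tri h u c v).1 =
      (fromBlocks (s * u.1) (s * c + v.1) u.1 c).submatrix (eqv h').symm (eqv h).symm := by
  simp [coe_tri, coe_wm, submatrix_mul_equiv, fromBlocks_multiply]

theorem coe_conj (h : a + b = n) (h' : b + a = n) (u : GL (Fin a) F)
    (c : Matrix (Fin b) (Fin a) F) (v : GL (Fin b) F) :
    ((sw F h h')⁻¹ * tri h' v c u * sw F h h').1 =
      (fromBlocks u.1 0 c v.1).submatrix (eqv h).symm (eqv h).symm := by
  rw [Units.val_mul, Units.val_mul, coe_wm_inv]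
  simp [coe_tri, coe_wm, submatrix_mul_equiv, fromBlocks_multiply]

theorem mk_inj {h : a + b = n} {h' : b + a = n} {s s' : Matrix (Fin b) (Fin a) F}
    {u u' : GL (Fin a) F} {c c' : Matrix (Fin a) (Fin b) F} {v v' : GL (Fin b) F}
    (e : tri h' 1 s 1 * sw F h h' * tri h u c v = tri h' 1 s' 1 * sw F h h' * tri h u' c' v') :
    s = s' ∧ u = u' ∧ c = c' ∧ v = v' := by
  have e' := congrArg Units.val e
  rw [coe_mk, coe_mk] at e'
  have e2 := fromBlocks_inj.1 ((reindex (eqv h') (eqv h)).injective e')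
  obtain rfl : u = u' := Units.ext e2.2.2.1
  obtain rfl : s = s' := by
    have := congrArg (· * (u⁻¹).1) e2.1
    simpa [Matrix.mul_assoc] using this
  obtain rfl : c = c' := e2.2.2.2
  exact ⟨rfl, rfl, rfl, Units.ext (add_left_cancel e2.2.1)⟩

theorem mem_stdS (h : a + b = n) (y : Fin n → F) :
    y ∈ stdS F n a ↔ ∀ i, y (eqv h (Sum.inr i)) = 0 := by
  refine ⟨fun H i => H _ (by rw [eqv_inr]; omega), fun H i hi => ?_⟩
  obtain ⟨i, rfl⟩ := (eqv h).surjective i
  rcases i with i | i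
  · rw [eqv_inl] at hi
    exact absurd i.2 (by omega)
  · exact H i

theorem mulVec_std (h : a + b = n) (x : Matrix (Fin n) (Fin n) F) {y : Fin n → F}
    (hy : y ∈ stdS F n a) (k : Fin n) :
    (x *ᵥ y) k = ∑ j, x k (eqv h (Sum.inl j)) * y (eqv h (Sum.inl j)) := by
  rw [mulVec, dotProduct, ← (eqv h).sum_comp, Fintype.sum_sum_type]
  simp [(mem_stdS h y).1 hy]

theorem cell_iff (h : a + b = n) (h' : b + a = n) (x : GL (Fin n) F) :
    imS a x ⊓ stdS F n b = ⊥ ↔
      (x.1.submatrix (fun i => eqv h' (Sum.inr i)) (fun j => eqv h (Sum.inl j))).det ≠ 0 := by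
  rw [Ne, ← exists_mulVec_eq_zero_iff, Submodule.eq_bot_iff]
  constructor
  · rintro H ⟨y, hy0, hy⟩
    let z : Fin n → F := fun k => Sum.elim y 0 ((eqv h).symm k)
    have hz : z ∈ stdS F n a := (mem_stdS h z).2 fun i => by simp [z]
    have h1 : x.1 *ᵥ z = 0 := H _ ⟨⟨z, hz, rfl⟩, (mem_stdS h' _).2 fun i => by
      rw [mulVec_std h _ hz]
      simpa [z, mulVec, dotProduct] using congrFun hy i⟩
    have h2 : z = 0 := by
      have := congrArg ((x⁻¹).1 *ᵥ ·) h1
      simpa [mulVec_mulVec] using this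
    refine hy0 (funext fun j => ?_)
    simpa [z] using congrFun h2 (eqv h (Sum.inl j))
  · rintro H _ ⟨⟨z, hz, rfl⟩, h1⟩
    have h2 : (fun j => z (eqv h (Sum.inl j))) = 0 := by
      by_contra h3
      refine H ⟨_, h3, funext fun i => ?_⟩
      have := (mem_stdS h' _).1 h1 i
      rw [H22.Cusp.natRep_apply, mulVec_std h _ hz] at this
      simpa [mulVec, dotProduct] using this
    have h3 : z = 0 := by
      funext k
      obtain ⟨k, rfl⟩ := (eqv h).surjective k
      rcases k with k | k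
      · exact congrFun h2 k
      · exact (mem_stdS h z).1 hz k
    rw [h3, map_zero]

theorem cell_iff' (h : a + b = n) (h' : b + a = n) (x : GL (Fin n) F) :
    imS a x ⊓ stdS F n b = ⊥ ↔ ∃ s u c v, x = tri h' 1 s 1 * sw F h h' * tri h u c v := by
  rw [cell_iff h h']
  constructor
  · intro hd
    let M := x.1.submatrix (eqv h') (eqv h)
    let u : GL (Fin a) F := GeneralLinearGroup.mkOfDetNeZero _ hd
    have hu : u.1 = M.toBlocks₂₁ := rfl
    have hx : x.1 = (fromBlocks M.toBlocks₁₁ M.toBlocks₁₂ u.1 M.toBlocks₂₂).submatrix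
        (eqv h').symm (eqv h).symm := by
      rw [hu, fromBlocks_toBlocks]
      simp [M]
    obtain ⟨u', c, v, e⟩ := exists_tri h
      ((sw F h h')⁻¹ * (tri h' 1 (-(M.toBlocks₁₁ * (u⁻¹).1)) 1 * x)) fun i j => by
        rw [Units.val_mul, Units.val_mul, coe_wm_inv, hx]
        simp [coe_tri, submatrix_mul_equiv, fromBlocks_multiply, Matrix.mul_assoc]
    refine ⟨M.toBlocks₁₁ * (u⁻¹).1, u', c, v, ?_⟩
    rw [← e, mul_assoc, mul_inv_cancel_left, ← mul_assoc, tri_mul]
    simp [tri_one]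
  · rintro ⟨s, u, c, v, rfl⟩
    rw [coe_mk]
    convert u.det_ne_zero using 2
    ext i j
    simp

variable [Fintype F] [DecidableEq F]

open Classical in
theorem sumU (h : a + b = n) (H : GL (Fin n) F → ℂ) :
    ∑ g ∈ univ.filter fun g : GL (Fin n) F => IsU g, H g =
      ∑ u ∈ univ.filter fun g : GL (Fin a) F => IsU g, ∑ v ∈ univ.filter fun g : GL (Fin b) F => IsU g,
        ∑ c : Matrix (Fin a) (Fin b) F, H (tri h u c v) := by
  simp only [← sum_product']
  symm
  refine sum_bij (fun t _ => tri h t.1 t.2.2 t.2.1) (fun t ht => ?_) (fun t _ t' _ e => ?_)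
    (fun g hg => ?_) fun _ _ => rfl
  · simp only [mem_product, mem_filter, mem_univ, true_and, and_true] at ht ⊢
    exact (isU_tri ..).2 ht
  · obtain ⟨h1, h2, h3⟩ := tri_inj e
    exact Prod.ext h1 (Prod.ext h3 h2)
  · have hg' := (mem_filter.1 hg).2
    obtain ⟨u, c, v, rfl⟩ := exists_tri_of_isU h hg'
    exact ⟨(u, v, c), by simpa using (isU_tri ..).1 hg', rfl⟩

theorem sumS (h : a + b = n) (h' : b + a = n)
    {D : DecidablePred fun x : GL (Fin n) F => imS a x ⊓ stdS F n b = ⊥} (H : GL (Fin n) F → ℂ) :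
    ∑ x ∈ univ.filter fun x : GL (Fin n) F => imS a x ⊓ stdS F n b = ⊥, H x =
      ∑ t : Matrix (Fin b) (Fin a) F × GL (Fin a) F × Matrix (Fin a) (Fin b) F × GL (Fin b) F,
        H (tri h' 1 t.1 1 * sw F h h' * tri h t.2.1 t.2.2.1 t.2.2.2) := by
  symm
  refine sum_bij (fun t _ => tri h' 1 t.1 1 * sw F h h' * tri h t.2.1 t.2.2.1 t.2.2.2)
    (fun t _ => ?_) (fun t _ t' _ e => ?_) (fun g hg => ?_) fun _ _ => rfl
  · exact mem_filter.2 ⟨mem_univ _, (cell_iff' h h' _).2 ⟨_, _, _, _, rfl⟩⟩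
  · obtain ⟨h1, h2, h3, h4⟩ := mk_inj e
    exact Prod.ext h1 (Prod.ext h2 (Prod.ext h3 h4))
  · obtain ⟨s, u, c, v, rfl⟩ := (cell_iff' h h' g).1 (mem_filter.1 hg).2
    exact ⟨(s, u, c, v), mem_univ _, rfl⟩

/-- The inflation to the parabolic subgroup, extended by zero. -/
noncomputable def Ph (h : a + b = n) (f : GL (Fin a) F → ℂ) (f' : GL (Fin b) F → ℂ)
    (y : GL (Fin n) F) : ℂ :=
  ∑ u, ∑ c : Matrix (Fin a) (Fin b) F, ∑ v, if y = tri h u c v then f u * f' v else 0

variable {h : a + b = n} {f : GL (Fin a) F → ℂ} {f' : GL (Fin b) F → ℂ} {η : Fˣ →* ℂˣ}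

theorem Ph_tri (u : GL (Fin a) F) (c : Matrix (Fin a) (Fin b) F) (v : GL (Fin b) F) :
    Ph h f f' (tri h u c v) = f u * f' v := by
  have e : ∀ u' c' v', tri h u c v = tri h u' c' v' ↔ u = u' ∧ c = c' ∧ v = v' := fun u' c' v' =>
    ⟨tri_inj, by rintro ⟨rfl, rfl, rfl⟩; rfl⟩
  simp [Ph, e, ite_and]

theorem Ph_ne {y : GL (Fin n) F} (hy : ∀ u c v, y ≠ tri h u c v) : Ph h f f' y = 0 :=
  sum_eq_zero fun u _ => sum_eq_zero fun c _ => sum_eq_zero fun v _ => if_neg (hy u c v)

theorem Ph_conj (hf : Tw (dl η a) f) (hf' : Tw (dl η b) f') (u : GL (Fin a) F)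
    (c : Matrix (Fin a) (Fin b) F) (v : GL (Fin b) F) (y : GL (Fin n) F) :
    Ph h f f' (tri h u c v * y * (tri h u c v)⁻¹) = (dl η n (tri h u c v) : ℂ) * Ph h f f' y := by
  by_cases hy : ∃ u c v, y = tri h u c v
  · obtain ⟨u', c', v', rfl⟩ := hy
    rw [tri_inv, tri_mul, tri_mul, Ph_tri, Ph_tri, hf, hf', dl_tri, Units.val_mul]
    ring
  · rw [Ph_ne fun u c v e => hy ⟨u, c, v, e⟩, mul_zero]
    refine Ph_ne fun u' c' v' e => hy ?_
    have : y = (tri h u c v)⁻¹ * tri h u' c' v' * tri h u c v := by rw [← e]; group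
    rw [this, tri_inv, tri_mul, tri_mul]
    exact ⟨_, _, _, rfl⟩

theorem Ph_sw (h' : b + a = n) (u : GL (Fin a) F) (c : Matrix (Fin b) (Fin a) F) (v : GL (Fin b) F) :
    Ph h f f' ((sw F h h')⁻¹ * tri h' v c u * sw F h h') = if c = 0 then f u * f' v else 0 := by
  split_ifs with hc
  · rw [← Ph_tri (h := h) u 0 v]
    congr 1
    refine Units.ext ?_
    rw [coe_conj, hc]
    rfl
  · refine Ph_ne fun u' c' v' e => hc ?_
    have e' := congrArg Units.val e
    rw [coe_conj, coe_tri] at e'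
    exact (fromBlocks_inj.1 ((reindex (eqv h) (eqv h)).injective e')).2.2.1

open Classical in
theorem cmpS_eq (S : GL (Fin n) F → Prop) (g : GL (Fin n) F) : cmpS S η h f f' g =
    ((Fintype.card (GL (Fin a) F) * Fintype.card (GL (Fin b) F) *
      Fintype.card F ^ (a * b) : ℕ) : ℂ)⁻¹ *
      ∑ x ∈ univ.filter S, (dl η n x : ℂ) * Ph h f f' (x⁻¹ * g * x) := by
  rw [cmpS, sum_filter]
  refine congrArg _ (sum_congr rfl fun x _ => ?_)
  by_cases hx : S x
  · rw [if_pos hx, Ph]
    simp only [mul_sum]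
    refine sum_congr rfl fun u _ => sum_congr rfl fun c _ => sum_congr rfl fun v _ => ?_
    have e : (S x ∧ g = x * tri h u c v * x⁻¹) ↔ x⁻¹ * g * x = tri h u c v :=
      ⟨fun H => by rw [H.2]; group, fun H => ⟨hx, by rw [← H]; group⟩⟩
    rw [if_congr e rfl rfl, mul_ite, mul_zero, mul_assoc _ (f u)]
  · simp [hx]

open Classical in
theorem cell_sum (h' : b + a = n) (ψ : AddChar F ℂ) (hf : Tw (dl η a) f) (hf' : Tw (dl η b) f')
    (s : Matrix (Fin b) (Fin a) F) (u : GL (Fin a) F) (c : Matrix (Fin a) (Fin b) F)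
    (v : GL (Fin b) F) {x : GL (Fin n) F} (hx : x = tri h' 1 s 1 * sw F h h' * tri h u c v) :
    ∑ g ∈ univ.filter fun g : GL (Fin n) F => IsU g,
      (dl η n x : ℂ) * Ph h f f' (x⁻¹ * g * x) * conj (ψ (sd g)) =
      dl η n (sw F h h') * ((∑ g ∈ univ.filter fun g : GL (Fin a) F => IsU g, f g * conj (ψ (sd g))) *
        ∑ g ∈ univ.filter fun g : GL (Fin b) F => IsU g, f' g * conj (ψ (sd g))) := by
  have h1 : ∀ g, (dl η n x : ℂ) * Ph h f f' (x⁻¹ * g * x) = dl η n (sw F h h') *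
      Ph h f f' ((sw F h h')⁻¹ * ((tri h' 1 s 1)⁻¹ * g * tri h' 1 s 1) * sw F h h') := fun g => by
    have e : (sw F h h')⁻¹ * ((tri h' 1 s 1)⁻¹ * g * tri h' 1 s 1) * sw F h h' =
        tri h u c v * (x⁻¹ * g * x) * (tri h u c v)⁻¹ := by rw [hx]; group
    rw [e, Ph_conj hf hf', ← mul_assoc, ← Units.val_mul]
    congr 2
    rw [hx, map_mul, map_mul, dl_tri η h', map_one, map_one, one_mul, one_mul]
  have h2 : ∀ v' c' u', (tri h' 1 s 1)⁻¹ * tri h' v' c' u' * tri h' 1 s 1 =
      tri h' v' (c' - (s * u'.1 - v'.1 * s)) u' := fun v' c' u' => by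
    rw [tri_inv, tri_mul, tri_mul]
    simp only [inv_one, one_mul, mul_one, Units.val_one, Matrix.one_mul, Matrix.mul_one,
      Matrix.neg_mul]
    congr 1
    abel
  simp only [h1]
  rw [sumU h', sum_mul_sum, sum_comm, mul_sum]
  refine sum_congr rfl fun u' hu' => ?_
  rw [mul_sum]
  refine sum_congr rfl fun v' hv' => ?_
  simp only [h2, Ph_sw, sub_eq_zero, mul_ite, ite_mul, mul_zero, zero_mul, sum_ite_eq', mem_univ,
    if_true]
  rw [sd_comm h' (mem_filter.1 hv').2 (mem_filter.1 hu').2, AddChar.map_add_eq_mul, map_mul]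
  ring

theorem del1b (hT : TWCStmt.{u}) : DEL1bStmt.{u} := by
  intro F _ _ _ η ψ a b n h f f' hf hf'
  classical
  have h' : b + a = n := (add_comm b a).trans h
  by_cases h0 : f = 0
  · subst h0
    simp [dlt, cmpS]
  have hw := dl_wm (F := F) h h' ((hT F η).2.2.2.2 a f hf h0)
  have hm : ∀ a b : ℕ, Fintype.card (Matrix (Fin a) (Fin b) F) = Fintype.card F ^ (a * b) :=
    fun a b => by
      rw [← Fintype.card_congr (Matrix.of : (Fin a → Fin b → F) ≃ _)]
      simp [← pow_mul, mul_comm]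
  have hc : (#(univ.filter fun g : GL (Fin n) F => IsU g) : ℂ) =
      #(univ.filter fun g : GL (Fin a) F => IsU g) * (#(univ.filter fun g : GL (Fin b) F => IsU g) *
        (Fintype.card F : ℂ) ^ (a * b)) := by
    simpa [hm] using sumU h fun _ : GL (Fin n) F => 1
  have hq : (Fintype.card F : ℂ) ≠ 0 := Nat.cast_ne_zero.2 Fintype.card_ne_zero
  have ha : (Fintype.card (GL (Fin a) F) : ℂ) ≠ 0 := Nat.cast_ne_zero.2 Fintype.card_ne_zero
  have hb : (Fintype.card (GL (Fin b) F) : ℂ) ≠ 0 := Nat.cast_ne_zero.2 Fintype.card_ne_zero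
  rw [dlt, dlt, dlt, sum_congr rfl fun g _ => by rw [cmpS_eq, mul_assoc, sum_mul], ← mul_sum,
    sum_comm, sumS h h', sum_congr rfl fun t _ => cell_sum h' ψ hf hf' _ _ _ _ rfl, hw, hc]
  simp only [sum_const, card_univ, Fintype.card_prod, hm, nsmul_eq_mul, Units.val_one, one_mul,
    mul_inv]
  push_cast
  rw [mul_comm b a]
  generalize (#(univ.filter fun g : GL (Fin a) F => IsU g) : ℂ)⁻¹ = A
  generalize (#(univ.filter fun g : GL (Fin b) F => IsU g) : ℂ)⁻¹ = B
  field_simp

end Cfsg.Agent.H65.GbDel1b
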