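import Mathlib
import Cfsg.Agent.H98.GbL
import Cfsg.Agent.H10.GbOne
import Cfsg.Agent.H40.GbDec

/-! Base points for a class of Green characters fixed by a linear character. -/

set_option autoImplicit false

namespace Cfsg.Agent.H65.GbTh3

open Cfsg Cfsg.Agent.H98.GB Finset
open scoped ComplexConjugate MatrixGroups

universe u

theorem wgt_range (e N : ℕ) : H19.wgt e (range N) = 0 := by
  by_contra h
  obtain ⟨x, h1, -, h2⟩ := H19.exists_move_of_wgt h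
  rw [mem_range] at h1 h2
  omega

variable {F : Type u} [Field F] [Fintype F] [DecidableEq F]

/-- The regular part of a primitive element still kills a regular vacuum. -/
theorem vac_pi (hP : PIMStmt.{u}) {η : Fˣ →* ℂˣ} {H : Hall η} (hF : H.Fock) {p : ℕ} (hp : p.Prime)
    (hpF : p ≠ ringChar F) {m k0 : ℕ} {y v : H.A} (hy : H.Pr m y) (hv : H.Hg k0 v)
    (hr : H.pi p v = v) (h0 : H.D m y v = 0) : H.D m (H.pi p y) v = 0 := by
  obtain ⟨T, hT, -, hg, -, hi, ha⟩ := hP F η H p hp hpF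
  rcases lt_or_ge k0 m with h | h
  · exact hF.D_lt _ hv h
  obtain ⟨k, rfl⟩ := Nat.exists_eq_add_of_le h
  refine hF.ip_self (hF.D_hg _ hv) ?_
  generalize hw : H.D m (H.pi p y) v = w
  have e : H.pi p (H.pi p y * w) = H.pi p (y * H.pi p w) := by
    rw [← hT (_ * _), ← hT (_ * _), map_mul, map_mul, hT, hT, hT, hT, hi, hi]
  conv_lhs => rw [← hw]
  rw [← hF.adj (hg _ _ hy.1), hw, ← hr, ← ha, e, ha, hr, hF.adj hy.1, h0]
  simp [Hall.ip, classInner]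

theorem th3 (hA : ALGStmt.{u}) (hF : FOCKStmt.{u}) (hN : NWEHStmt.{u}) (hG : GRAMStmt.{u})
    (hP : PIMStmt.{u}) (_hS : SYSStmt.{u}) (_hH : HISOStmt.{u}) (hL : LABStmt.{u})
    (_hI : IRRStmt.{u}) (hC : COREStmt.{u}) (ha : TH2aStmt.{u}) (hb : TH2bStmt.{u})
    (hc : TH2cStmt.{u}) (hR : RK1Stmt.{u}) : TH3Stmt.{u} := by
  intro F _ _ _ C n hn Λ0 h0 hB c hc1
  classical
  have hO := H10.GbOne.one H40.GbDec.dec.{u}
  have L := hL F C
  obtain ⟨hc2, hfix⟩ := mem_filter.1 hc1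
  obtain ⟨hq, hu, hcl⟩ := (mem_filter.1 hc2).2
  have hq' : C.qL * -c = -c := by rw [mul_neg, hq]
  let HH : ∀ j : ℕ, Hall (C.eta c ^ j) := fun j => (hA F _).some
  let In : C.Φ → Prop := fun φ => C.II Λ0 (C.lp φ)
  obtain ⟨P, hT⟩ := ha F C c hq HH In hfix
  let Λo := C.rs (fun φ => ¬ In φ) Λ0
  have hin : ∀ φ, In φ → Λo φ = range C.N := fun φ h => if_neg (not_not.2 h)
  have hout : ∀ φ, ¬ In φ → Λo φ = Λ0 φ := fun φ h => if_pos h
  have hlo : C.IsLab (wt C.dg Λo) Λo := ⟨fun φ => by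
    by_cases h : In φ
    · rw [hin φ h, card_range]
    · rw [hout φ h, h0.1], rfl⟩
  have hk0 : wt C.dg Λo ≤ C.n0 := by
    refine le_trans ?_ (h0.2.trans_le hn)
    refine sum_le_sum fun φ _ => ?_
    by_cases h : In φ
    · rw [hin φ h, H19.wtS_range]
      exact Nat.zero_le _
    · rw [hout φ h]
  have htw : C.twL c Λo = Λo := by
    funext φ
    show Λo (C.tw (-c) φ) = Λo φ
    by_cases h : In φ
    · have := L.tw_tw (-c) c φ hq' hq
      rw [hfix φ h, neg_add_cancel, L.tw_zero] at this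
      rw [this]
    · have h' : ¬ In (C.tw (-c) φ) := fun h' => by
        have := hfix _ h'
        rw [L.tw_tw c (-c) φ hq hq', add_neg_cancel, L.tw_zero] at this
        exact h (this ▸ h')
      rw [hout _ h, hout _ h']
      exact L.out_eq Λ0 (C.twL c Λ0) h0.1 (fun φ => h0.1 _) hB hcl φ h
  have hreg : pRegularPart C.p (C.sC Λo (wt C.dg Λo)) = C.sC Λo (wt C.dg Λo) := by
    refine hC F C _ hk0 Λo hlo (fun φ hφ => ?_) fun Γ hΓ => ?_
    · by_cases h : In φ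
      · exact hin φ h
      · rw [hout φ h, hB φ hφ]
    · by_cases h : In Γ
      · rw [hin Γ h, wgt_range]
      · rw [hout Γ h]
        by_contra h1
        exact h (show C.II Λ0 (C.lp Γ) from (show C.lp Γ = Γ from hΓ).symm ▸ ⟨hΓ, h1⟩)
  obtain ⟨v, hv⟩ := hb F C c hq hu HH In P hT _ hk0 Λo hlo htw hin hreg
  have key : ∀ Λ, Λ ∈ C.cls Λ0 → C.IsLab n Λ → Λo = C.rs (fun φ => ¬ In φ) Λ := fun Λ h1 h2 => by
    funext φ
    by_cases h : In φ
    · exact (hin φ h).trans (if_neg (not_not.2 h)).symm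
    · exact (hout φ h).trans ((L.out_eq Λ0 Λ h0.1 h2.1 hB h1 φ h).symm.trans (if_pos h).symm)
  choose θ hθ using fun Λ (h1 : Λ ∈ C.cls Λ0) (h2 : C.IsLab n Λ) =>
    hc F C c HH In P hT _ Λo v hv hlo n hn Λ h2 (key Λ h1 h2)
  have hex : ∀ χ : IrrCharacter (GL (Fin n) F), ∃ t : IrrCharacter (dl (C.eta c) n).ker,
      χ ∈ C.XC n (C.cls Λ0) → ∃ Λ h1 h2, χ.1 = C.sC Λ n ∧ t = θ Λ h1 h2 := fun χ => by
    by_cases h : χ ∈ C.XC n (C.cls Λ0)
    · obtain ⟨Λ, h1, h2, h3⟩ := h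
      exact ⟨θ Λ h1 h2, fun _ => ⟨Λ, h1, h2, h3, rfl⟩⟩
    · exact ⟨θ Λ0 (fun _ _ => ⟨rfl, rfl⟩) h0, fun h' => absurd h' h⟩
  choose t ht using hex
  have h1 : ∀ χ ∈ C.XC n (C.cls Λ0), lm (dl (C.eta c) n) χ.1 = χ.1 ∧
      H22.Over (dl (C.eta c) n).ker χ.1 (t χ).1 := fun χ hχ => by
    obtain ⟨Λ, h1, h2, h3, h4⟩ := ht χ hχ
    rw [h3, h4]
    exact ⟨(hθ Λ h1 h2).2.1, (hθ Λ h1 h2).1⟩
  refine ⟨t, h1, fun χ hχ ψ hψ j => ?_⟩
  have hsys : ∀ j, (HH j).Sys C.dg In C.n0 (fun φ k => (HH j).pi C.p (P φ k j)) (wt C.dg Λo)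
      (v j) := fun j => by
    obtain ⟨T, -, -, -, hpr, -⟩ := hP F _ (HH j) C.p C.hp C.hpF
    exact ⟨L.dg_pos, fun φ k h hk _ => hpr _ _ (hT.pr φ k j h hk), hv.hg j, fun φ k h hk _ =>
      vac_pi hP (hF F _ _) C.hp C.hpF (hT.pr φ k j h hk) (hv.hg j) (hv.reg j) (hv.vac φ k j h hk)⟩
  have hlab : ∀ Λ, C.IsLab n Λ → LabOn C.N In (C.rs In Λ) := fun Λ h φ =>
    ⟨by
      by_cases h' : In φ
      · rw [show C.rs In Λ φ = Λ φ from if_pos h', h.1]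
      · rw [show C.rs In Λ φ = range C.N from if_neg h', card_range], fun h' => if_neg h'⟩
  obtain ⟨Λ, a1, a2, -, a4⟩ := ht χ hχ
  obtain ⟨Λ', b1, b2, -, b4⟩ := ht ψ hψ
  have hw := (hθ Λ a1 a2).2.2.1
  have hw' := (hθ Λ' b1 b2).2.2.1
  have hip : ∀ j : ℕ, classInner (pRegularPart C.p (av _ (dl (C.eta c) n ^ j) (t χ).1))
      (av _ (dl (C.eta c) n ^ j) (t ψ).1) = (HH j).ip n
        (v j * sL C.N (fun φ k => (HH j).pi C.p (P φ k j)) (C.rs In Λ))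
        (v j * sL C.N (fun φ k => (HH j).pi C.p (P φ k j)) (C.rs In Λ')) := fun j => by
    obtain ⟨T, hT1, hT2, -, -, hi, had⟩ := hP F _ (HH j) C.p C.hp C.hpF
    have e : ∀ Λ, (HH j).pi C.p (v j * sL C.N (fun φ k => P φ k j) Λ) =
        v j * sL C.N (fun φ k => (HH j).pi C.p (P φ k j)) Λ := fun Λ => by
      rw [← hT1, map_mul, hT1, hv.reg, sL, sL, map_prod]
      congr 1
      refine prod_congr rfl fun φ _ => ?_
      rw [((hN _).2.2.2.1 _ T _).2.2]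
      simp only [hT1]
    rw [a4, b4, ← (hθ Λ a1 a2).2.2.2 j, ← (hθ Λ' b1 b2).2.2.2 j, ← hT2, ← e, ← e, ← had, hi]
    rfl
  have hz : ∀ χ ∈ C.XC n (C.cls Λ0), av _ (dl (C.eta c) n ^ 0) (t χ).1 = χ.1 := fun χ hχ => by
    rw [pow_zero]
    exact (hO _ _ χ (h1 χ hχ).1 _ (h1 χ hχ).2).1
  rw [← hz χ hχ, ← hz ψ hψ, hip, hip]
  have hIn : ∀ φ φ', In φ → C.lp φ' = C.lp φ → In φ' := fun φ φ' h e =>
    show C.II Λ0 (C.lp φ') from e ▸ h
  have := hG F _ _ (HH j) (HH 0) C.Φ C.dg In C.n0 C.N _ _ _ _ _ (hsys j) (hsys 0)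
    ((hv.nrm j).trans (hv.nrm 0).symm)
    (fun φ k φ' k' h h' hk hk' hd hd' => (hR F C c HH In P hT hIn j φ k φ' k' h h' hk hk' hd hd').trans
      (hR F C c HH In P hT hIn 0 φ k φ' k' h h' hk hk' hd hd').symm)
    _ _ (hlab Λ a2) (hlab Λ' b2) (by omega) (by omega)
  rwa [hw] at this

end Cfsg.Agent.H65.GbTh3
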