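import Cfsg.Agent.H89.L27Defs
import Cfsg.Agent.S1054
import Cfsg.Agent.S1065

/-!
# S5920, piece LINE: lines stabilised by a small maximal subgroup
-/

set_option autoImplicit false

namespace Cfsg.Agent.H65.L27Line

open Module Cfsg.Lie Cfsg.Agent.H50.E83 Cfsg.Agent.H89.L27

section
variable {G F W : Type} [Group G] [Field F] [AddCommGroup W] [Module F W]
  (ρ : G →* Module.End F W)

theorem ap_mul (g h : G) (v : W) : ρ (g * h) v = ρ g (ρ h v) := by rw [map_mul]; rfl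

theorem ap_inv (g : G) (v : W) : ρ g⁻¹ (ρ g v) = v := by
  rw [← ap_mul, inv_mul_cancel, map_one]; rfl

/-- the stabiliser of a vector up to sign -/
def St (v : W) : Subgroup G where
  carrier := {g | ρ g v = v ∨ ρ g v = -v}
  one_mem' := .inl (by rw [map_one]; rfl)
  mul_mem' := by
    rintro a b (ha | ha) (hb | hb) <;> simp only [Set.mem_setOf_eq, ap_mul, hb, map_neg, ha] <;> simp
  inv_mem' := by
    rintro a (ha | ha)
    · left
      conv_lhs => rw [← ha]
      exact ap_inv ρ a v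
    · right
      have := ap_inv ρ a v
      rw [ha, map_neg] at this
      exact neg_eq_iff_eq_neg.1 this

theorem count [Finite G] [Finite W] (H : Subgroup G)
    (hN : ∀ k, (∀ h ∈ H, k * h * k⁻¹ ∈ H) → k ∈ H) (Z : Set W) (hZ : ∀ v ∈ Z, St ρ v = H) :
    Nat.card G * Nat.card Z ≤ Nat.card W * Nat.card H := by
  classical
  have key : ∀ p q : G × Z, ρ p.1 p.2 = ρ q.1 q.2 → q.1⁻¹ * p.1 ∈ H := by
    rintro ⟨g, v, hv⟩ ⟨g', v', hv'⟩ e
    have e1 : ρ (g'⁻¹ * g) v = v' := by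
      rw [ap_mul]
      exact (congrArg (ρ g'⁻¹) e).trans (ap_inv ρ g' v')
    refine hN _ fun h hh => ?_
    have h1 : h ∈ St ρ v := (hZ v hv).symm ▸ hh
    rw [← hZ v' hv']
    have h2 : ρ (g'⁻¹ * g * h * (g'⁻¹ * g)⁻¹) v' = ρ (g'⁻¹ * g) (ρ h v) := by
      rw [ap_mul ρ (g'⁻¹ * g * h), ← e1, ap_inv, ap_mul ρ (g'⁻¹ * g)]
    rcases h1 with h1 | h1
    · exact .inl (by rw [h2, h1, e1])
    · exact .inr (by rw [h2, h1, map_neg, e1])
  have ex : ∀ p : G × Z, ∃ q : G × Z, ρ q.1 q.2 = ρ p.1 p.2 := fun p => ⟨p, rfl⟩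
  let r : W → G := fun w => if h : ∃ q : G × Z, ρ q.1 q.2 = w then h.choose.1 else 1
  have hr : ∀ p : G × Z, (r (ρ p.1 p.2))⁻¹ * p.1 ∈ H := fun p => by
    simp only [r, dif_pos (ex p)]
    exact key p _ (ex p).choose_spec.symm
  rw [← Nat.card_prod, ← Nat.card_prod]
  refine Nat.card_le_card_of_injective (fun p : G × Z => ((ρ p.1 p.2, ⟨_, hr p⟩) : W × H)) ?_
  rintro ⟨g, v⟩ ⟨g', v'⟩ e
  have e1 : ρ g v = ρ g' v' := congrArg Prod.fst e
  have e2 : (r (ρ g v))⁻¹ * g = (r (ρ g' v'))⁻¹ * g' := congrArg (fun x : W × H => (x.2 : G)) e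
  rw [e1, mul_right_inj] at e2
  subst e2
  have e3 := congrArg (ρ g⁻¹) e1
  rw [ap_inv, ap_inv] at e3
  rw [Subtype.ext e3]

end

theorem card_V0 : Nat.card V0 = 3 ^ 248 := by
  have h : Nat.card chevE8.Idx = 248 := by
    rw [Nat.card_eq_fintype_card]
    decide +kernel
  rw [Nat.card_fun, h, Nat.card_zmod]

theorem line (nol : NolStmt) : LineStmt := by
  intro H hH h1
  have hS : ∀ v : V0, v ≠ 0 → (∀ h ∈ H, act0 h v = v ∨ act0 h v = -v) → St act0 v = H :=
    fun v hv h => (hH.le_iff.1 h).resolve_left fun c => hv (nol v fun g => c.ge (Subgroup.mem_top g))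
  refine ⟨fun v hv h g hg => hS v hv h ▸ (Or.inl hg : g ∈ St act0 v), fun hc Z hZ => ?_⟩
  have hG : Nat.card G0 = _ := S1065.result (ZMod.card 3)
  have : Finite G0 := Nat.finite_of_card_ne_zero (by rw [hG]; norm_num)
  have hs : IsSimpleGroup G0 := (S1054.result chevE8 (by simp)).1
  have hN : Subgroup.normalizer (H : Set G0) = H :=
    (hH.le_iff.1 Subgroup.le_normalizer).resolve_left fun c =>
      (hs.eq_bot_or_eq_top_of_normal H (Subgroup.normalizer_eq_top_iff.1 c)).elim h1 hH.1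
  have h2 := count act0 H (fun k hk => hN.le (Subgroup.mem_normalizer_fintype hk))
    ((Z : Set V0) \ {0}) fun v hv => hS v hv.2 (hZ v hv.1)
  have h3 : Nat.card ↥((Z : Set V0) \ {0}) = 3 ^ finrank (ZMod 3) Z - 1 := by
    rw [Nat.card_coe_set_eq, Set.ncard_diff_singleton_of_mem Z.zero_mem, ← Nat.card_coe_set_eq]
    congr 1
    exact (Module.natCard_eq_pow_finrank (K := ZMod 3) (V := Z)).trans (by rw [Nat.card_zmod])
  by_contra h4
  have h5 : 3 ^ 6 ≤ 3 ^ finrank (ZMod 3) Z := Nat.pow_le_pow_right (by norm_num) (by omega)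
  have h6 : Nat.card G0 * 728 ≤ 3 ^ 248 * 336 := by
    rw [h3, card_V0] at h2
    exact (Nat.mul_le_mul_left _ (by omega)).trans (h2.trans (Nat.mul_le_mul_left _ hc))
  rw [hG] at h6
  norm_num at h6

end Cfsg.Agent.H65.L27Line
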