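import Mathlib
import Cfsg.Agent.H50.L81Defs
import Cfsg.Agent.H27.FvFrob
import Cfsg.Agent.H34.SsConj

/-! A semisimple element of `E₈(3)` in a twisted torus. -/

set_option autoImplicit false

namespace Cfsg.Agent.H65.L81Frame

open Cfsg.Lie H37 H40 H34 H29 H50.E83
open H42.Fv (Ph)

theorem frame : H50.L81.FrameStmt := by
  intro y s ζ t f hs hζ hl hc n hn hf
  have fr := H27.FvFrob.frob.2.1
  have h1 : n⁻¹ * t * n = t ^ 3 :=
    ((hl.conj hn).eq_iff (hl.pow 3)).2 fun r => (zpow_eq_iff hζ).2 (by rw [hf]; push_cast; rfl)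
  have h2 : Ph t = t ^ 3 := by
    obtain ⟨-, c, rfl, -⟩ := hl
    rw [← map_pow]
    exact C8.fieldHom_tg_pow H27.FvFrob.fr_apply c
  obtain ⟨h, hh⟩ : ∃ h : GK, h⁻¹ * Ph h = n := C8.lang_field (by decide) H27.FvFrob.fr_apply n
  obtain ⟨x, hx⟩ := (fr (h * t * h⁻¹)).1 (by
    rw [map_mul, map_mul, map_inv, inv_mul_eq_iff_eq_mul.1 hh, h2, ← h1]
    group)
  have h3 : y ^ s = 1 := ι_injective (by
    obtain ⟨c, e⟩ := isConj_iff.1 hc
    rw [map_pow, map_one, ← e, conj_pow, hl.pow_eq_one hζ, mul_one, mul_inv_cancel])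
  obtain ⟨c, e⟩ := isConj_iff.1 (H34.conjE83 y x
    (Nat.Coprime.coprime_dvd_left (orderOf_dvd_of_pow_eq_one h3) hs)
    (hc.symm.trans (isConj_iff.2 ⟨h, hx.symm⟩)))
  refine ⟨(ι c)⁻¹ * h, ?_, ?_⟩
  · rw [map_mul, map_inv, (fr _).2 ⟨c, rfl⟩, ← hh]
    group
  · have e' := congrArg ι e
    rw [map_mul, map_mul, map_inv, hx] at e'
    calc _ = h⁻¹ * (ι c * ι y * (ι c)⁻¹) * h := by group
      _ = t := by rw [e']; group

end Cfsg.Agent.H65.L81Frame
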