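import Mathlib
import Cfsg.Agent.H73.LPDefs

/-! A `2`-group with an automorphism of Mersenne prime order: the piece `PMersA`. -/

set_option autoImplicit false

namespace Cfsg.Agent.H65.Mers

open Subgroup

universe u

theorem pick {X : Type*} [Finite X] (l : List X) (h : l.length < Nat.card X) : ∃ y, y ∉ l := by
  classical
  by_contra hc
  push Not at hc
  have := Fintype.ofFinite X
  rw [Nat.card_eq_fintype_card] at h
  exact absurd ((Finset.card_le_card fun x _ => List.mem_toFinset.2 (hc x) :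
    Finset.univ.card ≤ _).trans l.toFinset_card_le) (not_le.2 h)

variable {U : Type*} [Group U] [Finite U] {p : ℕ}

/-- fixed points -/
def Fx (y : MulAut U) : Subgroup U := y.toMonoidHom.eqLocus (MonoidHom.id U)

omit [Finite U] in
theorem mem_Fx {y : MulAut U} {a : U} : a ∈ Fx y ↔ y a = a := Iff.rfl

omit [Finite U] in
theorem Fx_pow {y : MulAut U} {a : U} (h : a ∈ Fx y) (n : ℕ) : (y ^ n) a = a :=
  (pow_mem (show y ∈ MulAction.stabilizer (MulAut U) a from h) n :)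

omit [Finite U] in
theorem fix_of {y : MulAut U} {k d : ℕ} (hy : y ^ p ^ k = 1) (hd : d.Coprime p) {a : U}
    (h : (y ^ d) a = a) : a ∈ Fx y := by
  obtain ⟨m, e⟩ := exists_pow_eq_self_of_coprime
    ((hd.pow_right k).coprime_dvd_right (orderOf_dvd_of_pow_eq_one hy))
  rw [mem_Fx, ← e]
  exact Fx_pow h m

theorem trans (hp : p.Prime) (h5 : 5 ≤ p) (h2 : IsPGroup 2 U) {y : MulAut U} {k : ℕ}
    (hy : y ^ p ^ k = 1) (hc : Nat.card U ≤ (p + 1) * Nat.card (Fx y)) {a : U} (ha : a ∉ Fx y) :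
    Nat.card U = (p + 1) * Nat.card (Fx y) ∧
      ∀ b, b ∉ Fx y → ∃ i : ℕ, ∃ z ∈ Fx y, b = (y ^ i) a * z := by
  have c2 : Nat.Coprime 2 p := (Nat.coprime_primes Nat.prime_two hp).2 (by omega)
  let F : Fin p × Fx y → {b // b ∉ Fx y} := fun x => ⟨(y ^ x.1.1) a * x.2, fun h => ha (by
    have h1 := (mul_mem_cancel_right x.2.2).1 h
    rwa [(y ^ x.1.1).injective (Fx_pow h1 x.1.1)] at h1)⟩
  have key : ∀ i d, ∀ z ∈ Fx y, ∀ z' ∈ Fx y, d < p → (y ^ i) a * z = (y ^ (i + d)) a * z' →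
      d = 0 := fun i d z hz z' hz' hd e => by
    by_contra h0
    have hw := mul_mem hz (inv_mem hz')
    have e1 : (y ^ d) a = a * (z * z'⁻¹) := (y ^ i).injective (by
      rw [map_mul, Fx_pow hw, ← mul_assoc, e, pow_add, MulAut.mul_apply, mul_inv_cancel_right])
    have e2 : ∀ n, (y ^ (d * n)) a = a * (z * z'⁻¹) ^ n := fun n => by
      induction n with
      | zero => simp
      | succ n ih =>
        rw [Nat.mul_succ, pow_add, MulAut.mul_apply, e1, map_mul, ih, Fx_pow hw, pow_succ,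
          mul_assoc]
    obtain ⟨n, hn⟩ := h2 (z * z'⁻¹)
    exact ha (fix_of hy (Nat.Coprime.mul_left
      (Nat.coprime_of_lt_prime h0 hd hp).symm (c2.pow_left n)) (by rw [e2, hn, mul_one]))
  have inj : Function.Injective F := fun x x' e => by
    have e1 : (y ^ x.1.1) a * x.2 = (y ^ x'.1.1) a * x'.2 := congrArg Subtype.val e
    have e2 : x.1.1 = x'.1.1 := by
      have := x.1.2
      have := x'.1.2
      rcases le_total x.1.1 x'.1.1 with h | h <;> obtain ⟨d, hd⟩ := Nat.exists_eq_add_of_le h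
      · have := key _ d _ x.2.2 _ x'.2.2 (by omega) (hd ▸ e1)
        omega
      · have := key _ d _ x'.2.2 _ x.2.2 (by omega) (hd ▸ e1.symm)
        omega
    rw [e2, mul_right_inj] at e1
    exact Prod.ext (Fin.ext e2) (Subtype.ext e1)
  have c1 : Nat.card U = Nat.card (Fx y) + Nat.card {b // b ∉ Fx y} := by
    classical
    rw [← Nat.card_sum, Nat.card_congr (Equiv.sumCompl (· ∈ Fx y))]
  have c3 := Nat.card_le_card_of_injective F inj
  have c4 : Nat.card (Fin p × Fx y) = p * Nat.card (Fx y) := by simp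
  rw [add_mul, one_mul] at hc ⊢
  refine ⟨by omega, fun b hb => ?_⟩
  obtain ⟨x, e⟩ := ((Nat.bijective_iff_injective_and_card F).2 ⟨inj, by omega⟩).2 ⟨b, hb⟩
  exact ⟨_, _, x.2.2, (congrArg Subtype.val e).symm⟩

theorem elem (h5 : 5 ≤ p) (h2 : IsPGroup 2 U) {y : MulAut U}
    (hc : Nat.card U = (p + 1) * Nat.card (Fx y)) (hZ : Nat.card (Fx y) ≤ 2)
    (tr : ∀ a, a ∉ Fx y → ∀ b, b ∉ Fx y → ∃ i : ℕ, ∃ z ∈ Fx y, b = (y ^ i) a * z) (u : U) :
    u * u = 1 := by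
  have := Fact.mk Nat.prime_two
  obtain ⟨z, hz⟩ : ∃ z, ∀ u, u ∈ Fx y ↔ u = 1 ∨ u = z := by
    by_cases e : Fx y = ⊥
    · exact ⟨1, by simp [e]⟩
    obtain ⟨z, e1, e2⟩ := (Nat.card_eq_two_iff' (1 : Fx y)).1
      (le_antisymm hZ ((one_lt_card_iff_ne_bot _).2 e))
    exact ⟨z, fun u => ⟨fun hu => or_iff_not_imp_left.2 fun h => congrArg Subtype.val
      (e2 ⟨u, hu⟩ fun e => h (congrArg Subtype.val e)), by
        rintro (rfl | rfl); exacts [one_mem _, z.2]⟩⟩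
  have zF := (hz z).2 (.inr rfl)
  have z2 : z * z = 1 := ((hz _).1 (mul_mem zF zF)).elim id fun e => by
    rw [mul_eq_left.1 e, mul_one]
  have pos : 0 < Nat.card (Fx y) := Nat.card_pos
  obtain ⟨b, hb⟩ := pick [1, z] (by rw [hc]; simp only [List.length]; nlinarith)
  have zc : ∀ u, u * z = z * u := by
    have : Nontrivial U := Finite.one_lt_card_iff_nontrivial.1 (by rw [hc]; nlinarith)
    have := h2.center_nontrivial
    obtain ⟨w, w1⟩ := exists_ne (1 : center U)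
    by_cases e : w.1 ∈ Fx y
    · exact ((hz _).1 e).elim (fun e => absurd (Subtype.ext e) w1) fun e => e ▸ mem_center_iff.1 w.2
    intro u
    have k : ∀ u ∈ Fx y, u * z = z * u := fun u hu => by
      rcases (hz u).1 hu with rfl | rfl <;> simp
    by_cases hu : u ∈ Fx y
    · exact k u hu
    obtain ⟨i, c, hc, rfl⟩ := tr _ e u hu
    rw [mul_assoc, k c hc, ← mul_assoc, ← mul_assoc, ← Fx_pow zF i, ← map_mul, ← map_mul,
      mem_center_iff.1 w.2]
  obtain ⟨a, ha, a2⟩ : ∃ a, a ∉ Fx y ∧ a * a ∈ Fx y := by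
    obtain ⟨n, hn⟩ := h2 b
    replace hb : b ∉ Fx y := by simpa [hz] using hb
    replace hn : b ^ 2 ^ n ∈ Fx y := hn ▸ one_mem _
    induction n generalizing b with
    | zero => exact absurd (by simpa using hn) hb
    | succ n ih =>
      by_cases e : b * b ∈ Fx y
      exacts [⟨b, hb, e⟩, ih _ e (by rwa [← pow_two, ← pow_mul, ← pow_succ'])]
  have sq : ∀ u, u ∉ Fx y → u * u = a * a := fun u hu => by
    obtain ⟨i, c, hc, rfl⟩ := tr a ha u hu
    rw [← Fx_pow a2 i, map_mul]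
    rcases (hz c).1 hc with rfl | rfl
    · simp
    · rw [mul_assoc, ← mul_assoc c, ← zc, mul_assoc, z2, mul_one]
  by_cases hu : u ∈ Fx y
  · rcases (hz u).1 hu with rfl | rfl
    exacts [mul_one _, z2]
  rw [sq u hu]
  by_contra z1
  have e := ((hz _).1 a2).resolve_left z1
  rw [e] at sq z1
  have : Nontrivial (Fx y) := ⟨⟨⟨z, zF⟩, 1, fun e => z1 (congrArg Subtype.val e)⟩⟩
  have two := Finite.one_lt_card_iff_nontrivial.2 this
  have pk : ∀ g h k : U, ∃ c, c ∉ Fx y ∧ g * c ∉ Fx y ∧ h * c ∉ Fx y ∧ k * c ∉ Fx y := fun g h k => by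
    obtain ⟨c, hc⟩ := pick [1, z, g⁻¹, g⁻¹ * z, h⁻¹, h⁻¹ * z, k⁻¹, k⁻¹ * z] (by
      rw [hc]; simp only [List.length]; nlinarith)
    refine ⟨c, ?_⟩
    simpa [hz, eq_inv_mul_iff_mul_eq, eq_inv_iff_mul_eq_one, mul_eq_one_comm (a := c), and_assoc]
      using hc
  have anti : ∀ u v, u ∉ Fx y → v ∉ Fx y → u * v ∉ Fx y → v * u = u * v * z := fun u v h1 h2 h3 => by
    calc v * u = u⁻¹ * (u * v * (u * v)) * v⁻¹ := by group
      _ = u⁻¹ * (u * u * (v * v * z)) * v⁻¹ := by rw [sq _ h1, sq _ h2, sq _ h3, z2, mul_one]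
      _ = _ := by rw [mul_assoc, mul_assoc (u * u), mul_assoc (v * v), ← zc v⁻¹]; group
  obtain ⟨b, b1, b2, -⟩ := pk a 1 1
  obtain ⟨c, c1, c2, c3, c4⟩ := pk a b (a * b)
  have e1 := anti a (b * c) ha c3 (by rwa [← mul_assoc])
  rw [mul_assoc, anti a c ha c1 c2, ← mul_assoc, ← mul_assoc, anti a b ha b1 b2, mul_left_inj,
    mul_assoc, ← zc, mul_assoc, ← mul_assoc b, mul_right_inj, mul_eq_left] at e1
  exact z1 e1

omit [Finite U] in
theorem cm (sq : ∀ u : U, u * u = 1) (a b : U) : a * b = b * a := by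
  rw [← inv_eq_of_mul_eq_one_right (sq (a * b)), mul_inv_rev, inv_eq_of_mul_eq_one_right (sq a),
    inv_eq_of_mul_eq_one_right (sq b)]

omit [Finite U] in
theorem exF (sq : ∀ u : U, u * u = 1) (y : MulAut U) : ∃ f : U →* U, (∀ u, f u = u * y u) ∧
    f.ker = Fx y ∧ Nat.card f.range * Nat.card (Fx y) = Nat.card U := by
  let f : U →* U := .mk' (fun u => u * y u) fun a b => by
    rw [map_mul, mul_assoc, mul_assoc, ← mul_assoc b, cm sq b, mul_assoc]
  have k1 : f.ker = Fx y := by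
    ext u
    exact ⟨fun e => (eq_inv_of_mul_eq_one_right e).trans (inv_eq_of_mul_eq_one_right (sq u)),
      fun e => (congrArg (u * ·) e).trans (sq u)⟩
  exact ⟨f, fun _ => rfl, k1, by rw [← index_ker, ← k1, index_mul_card]⟩

theorem exV {y : MulAut U} {k : ℕ} (hy : y ^ p ^ k = 1) (c2 : Nat.Coprime 2 p)
    (hc : Nat.card U = (p + 1) * Nat.card (Fx y)) (sq : ∀ u : U, u * u = 1) :
    ∃ V : Subgroup U, Nat.card V = p + 1 ∧ (∀ v ∈ V, y v ∈ V) ∧ ∀ v ∈ V, y v = v → v = 1 := by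
  obtain ⟨f, hf, k1, k2⟩ := exF sq y
  refine ⟨f.range, ?_, ?_, ?_⟩
  · exact Nat.eq_of_mul_eq_mul_right Nat.card_pos (k2.trans hc)
  · rintro _ ⟨u, rfl⟩
    exact ⟨y u, by rw [hf, hf, map_mul]⟩
  · rintro _ ⟨u, rfl⟩ e
    rw [hf, map_mul, cm sq, mul_left_inj] at e
    exact k1.ge (fix_of hy c2 e)

/-- A Sylow subgroup for an odd prime is normalized by an involution if `4 ∤ |A|`. -/
theorem exInv {A : Type*} [Group A] [Finite A] [Fact p.Prime] (hp : p ≠ 2) (h2 : 2 ∣ Nat.card A)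
    (h4 : ¬ 4 ∣ Nat.card A) (B : Sylow p A) :
    ∃ s ∈ normalizer ((B : Subgroup A) : Set A), orderOf s = 2 := by
  obtain ⟨S⟩ : Nonempty (Sylow 2 A) := inferInstance
  have c : Nat.card S = 2 := by
    obtain ⟨n, hn⟩ := S.2.exists_card_eq
    have h1 := S.not_dvd_index
    have h3 := (S : Subgroup A).card_mul_index
    rcases n with _ | _ | n
    · rw [hn, pow_zero, one_mul] at h3; exact absurd (h3 ▸ h2) h1
    · exact hn
    · exact absurd (Dvd.dvd.trans ⟨2 ^ n, by rw [hn]; ring⟩ (card_subgroup_dvd_card S.1)) h4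
  have h := (isCyclic_of_prime_card c).isComplement' ((Nat.minFac_eq_two_iff _).2 h2)
  obtain ⟨L, _, i⟩ : ∃ L : Subgroup A, L.Normal ∧ L.index = 2 :=
    ⟨_, inferInstance, h.symm.index_eq_card.trans c⟩
  have odd : ∀ g : A, Odd (orderOf g) → g ∈ L := fun g ⟨m, hm⟩ => by
    have := pow_orderOf_eq_one g
    rw [hm, pow_succ, pow_mul, mul_eq_one_iff_inv_eq] at this
    exact this ▸ inv_mem (pow_mem (i ▸ L.pow_index_mem g) m)
  have e := B.normalizer_sup_eq_top' (N := L) fun g hg => odd g (by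
    obtain ⟨n, hn⟩ := B.2 ⟨g, hg⟩
    exact (((Fact.out : p.Prime).odd_of_ne_two hp).pow (n := n)).of_dvd_nat
      (orderOf_dvd_of_pow_eq_one (congrArg Subtype.val hn)))
  obtain ⟨s, hs⟩ := exists_prime_orderOf_dvd_card' (G := normalizer ((B : Subgroup A) : Set A)) 2 (by
    by_contra hn
    rw [sup_eq_right.2 fun g hg => odd g ((Nat.coprime_two_left.1
      ((Nat.Prime.coprime_iff_not_dvd Nat.prime_two).2 hn)).of_dvd_nat
      (orderOf_dvd_natCard _ hg))] at e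
    rw [e, index_top] at i
    omega)
  exact ⟨s, s.2, (orderOf_coe s).trans hs⟩

theorem odd (hp : p.Prime) (h5 : 5 ≤ p) (hc : Nat.card U = p + 1) (sq : ∀ u : U, u * u = 1)
    {A : Subgroup (MulAut U)} {y : MulAut U} (hA : y ∈ A) {k : ℕ} (hy : y ^ p ^ k = 1) (y1 : y ≠ 1)
    (h4 : ¬ 4 ∣ Nat.card A) : ¬ 2 ∣ Nat.card A := fun h2 => by
  have := Fact.mk hp
  have hU : IsPGroup 2 U := fun u => ⟨1, by rw [pow_one, pow_two, sq]⟩
  have tr : ∀ b : MulAut U, b ≠ 1 → (∃ k, b ^ p ^ k = 1) → ∀ a, a ≠ 1 → b a ≠ a ∧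
      ∀ u, u ≠ 1 → ∃ i : ℕ, u = (b ^ i) a := fun b b1 ⟨k, hb⟩ a a1 => by
    have le : Nat.card U ≤ (p + 1) * Nat.card (Fx b) := hc ▸ Nat.le_mul_of_pos_right _ Nat.card_pos
    obtain ⟨a0, h0⟩ := not_forall.1 fun h => b1 (MulEquiv.ext h)
    have e := (trans hp h5 hU hb le h0).1
    replace e := card_eq_one.1 (Nat.eq_of_mul_eq_mul_left p.succ_pos
      (e.symm.trans (hc.trans (mul_one _).symm)))
    have n : ∀ a, a ≠ 1 → a ∉ Fx b := fun a a1 h => a1 (mem_bot.1 (e ▸ h))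
    refine ⟨n a a1, fun u u1 => ?_⟩
    obtain ⟨i, z, hz, e1⟩ := (trans hp h5 hU hb le (n a a1)).2 u (n u u1)
    exact ⟨i, by rwa [mem_bot.1 (e.le hz), mul_one] at e1⟩
  obtain ⟨m, -, e⟩ := (Nat.dvd_prime_pow hp).1 (orderOf_dvd_of_pow_eq_one hy)
  obtain ⟨B, hB⟩ := (IsPGroup.of_card (G := zpowers (⟨y, hA⟩ : A)) (n := m)
    (by rw [Nat.card_zpowers, orderOf_mk, e])).exists_le_sylow
  obtain ⟨s, hs, o⟩ := exInv (by omega) h2 h4 B
  have s2 : ∀ u, s.1 (s.1 u) = u := fun u => by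
    have := pow_orderOf_eq_one s
    rw [o, pow_two] at this
    exact congrArg (fun t : A => t.1 u) this
  obtain ⟨w, w', w1, w2⟩ : ∃ w w' : Fx s.1, w ≠ 1 ∧ w' ∉ [1, w] := by
    obtain ⟨f, hf, -, k2⟩ := exF sq s.1
    have k3 := card_le_of_le (show f.range ≤ Fx s.1 by
      rintro _ ⟨u, rfl⟩; rw [mem_Fx, hf, map_mul, s2, cm sq])
    have k4 : 2 < Nat.card (Fx s.1) := by nlinarith
    obtain ⟨w, hw⟩ := pick [(1 : Fx s.1)] (by simp only [List.length]; omega)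
    exact ⟨w, _, by simpa using hw, (pick [1, w] k4).choose_spec⟩
  simp only [List.mem_cons, List.not_mem_nil, or_false, not_or] at w2
  have w1 : w.1 ≠ 1 := fun e => w1 (Subtype.ext e)
  obtain ⟨i, e⟩ := (tr y y1 ⟨k, hy⟩ w w1).2 w' fun e => w2.1 (Subtype.ext e)
  have hb := pow_mem (hB (mem_zpowers _)) i
  have pB : ∀ b ∈ (B : Subgroup A), ∃ k, b.1 ^ p ^ k = 1 := fun b hb =>
    let ⟨k, e⟩ := B.2 ⟨b, hb⟩; ⟨k, congrArg (·.1.1) e⟩
  generalize hb0 : (⟨y, hA⟩ : A) ^ i = b at hb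
  replace e : w'.1 = b.1 w := hb0 ▸ e
  have e1 : ∀ u, s.1 (b.1 u) = b.1 (s.1 u) := by
    have : (b⁻¹ * (s * b * s⁻¹)).1 = 1 := by
      by_contra h
      refine (tr _ h (pB _ (mul_mem (inv_mem hb) ((mem_normalizer_iff.1 hs b).1 hb))) w w1).1 ?_
      change b.1.symm (s.1 (b.1 (s.1.symm w))) = w
      rw [s.1.symm_apply_eq.2 (mem_Fx.1 w.2).symm, ← e, mem_Fx.1 w'.2, e,
        MulEquiv.symm_apply_apply]
    intro u
    have := congrArg (fun t : MulAut U => b.1 (t (s.1 u))) this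
    simpa using this
  have e2 : ∀ n u, s.1 ((b.1 ^ n) u) = (b.1 ^ n) (s.1 u) := fun n => by
    induction n with
    | zero => simp
    | succ n ih => intro u; rw [pow_succ', MulAut.mul_apply, MulAut.mul_apply, e1, ih]
  have : s = 1 := Subtype.ext (MulEquiv.ext fun u => by
    by_cases u1 : u = 1
    · simp [u1]
    obtain ⟨n, rfl⟩ := (tr b.1 (fun h => w2.2 (Subtype.ext (by rw [e, h]; rfl))) (pB b hb) w w1).2 u u1
    rw [e2, mem_Fx.1 w.2]; rfl)
  rw [this, orderOf_one] at o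
  omega

theorem ar {n m : ℕ} (h4 : 4 ∣ p + 1) (h : 2 * m ∣ p ^ 2 * (p ^ 4 - 1)) (hn : (p + 1) * n ∣ m) :
    ¬ 4 ∣ n := fun h1 => by
  obtain ⟨q, rfl⟩ : ∃ q, p = 4 * q + 3 := ⟨p / 4, by omega⟩
  have e : (4 * q + 3) ^ 2 * ((4 * q + 3) ^ 4 - 1) = (4 * q + 3 + 1) * (4 * (2 * ((2 * q + 1) *
      (4 * q ^ 2 + 6 * q + 2) * (4 * q + 3) ^ 2 + (2 * q + 1) * (8 * q ^ 2 + 12 * q + 4) + q) + 1)) := by
    rw [show (4 * q + 3) ^ 4 = (4 * q + 4) * (4 * q + 2) * ((4 * q + 3) ^ 2 + 1) + 1 by ring,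
      Nat.add_sub_cancel]
    ring
  have := ((Nat.mul_dvd_mul_left 2 ((Nat.mul_dvd_mul_left _ h1).trans hn)).trans h)
  rw [e, mul_left_comm, Nat.mul_dvd_mul_iff_left (by omega)] at this
  omega

theorem pMersA : H73.LP.PMersA.{u} := by
  intro G _ _ p hp h5 hG X U hX hU hN hc
  have := Fact.mk Nat.prime_two
  have two : ∀ W : Subgroup G, IsPGroup 2 W → ∀ n, n ∣ Nat.card W → ¬ 4 ∣ n → n ≤ 2 :=
    fun W hW n h1 h2 => by
      obtain ⟨a, ha⟩ := hW.exists_card_eq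
      obtain ⟨b, -, rfl⟩ := (Nat.dvd_prime_pow Nat.prime_two).1 (ha ▸ h1)
      rcases b with _ | _ | b
      exacts [by norm_num, by norm_num, absurd ⟨2 ^ b, by ring⟩ h2]
  have h4 : 4 ∣ p + 1 := by
    by_contra h
    have := two U hU _ ⟨_, hc⟩ h
    omega
  obtain ⟨y, hy, hn⟩ : ∃ y ∈ X, ¬ ∀ u ∈ U, u * y = y * u := by
    by_contra h
    push Not at h
    rw [inf_eq_left.2 fun u hu y hy => (h y hy u hu).symm, eq_comm,
      mul_eq_right₀ Nat.card_pos.ne'] at hc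
    omega
  obtain ⟨k, hk⟩ := hX ⟨y, hy⟩
  replace hk : y ^ p ^ k = 1 := congrArg Subtype.val hk
  have pw : ∀ (W : Subgroup G) (h : y ∈ normalizer (W : Set G)),
      W.normalizerMonoidHom ⟨y, h⟩ ^ p ^ k = 1 := fun W h => by
    rw [← map_pow, show (⟨y, h⟩ : normalizer (W : Set G)) ^ p ^ k = 1 from Subtype.ext hk, map_one]
  have fx : ∀ (W : Subgroup G) (g : normalizer (W : Set G)) (u : W),
      W.normalizerMonoidHom g u = u ↔ g.1 * u = u * g := fun W g u =>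
    Subtype.ext_iff.trans mul_inv_eq_iff_eq_mul
  have tr := fun a => trans hp h5 hU (pw U (hN hy)) (a := a) (hc.trans_le (Nat.mul_le_mul_left _
    (Nat.card_le_card_of_injective (fun x => ⟨⟨x.1, x.2.1⟩, (fx _ _ _).2 (x.2.2 y hy)⟩)
      fun a b e => Subtype.ext (congrArg (·.1.1) e))))
  push Not at hn
  obtain ⟨a, ha, hn⟩ := hn
  have c := (tr ⟨a, ha⟩ fun e => hn ((fx _ _ _).1 e).symm).1
  have sq := elem h5 hU c (two U hU _ (card_subgroup_dvd_card _)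
    (ar h4 hG (c ▸ card_subgroup_dvd_card U))) fun a ha => (tr a ha).2
  obtain ⟨V₀, v1, v2, v3⟩ := exV (pw U (hN hy))
    ((Nat.coprime_primes Nat.prime_two hp).2 (by omega)) c sq
  obtain ⟨V, v1, sq, v2, v3⟩ : ∃ V : Subgroup G, Nat.card V = p + 1 ∧ (∀ v : V, v * v = 1) ∧
      y ∈ normalizer (V : Set G) ∧ V ⊓ centralizer {y} = ⊥ := by
    refine ⟨V₀.map U.subtype, (card_map_of_injective Subtype.val_injective).trans v1, ?_,
      mem_normalizer_fintype ?_, eq_bot_iff.2 ?_⟩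
    · rintro ⟨_, v, -, rfl⟩
      exact Subtype.ext (congrArg Subtype.val (sq v) :)
    · rintro _ ⟨v, hv, rfl⟩
      exact ⟨_, v2 v hv, rfl⟩
    · rintro _ ⟨⟨v, hv, rfl⟩, e⟩
      exact congrArg Subtype.val
        (v3 v hv ((fx _ _ _).2 (mem_centralizer_singleton_iff.1 e).symm))
  obtain ⟨T, hT⟩ := (show IsPGroup 2 V from fun u => ⟨1, by rw [pow_one, pow_two, sq]⟩).exists_le_sylow
  refine ⟨T, V, y, ?_, hT, v1, ⟨k, hk⟩, v2, v3⟩
  have c1 := (V.subgroupOf T).card_mul_index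
  rw [Nat.card_congr (subgroupOfEquivOfLe hT).toEquiv, v1] at c1
  have i := two T T.2 _ (index_dvd_card _) (ar h4 hG (c1 ▸ card_subgroup_dvd_card T.1))
  have vc : ∀ a ∈ V, ∀ b ∈ V, a * b = b * a := fun a ha b hb =>
    congrArg Subtype.val (cm sq ⟨a, ha⟩ ⟨b, hb⟩)
  have m : ∀ a ∈ (T : Subgroup G), ∀ b ∈ (T : Subgroup G), a ∉ V → b ∉ V → a * b ∈ V :=
    fun a ha b hb h1 h2 => (mul_mem_iff_of_index_two (H := V.subgroupOf T) (a := ⟨a, ha⟩)
      (b := ⟨b, hb⟩) (le_antisymm i (Nat.one_lt_iff_ne_zero_and_ne_one.2 ⟨FiniteIndex.index_ne_zero,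
        fun e => h1 ((index_eq_one.1 e).ge (mem_top (⟨a, ha⟩ : T)))⟩))).2 (iff_of_false h1 h2)
  have o := odd hp h5 v1 sq (A := V.normalizerMonoidHom.range) ⟨⟨y, v2⟩, rfl⟩ (pw V v2)
    (fun e => by
      rw [inf_eq_left.2 fun v hv => mem_centralizer_singleton_iff.2
        ((fx V ⟨y, v2⟩ ⟨v, hv⟩).1 (by rw [e]; rfl)).symm] at v3
      rw [v3, card_bot] at v1
      omega)
    (ar h4 hG (Dvd.dvd.trans (by
      rw [← index_ker, ← V.normalizerMonoidHom.ker.card_mul_index, ← v1,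
        ← Nat.card_congr (subgroupOfEquivOfLe (le_normalizer (H := V))).toEquiv]
      refine Nat.mul_dvd_mul_right (card_dvd_of_le fun a ha => ?_) _
      exact MulEquiv.ext fun v => (fx _ _ _).2 (vc _ ha _ v.2)) (card_subgroup_dvd_card (normalizer (V : Set G)))))
  have tc : ∀ t ∈ (T : Subgroup G), ∀ v ∈ V, t * v = v * t := fun t ht v hv => by
    by_cases h : t ∈ V
    · exact vc t h v hv
    have hn : t ∈ normalizer (V : Set G) := mem_normalizer_fintype fun v hv =>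
      m _ (mul_mem ht (hT hv)) _ (inv_mem ht) (fun e => h ((mul_mem_cancel_right hv).1 e))
        fun e => h (inv_mem_iff.1 e)
    refine (fx V ⟨t, hn⟩ ⟨v, hv⟩).1 ?_
    have e : V.normalizerMonoidHom ⟨t, hn⟩ = 1 := by
      by_contra e
      refine o (orderOf_eq_prime (p := 2) ?_ e ▸ orderOf_dvd_natCard _ ⟨_, rfl⟩)
      rw [← map_pow, pow_two]
      exact MulEquiv.ext fun v => (fx _ _ _).2 (vc _ (m t ht t ht h h) _ v.2)
    rw [e]; rfl
  refine ⟨⟨fun a b => Subtype.ext ?_⟩⟩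
  by_cases h1 : a.1 ∈ V
  · exact (tc _ b.2 _ h1).symm
  by_cases h2 : b.1 ∈ V
  · exact tc _ a.2 _ h2
  have := tc _ a.2 _ (m _ a.2 _ b.2 h1 h2)
  rwa [mul_assoc, mul_right_inj] at this

end Cfsg.Agent.H65.Mers
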