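import Cfsg.Agent.H54.O84Defs

/-!
# S3384, pieces INV and RW: invariants of the reflection group of `D₄ D₄`
-/

set_option autoImplicit false
set_option maxRecDepth 100000

namespace Cfsg.Agent.H65.O84Inv

open Cfsg.Agent.H54.O84 Equiv Cfsg.Lie H37 H40 H34 H29

theorem even_rc {s : Rt} (hs : s ∈ Ψ0) :
    C8.R.rc s ⟨0, by decide⟩ % 2 = 0 ∧ C8.R.rc s ⟨5, by decide⟩ % 2 = 0 := by
  have : ∀ s < 240, s ∈ d0L ∨ s ∈ d1L → rcN s 0 % 2 = 0 ∧ rcN s 5 % 2 = 0 := by decide +kernel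
  rw [rc_val, rc_val]
  exact this s s.2 (hs.imp mem_Δ0.1 mem_Δ1.1)

theorem rc_tau (s r : Rt) (k : Ix) :
    C8.R.rc (τ s r) k = C8.R.rc r k - C8.R.pair s r * C8.R.rc s k := by
  rw [τ, C8.R.rc_τ]; rfl

theorem tau_mem {s r : Rt} (hs : s ∈ Ψ0) (hr : r ∈ Δ0) : τ s r ∈ Δ0 := by
  have h : ∀ x : Rt, x ∈ Δ0 ↔ ∀ k, k ∉ J → C8.R.rc x k = 0 := fun x => H34.mem_Phi_iff C8.R
  rw [h]
  intro k hk
  rw [rc_tau, (h r).1 hr k hk]
  rcases hs with hs | hs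
  · rw [(h s).1 hs k hk]; simp
  · rw [pair_symm, hs r hr]; simp

theorem par {a b c : ℤ} (h : c % 2 = 0) : (a - b * c) % 2 = a % 2 := by
  obtain ⟨d, rfl⟩ := Int.dvd_of_emod_eq_zero h
  rw [show a - b * (2 * d) = a + 2 * (-(b * d)) by ring, Int.add_mul_emod_self_left]

theorem inv : InvStmt := by
  have step : ∀ s ∈ Ψ0, ∀ y : Perm Rt, ((∀ r ∈ Δ0, y r ∈ Δ0) ∧ ∀ r,
      C8.R.rc (y r) ⟨0, by decide⟩ % 2 = C8.R.rc r ⟨0, by decide⟩ % 2 ∧
      C8.R.rc (y r) ⟨5, by decide⟩ % 2 = C8.R.rc r ⟨5, by decide⟩ % 2) →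
      (∀ r ∈ Δ0, (τ s * y) r ∈ Δ0) ∧ ∀ r,
      C8.R.rc ((τ s * y) r) ⟨0, by decide⟩ % 2 = C8.R.rc r ⟨0, by decide⟩ % 2 ∧
      C8.R.rc ((τ s * y) r) ⟨5, by decide⟩ % 2 = C8.R.rc r ⟨5, by decide⟩ % 2 := by
    intro s hs y ⟨h1, h2⟩
    refine ⟨fun r hr => tau_mem hs (h1 r hr), fun r => ?_⟩
    rw [Perm.mul_apply, rc_tau, rc_tau, par (even_rc hs).1, par (even_rc hs).2]
    exact h2 r
  intro y hy
  induction hy using Subgroup.closure_induction_left with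
  | one => exact ⟨fun _ h => h, fun _ => ⟨rfl, rfl⟩⟩
  | mul_left x hx y _ ih =>
    obtain ⟨s, hs, rfl⟩ := hx
    exact step s hs y ih
  | inv_mul_cancel x hx y _ ih =>
    obtain ⟨s, hs, rfl⟩ := hx
    rw [show (τ s)⁻¹ = τ s from C8.R.τ_inv s]
    exact step s hs y ih

theorem pair_tau (r p s : Rt) :
    C8.R.pair r (τ p s) = C8.R.pair r s - C8.R.pair p s * C8.R.pair r p := by
  rw [τ, RS.pair, C8.R.rc_τ, map_sub, map_smul]; rfl

/-- a coordinate of the image of `s` under a product of two reflections -/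
noncomputable def im (r p s k : ℕ) : ℤ :=
  rcN s k - pr p s * rcN p k - (pr r s - pr p s * pr r p) * rcN r k

theorem chk : ∀ i < 2, ∀ r < 240, r ∈ d0L ∨ r ∈ d1L ∨
    ∃ s ∈ [162, 141, 135, 130, 126, 123, 121, 120],
      ¬ (im r (piF i r) s 0 % 2 = rcN s 0 % 2 ∧ im r (piF i r) s 5 % 2 = rcN s 5 % 2) := by
  decide +kernel

theorem rw (hR : RhoStmt) (hI : InvStmt) : RwStmt := by
  intro i r
  constructor
  · intro h
    have hc := hR.2.2.1
    rw [Ψ, ← hR.2.2.2.2.2.2.2.2.2 _ (v_mem i)] at h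
    obtain ⟨y, hy, e⟩ := h
    obtain ⟨r, rfl⟩ := (v i).surjective r
    have e1 : y = τ r * τ (π i r) := by
      apply (MulAut.conj (v i)).injective
      refine Eq.trans e ?_
      rw [map_mul, MulAut.conj_apply, MulAut.conj_apply, hc _ (v_mem i), hc _ (v_mem i), ρ]
      simp [π]
    refine ⟨r, ?_, rfl⟩
    rcases chk i i.2 r r.2 with h | h | ⟨s, hs, h⟩
    · exact .inl (mem_Δ0.2 h)
    · exact .inr (mem_Δ1.2 h)
    have hs' : s < chevE8.nroots :=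
      (by decide : ∀ s ∈ [162, 141, 135, 130, 126, 123, 121, 120], s < 240) s hs
    have h2 := (hI y hy).2 ⟨s, hs'⟩
    simp only [e1, Perm.mul_apply, rc_tau, pair_tau] at h2
    simp only [rc_val, H54.O84.pair_eq, π_val] at h2
    exact (h h2).elim
  · intro h
    have h1 : w r ∈ Ψ i := by
      simpa using w_mem_Ψ (i := i) (u := 1) (one_mem _) (r := r) (by simpa using h)
    exact mul_mem (Subgroup.subset_closure ⟨r, h, rfl⟩) (Subgroup.subset_closure ⟨_, h1, rfl⟩)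

end Cfsg.Agent.H65.O84Inv
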