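import Cfsg.Agent.H54.O84Defs

/-!
# S3384, piece SYL: every subgroup `5⁴` is conjugate to the torus
-/

set_option autoImplicit false

namespace Cfsg.Agent.H65.O84Syl

open Cfsg.Agent.H54.O84 Equiv Multiplicative Subgroup
open scoped Matrix

theorem card_MV : Nat.card MV = 625 := by
  rw [Nat.card_congr (Multiplicative.toAdd (α := V)), Nat.card_fun, Nat.card_zmod]
  simp

theorem pow5 (x : MV) : x ^ 5 = 1 := by
  apply Multiplicative.toAdd.injective
  rw [toAdd_pow, toAdd_one]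
  funext i
  simp only [Pi.smul_apply, Pi.zero_apply, nsmul_eq_mul]
  exact mul_eq_zero_of_left (by decide) _

theorem syl (hU : U5Stmt) : SylStmt := by
  intro Γ _ _ G h6 b hb
  obtain ⟨u, hu, u5, u1, x₀, hx⟩ := hU
  have : Fact (Nat.Prime 5) := ⟨by norm_num⟩
  have ou : orderOf u = 5 := orderOf_eq_prime u5 u1
  let φ : Nz G.a →* Perm Rt := MonoidHom.mk' (fun g => G.ν g) fun g g' => G.ν_mul g g.2 g' g'.2
  have hφ : ∀ g : Nz G.a, φ g = 1 ↔ (g : Γ) ∈ G.a.range := fun g => G.ν_ker g g.2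
  let T : Subgroup Γ := ((zpowers u).comap φ).map (Nz G.a).subtype
  have hT : IsPGroup 5 T := by
    rintro ⟨_, t, ht, rfl⟩
    refine ⟨2, Subtype.ext ?_⟩
    obtain ⟨k, hk⟩ := mem_zpowers_iff.1 (mem_comap.1 ht)
    have h1 : φ (t ^ 5) = 1 := by
      rw [map_pow, ← hk, ← zpow_natCast, ← zpow_mul, mul_comm, zpow_mul, zpow_natCast, u5, one_zpow]
    obtain ⟨y, hy⟩ := (hφ _).1 h1
    show (t : Γ) ^ 5 ^ 2 = 1
    rw [sq, pow_mul, ← SubgroupClass.coe_pow, ← hy, ← map_pow, pow5, map_one]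
  have hA : Nat.card G.a.range = 625 :=
    (Nat.card_congr (MonoidHom.ofInjective G.inj).toEquiv).symm.trans card_MV
  have hAT : G.a.range ≤ T := fun g hg =>
    ⟨⟨g, le_normalizer hg⟩, mem_comap.2 (((hφ ⟨g, le_normalizer hg⟩).2 hg).symm ▸ one_mem _), rfl⟩
  obtain ⟨g, hg, eg⟩ := G.ν_surj u hu
  have hgT : g ∈ T := ⟨⟨g, hg⟩, mem_comap.2 (eg ▸ mem_zpowers _ : G.ν g ∈ zpowers u), rfl⟩
  have hgA : g ∉ G.a.range := fun c => u1 (eg ▸ (G.ν_ker g hg).2 c)
  obtain ⟨S, hS⟩ := hT.exists_le_sylow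
  have hST : T = S := by
    refine eq_of_le_of_card_ge hS ?_
    obtain ⟨i, hi⟩ := hT.exists_card_eq
    obtain ⟨j, hj⟩ := S.isPGroup'.exists_card_eq
    have h1 : ¬ Nat.card T ≤ Nat.card G.a.range := fun c =>
      hgA (eq_of_le_of_card_ge hAT c ▸ hgT)
    have h2 : ¬ 6 ≤ j := fun c =>
      h6 ((pow_dvd_pow 5 c).trans (hj ▸ card_subgroup_dvd_card (S : Subgroup Γ)))
    have h3 : ¬ i ≤ 4 := fun c => h1 (by
      rw [hi, hA]; exact Nat.pow_le_pow_right (by norm_num) c)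
    rw [hi, hj]
    exact Nat.pow_le_pow_right (by norm_num) (by omega)
  have hE : IsPGroup 5 b.range := by
    rintro ⟨_, y, rfl⟩
    exact ⟨1, Subtype.ext (by
      show b y ^ 5 ^ 1 = 1
      rw [pow_one, ← map_pow, pow5, map_one])⟩
  obtain ⟨S', hS'⟩ := hE.exists_le_sylow
  obtain ⟨h, hh⟩ := MulAction.exists_smul_eq Γ S' S
  let b' : MV →* Γ := (MulAut.conj h).toMonoidHom.comp b
  have hb' : Function.Injective b' := (MulAut.conj h).injective.comp hb
  have hm : ∀ y, b' y ∈ T := fun y => by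
    rw [hST, ← hh]
    exact smul_mem_pointwise_smul _ (MulAut.conj h) _ (hS' ⟨y, rfl⟩)
  have hN : ∀ y, b' y ∈ Nz G.a := fun y => map_subtype_le _ (hm y)
  have hz : ∀ y, φ ⟨b' y, hN y⟩ ∈ zpowers u := fun y => by
    obtain ⟨t, ht, e⟩ := hm y
    exact (Subtype.ext e : t = ⟨b' y, hN y⟩) ▸ ht
  refine ⟨h, ?_⟩
  rw [← MonoidHom.range_comp]
  refine eq_of_le_of_card_ge ?_ (by
    rw [hA, ← Nat.card_congr (MonoidHom.ofInjective hb').toEquiv, card_MV])
  rintro _ ⟨e, rfl⟩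
  by_contra he
  obtain ⟨k, hk⟩ := mem_powers_iff_mem_zpowers.2 (hz e)
  have hk5 : ¬ 5 ∣ k := by
    rintro ⟨l, rfl⟩
    refine he ((hφ ⟨b' e, hN e⟩).1 ?_)
    rw [← hk]
    show u ^ (5 * l) = 1
    rw [pow_mul, u5, one_pow]
  let ψ : MV →* Perm Rt := φ.comp (b'.codRestrict _ hN)
  have h1 : Nat.card ψ.range ≤ 5 := by
    refine le_trans (card_le_of_le (K := zpowers u) ?_) ((Nat.card_zpowers u).trans ou).le
    rintro _ ⟨y, rfl⟩
    exact hz y
  have h2 : ∀ y : ψ.ker, ∃ c : ZMod 5, b' y = G.a (ofAdd (c • x₀)) := fun y => by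
    obtain ⟨x, e1⟩ := (hφ ⟨b' y, hN y⟩).1 y.2
    have e2 : G.a (ofAdd (toAdd x)) = b' y := e1
    obtain ⟨c, hc⟩ := hx k hk5 (toAdd x) fun s => by
      have := G.act (b' e) (hN e) (toAdd x) (toAdd x) (by
        rw [e2, ← map_mul, mul_comm, map_mul, mul_inv_cancel_right]) s
      have hk' : u ^ k = G.ν (b' e) := hk
      rw [hk']
      exact this
    exact ⟨c, by rw [← hc, e2]⟩
  choose f hf using h2
  have h3 : Nat.card ψ.ker ≤ 5 := by
    have := Nat.card_le_card_of_injective f fun y y' e =>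
      Subtype.ext (hb' (by rw [hf, hf, e]))
    rwa [Nat.card_zmod] at this
  have h4 := ψ.ker.card_mul_index
  rw [index_ker, card_MV] at h4
  have := Nat.mul_le_mul h3 h1
  omega

end Cfsg.Agent.H65.O84Syl
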