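import Mathlib
import Cfsg.Agent.H14.RkDefs
import Cfsg.Agent.H55.SF1
import Cfsg.Agent.H88.QBaer
import Cfsg.Agent.S0028

/-! Two lemmas on class sizes for the groups of conjugate type rank four and five. -/

set_option autoImplicit false

namespace Cfsg.Agent.H65.Rk

open Subgroup H92 H14.Rk
open scoped Pointwise

universe u

theorem pz {K : Type u} [Group K] {p : ℕ} {x : K} (h : ∃ k, orderOf x = p ^ k) :
    IsPGroup p (zpowers x) := by
  obtain ⟨k, hk⟩ := h
  exact H8.isPGroup_zpowers_of_pow_eq_one (k := k) (hk ▸ pow_orderOf_eq_one x)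

theorem ord_of_mem {K : Type u} [Group K] {p : ℕ} [Fact p.Prime] {P : Subgroup K}
    (hP : IsPGroup p P) {x : K} (hx : x ∈ P) : ∃ k, orderOf x = p ^ k := by
  obtain ⟨k, hk⟩ := IsPGroup.iff_orderOf.1 hP ⟨x, hx⟩
  exact ⟨k, by rw [← hk, ← orderOf_coe]⟩

theorem nil : NilStmt.{u} := by
  intro K _ _ β hs h
  have a : ∀ (p q : ℕ) [Fact q.Prime] (u : K), p.Prime → p ≠ q → (∃ k, orderOf u = p ^ k) →
      u ∈ centralizer (pCore q K : Set K) := by
    intro p q hq u hp hpq hu
    by_cases hz : u ∈ center K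
    · exact center_le_centralizer _ hz
    obtain ⟨Q, hQ⟩ := H8.exists_isSylowIn q Ce[u]
    have := Cfsg.pCore_normal q K
    have n : ∀ B : Subgroup K, B ≤ normalizer (pCore q K : Set K) := fun B => by
      rw [normalizer_eq_top]; exact le_top
    refine zpowers_le.1 (S0028.result q Q (zpowers u) (pCore q K) hQ.isPGroup ?_ H52.pCore_isPGroup
      (by rw [H52.centralizer_zpowers]; exact hQ.le) (n _) (n _) fun e he => ?_)
    · rw [Nat.card_zpowers]
      exact coprime_of_pow_of_pow hp hq.out hpq hu ⟨1, (pow_one q).symm⟩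
    rw [H52.centralizer_zpowers]
    by_cases ez : e ∈ center K
    · exact center_le_C u ez
    have oe := ord_of_mem H52.pCore_isPGroup he.1
    have c : Q ≤ Ce[e] := le_C_iff.2 he.2
    obtain ⟨T, hT, hle⟩ := H8.exists_isSylowIn_ge (p := q) (Q := Q ⊔ zpowers e) (H := Ce[e])
      (hQ.isPGroup.to_sup_of_normal_right' (pz oe) (H55.le_normalizer_of_le_centralizer
        (by rw [H52.centralizer_zpowers]; exact c))) (sup_le c (zpowers_le_C e))
    have e1 : Q = T := eq_of_le_of_card_ge (le_sup_left.trans hle) (by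
      rw [hT.card_eq, hQ.card_eq, h q e hq.out oe ez, h p u hp hu hz])
    exact hQ.le (e1.ge (hle (mem_sup_right (mem_zpowers e))))
  have hF : fittingSubgroup K = ⊤ := by
    refine eq_top_of_forall_primePow fun u p hp hu => ?_
    set M : Subgroup K := ⨅ q : {q : ℕ // q.Prime ∧ p ≠ q}, centralizer (pCore q K : Set K) with hM
    have hn : M.Normal := normal_iInf_normal fun q =>
      have := Cfsg.pCore_normal q K
      inferInstance
    refine H52.le_fitting (N := M) ?_ (mem_iInf.2 fun q =>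
      have := Fact.mk q.2.1
      a p q u hp q.2.2 hu)
    have := Fact.mk hp
    have hq : IsPGroup p (M ⧸ center M) := by
      intro m
      obtain ⟨m, rfl⟩ := QuotientGroup.mk_surjective m
      obtain ⟨x, y, -, -, rfl, ⟨k, hk⟩, hy⟩ := exists_p_parts hp m
      have yz : y ∈ center M := by
        refine mem_of_forall_primePow fun w _ q hq hd hw => mem_center_iff.2 fun g => Subtype.ext ?_
        have := Fact.mk hq
        have pq : p ≠ q := fun e => hy (e ▸ hd)
        have hw' : ∃ k, orderOf (w : K) = q ^ k := by rwa [orderOf_coe]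
        have l := H55.le_Op_of_cent (K := ⊤) (Y := zpowers (w : K)) inferInstance le_top (pz hw')
          fun s hs => by
            rw [H52.Op_top]
            refine le_centralizer_iff.1 (zpowers_le.2 ?_)
            by_cases e : q = s
            · exact mem_iInf.1 w.2 ⟨s, hs.out, e ▸ pq⟩
            · exact a q s w hq e hw'
        rw [H52.Op_top] at l
        exact (mem_iInf.1 g.2 ⟨q, hq, pq⟩ _ (l (mem_zpowers _))).symm
      refine ⟨k, ?_⟩
      rw [QuotientGroup.mk_mul, (QuotientGroup.eq_one_iff y).2 yz, mul_one, ← QuotientGroup.mk_pow,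
        ← hk, pow_orderOf_eq_one, QuotientGroup.mk_one]
    have := hq.isNilpotent
    exact Subgroup.isNilpotent_of_ker_le_center (QuotientGroup.mk' (center M))
      (QuotientGroup.ker_mk' _).le
  have := H52.fitting_isNilpotent (G := K)
  rw [hF] at this
  exact Group.nilpotent_of_surjective (⊤ : Subgroup K).subtype fun x => ⟨⟨x, trivial⟩, rfl⟩

theorem exp : ExpStmt.{u} := by
  rintro K _ _ H hH ho ⟨k, hk⟩ hv ⟨v₀, hv₀⟩
  set D : Subgroup K := closure {v | ∃ k, 2 ≤ k ∧ orderOf v = 2 ^ k} with hD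
  have dn : D.Normal := ⟨fun x hx g => by
    refine closure_induction (p := fun x _ => g * x * g⁻¹ ∈ D) (fun x hx => subset_closure ?_)
      (by simp) (fun x y _ _ h1 h2 => ?_) (fun x _ h1 => ?_) hx
    · rwa [Set.mem_ofPred_eq, H92.orderOf_conj]
    · simpa using mul_mem h1 h2
    · simpa [mul_assoc] using inv_mem h1⟩
  have dO : D ≤ pCore 2 K := (closure_le _).2 fun v ⟨j, h1, h2⟩ =>
    H88.mem_pCore_of_cs_pow ⟨j, h2⟩ (hv v ⟨j, h1, h2⟩)
  have dp : IsPGroup 2 D := H52.pCore_isPGroup.to_le dO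
  obtain ⟨S⟩ : Nonempty (Sylow 2 K) := inferInstance
  have dS : D ≤ S := dp.le_sylow_of_normal S
  have inv : ∀ s ∈ (S : Subgroup K), s ∉ D → ∀ d ∈ D, s * d * s⁻¹ = d⁻¹ := by
    have sq : ∀ s ∈ (S : Subgroup K), s ∉ D → s * s = 1 := fun s hs hs' => by
      obtain ⟨j, hj⟩ := ord_of_mem S.isPGroup' hs
      have : j ≤ 1 := by
        by_contra c
        exact hs' (subset_closure ⟨j, by omega, hj⟩)
      rw [← pow_two]
      exact orderOf_dvd_iff_pow_eq_one.1 (hj ▸ (pow_dvd_pow 2 this).trans (by norm_num))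
    intro s hs hs' d hd
    have e1 := sq s hs hs'
    have e2 := sq (s * d) (mul_mem hs (dS hd)) fun e => hs' ((mul_mem_cancel_right hd).1 e)
    calc s * d * s⁻¹ = (s * d * (s * d)) * d⁻¹ * (s * s)⁻¹ := by group
      _ = d⁻¹ := by rw [e1, e2]; group
  have i1 : D.relIndex S ∣ 2 := by
    refine index_dvd_two_iff.2 ?_
    by_cases e : (S : Subgroup K) ≤ D
    · exact ⟨1, fun b => Or.inr (e b.2)⟩
    obtain ⟨s, hs, hs'⟩ := SetLike.not_le_iff_exists.1 e
    refine ⟨⟨s, hs⟩, fun b => ?_⟩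
    by_contra c
    rw [not_or] at c
    have m : v₀ ∈ D := subset_closure ⟨2, le_rfl, hv₀⟩
    have e1 := inv _ (mul_mem b.2 hs) c.1 v₀ m
    have e2 : (b : K) * s * v₀ * (b * s)⁻¹ = b * (s * v₀ * s⁻¹) * (b : K)⁻¹ := by group
    rw [e2, inv s hs hs' v₀ m, inv b b.2 c.2 _ (inv_mem m), inv_inv] at e1
    have : orderOf v₀ ∣ 2 := orderOf_dvd_of_pow_eq_one (by
      rw [pow_two]; nth_rw 1 [e1]; exact inv_mul_cancel _)
    rw [hv₀] at this
    norm_num at this
  have i2 : (D ⊔ H).index ∣ 2 := by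
    obtain ⟨j, -, hj⟩ := (Nat.dvd_prime_pow Nat.prime_two).1
      (hk ▸ index_dvd_of_le (le_sup_right : H ≤ D ⊔ H))
    have d1 := index_dvd_of_le (le_sup_left : D ≤ D ⊔ H)
    rw [← relIndex_mul_index dS] at d1
    refine Nat.Coprime.dvd_of_dvd_mul_right ?_ (d1.trans (Nat.mul_dvd_mul_right i1 _))
    rw [hj]
    exact ((Nat.Prime.coprime_iff_not_dvd Nat.prime_two).2 S.not_dvd_index).pow_left _
  have ln : (D ⊔ H).Normal := by
    rcases (Nat.dvd_prime Nat.prime_two).1 i2 with e | e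
    · exact normal_of_index_eq_one e
    · exact normal_of_index_eq_two e
  have hc : H ≤ centralizer (D : Set K) := fun h hh => by
    refine mem_of_forall_primePow fun y hy r hr hd hy' => ?_
    have := Fact.mk hr
    have nd : ∀ j, ¬ r ∣ 2 ^ j := fun j e => by
      have := (Nat.prime_dvd_prime_iff_eq hr Nat.prime_two).1 (hr.dvd_of_dvd_pow e)
      subst this
      exact (Nat.not_even_iff_odd.2 ho) (even_iff_two_dvd.2 (hd.trans (H.orderOf_dvd_natCard hh)))
    obtain ⟨R, hR, hle⟩ := H8.exists_isSylowIn_ge (pz hy') (zpowers_le.2 (zpowers_le.2 hh hy))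
    refine le_centralizer_iff.1 ?_ (hle (mem_zpowers y))
    have hR' := hR.trans_of_not_dvd (le_sup_right : H ≤ D ⊔ H) fun e =>
      nd k (hk ▸ e.trans (relIndex_dvd_index_of_le le_sup_right))
    by_contra c
    obtain ⟨M, hM, hle'⟩ := H55.exists_hyp_ge dp (inf_le_left : D ⊓ centralizer (R : Set K) ≤ D)
      fun e => c (inf_eq_left.1 e)
    have mn : D ≤ normalizer (M : Set K) :=
      (normal_subgroupOf_iff_le_normalizer hM.le).1 (normal_of_index_eq_two hM.2)
    refine hM.ne (le_antisymm hM.le ((closure_le _).2 fun v hv' => ?_))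
    obtain ⟨j, hj⟩ := hv v hv'
    obtain ⟨T, hT⟩ := H8.exists_isSylowIn r (Ce[v] ⊓ (D ⊔ H))
    have hT' := hT.trans_of_not_dvd inf_le_right fun e => nd j (by
      rw [inf_relIndex_right] at e
      exact hj ▸ e.trans (relIndex_normal_dvd_index _ _))
    obtain ⟨l, hl, e⟩ := hR'.exists_conj_eq hT'
    obtain ⟨d, hd, x, hx, rfl⟩ := mem_sup_of_normal_left.1 hl
    rw [← H8.conj_smul_conj_smul, H8.conj_smul_eq_of_mem_centralizer (H := R) (g := x)
      fun z hz => (H7.commute_of_mem hH (hR.le hz) hx).eq] at e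
    have m : v ∈ D := subset_closure hv'
    have m2 : d⁻¹ * v * d ∈ M := hle' <| mem_inf.2 ⟨mul_mem (mul_mem (inv_mem hd) m) hd, fun z hz => by
      have := (mem_C.1 (hT.le (e ▸ H8.conj_mem_conj_smul.2 hz)).1).eq
      calc z * (d⁻¹ * v * d) = d⁻¹ * (d * z * d⁻¹ * v) * d := by group
        _ = d⁻¹ * (v * (d * z * d⁻¹)) * d := by rw [this]
        _ = _ := by group⟩
    have := (mem_normalizer_iff.1 (mn hd) _).1 m2
    simpa [mul_assoc] using this
  have nd : ¬ 2 ∣ Nat.card H := fun e => (Nat.not_even_iff_odd.2 ho) (even_iff_two_dvd.2 e)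
  have l1 : H ≤ H52.Opp 2 (D ⊔ H) := H55.le_Opp nd le_sup_right (sup_le
    (H55.le_normalizer_of_le_centralizer (le_centralizer_iff.1 hc)) le_normalizer)
  have on : (H52.Opp 2 (D ⊔ H)).Normal := normalizer_eq_top_iff.1 (top_le_iff.1
    ((normalizer_eq_top (D ⊔ H)).ge.trans (H55.norm_Opp 2 _)))
  obtain ⟨j, -, hj⟩ := (Nat.dvd_prime_pow Nat.prime_two).1 (hk ▸ index_dvd_of_le l1)
  exact H8.hasNormalPComplement_of_normal (H55.Opp_not_dvd 2 (D ⊔ H)) (IsPGroup.of_card hj)

end Cfsg.Agent.H65.Rk
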