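import Cfsg.Agent.H79.SqDefs
import Cfsg.Agent.S4508

/-! Simple groups with fewer than `p ^ 2` Sylow `p`-subgroups, `C(P) = P`: the shape of the
principal block. -/

set_option autoImplicit false
set_option maxHeartbeats 400000
set_option linter.unusedSectionVars false

namespace Cfsg.Agent.H65.SqShape

open MulAction Subgroup Cfsg Cfsg.Agent.H58 Cfsg.Agent.H79.Sq

universe w

/-- `d` divides `N` with a cofactor prime to some prime divisor of `e` -/
def Van (e N d : ℕ) : Prop := ∃ r c : ℕ, r.Prime ∧ r ∣ e ∧ N = d * c ∧ ¬ r ∣ c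

section Arith

theorem nd_succ {r a : ℕ} (hr : r.Prime) (h : r ∣ a) : ¬ r ∣ a + 1 := fun h' =>
  hr.one_lt.ne' (Nat.dvd_one.1 ((Nat.dvd_add_right h).1 h'))

theorem nd_mul {r a b : ℕ} (hr : r.Prime) (ha : ¬ r ∣ a) (hb : ¬ r ∣ b) : ¬ r ∣ a * b := fun h =>
  (hr.dvd_mul.1 h).elim ha hb

theorem nd_cop {r a b : ℕ} (hr : r.Prime) (h : a.Coprime b) (ha : r ∣ a) : ¬ r ∣ b := fun hb =>
  hr.one_lt.ne' (Nat.eq_one_of_dvd_coprimes h ha hb)

variable {p u m e t z x y1 y2 : ℕ}

/-- the data of the arithmetic problem -/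
structure Ar (p u m e t z x y1 y2 : ℕ) : Prop where
  hpe : p = (u + 1) * m + 1
  hu : 1 ≤ u
  hum : u + 1 ≤ m
  he2 : 2 ≤ e
  het : e * t = (u + 1) * m
  count : 1 + x + y1 + y2 = e
  hA2 : 0 < x → u + 1 ∣ e
  hB2 : 0 < y2 → m ∣ e
  hB1 : 0 < y1 → t ∣ (u * m + 1) * (p + u + 1)
  van : Van e (p * e * ((u * m + 1) * (p + u + 1))) z →
    (0 < x → Van e (p * e * ((u * m + 1) * (p + u + 1))) ((u + 1) * (u * m + 1))) →
    (0 < y2 → Van e (p * e * ((u * m + 1) * (p + u + 1))) (m * (p + u + 1))) → False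
  ev1 : 0 < y1 → Even t
  ev2 : z + 1 = p → Even t
  cyc : Even e → Odd ((u * m + 1) * (p + u + 1)) → False

namespace Ar

variable (h : Ar p u m e t z x y1 y2)
include h

theorem t_pos : 0 < t := Nat.pos_of_ne_zero (by
  rintro rfl; have := h.het; have := h.hum; simp at *; omega)

theorem p_pos : (0 : ℤ) < p := by have := h.hpe; omega

theorem hB : p + u + 1 = (u + 1) * (m + 1) + 1 := by rw [h.hpe]; ring

theorem nd_p_m {r : ℕ} (hr : r.Prime) (hd : r ∣ m) : ¬ r ∣ p :=
  h.hpe ▸ nd_succ hr (hd.mul_left _)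

theorem nd_p_v {r : ℕ} (hr : r.Prime) (hd : r ∣ u + 1) : ¬ r ∣ p :=
  h.hpe ▸ nd_succ hr (hd.mul_right _)

theorem nd_B {r : ℕ} (hr : r.Prime) (hd : r ∣ u + 1) : ¬ r ∣ p + u + 1 :=
  h.hB ▸ nd_succ hr (hd.mul_right _)

omit h in
theorem nd_A {r : ℕ} (hr : r.Prime) (hd : r ∣ m) : ¬ r ∣ u * m + 1 := nd_succ hr (hd.mul_left _)

theorem m_dvd (hd : m ∣ (u * m + 1) * (p + u + 1)) : m ∣ u + 2 := by
  have h1 : m ∣ p + u + 1 := (Dat.cop_mA (u := u) (m := m)).dvd_of_dvd_mul_left hd
  rw [h.hpe, show (u + 1) * m + 1 + u + 1 = (u + 1) * m + (u + 2) by ring] at h1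
  exact (Nat.dvd_add_right (dvd_mul_left _ _)).1 h1

theorem v_dvd (hd : u + 1 ∣ (u * m + 1) * (p + u + 1)) : u + 1 ∣ u * m + 1 := by
  refine Nat.Coprime.dvd_of_dvd_mul_right ?_ hd
  rw [h.hB]; simp

theorem e4 (hz : t * z + 1 = p)
    (star : (z : ℤ) = e + p * (x * u - y1 - y2 * (m + 1))) : False := by
  have ht := h.t_pos
  have hze : z = e := by
    have h1 := h.hpe; have h2 := h.het
    exact Nat.eq_of_mul_eq_mul_left ht (by rw [mul_comm t e]; omega)
  have h1 : (x : ℤ) * u - y1 - y2 * (m + 1) = 0 := by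
    rw [hze] at star
    exact (mul_eq_zero.1 (by linear_combination -star)).resolve_left h.p_pos.ne'
  have h2 : x * (u + 1) + 1 = e + y2 * m := by
    have := h.count
    zify at this ⊢
    linear_combination h1 + this
  have he2 := h.he2
  have hx : 0 < x := Nat.pos_of_ne_zero (by rintro rfl; omega)
  obtain ⟨k, hk⟩ := h.hA2 hx
  have hm : m = k * t := by
    have := h.het
    rw [hk, mul_assoc] at this
    exact (Nat.eq_of_mul_eq_mul_left (Nat.succ_pos u) this).symm
  have hcop : ∀ d, d ∣ u + 1 → d ∣ y2 * m → d = 1 := fun d h3 h4 => by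
    have h5 : d ∣ x * (u + 1) + 1 := h2 ▸ dvd_add (hk ▸ h3.mul_right k) h4
    exact Nat.dvd_one.1 ((Nat.dvd_add_right (h3.mul_left x)).1 h5)
  have hu := h.hu
  have hy : 0 < y2 := Nat.pos_of_ne_zero (by
    rintro rfl
    have := hcop (u + 1) dvd_rfl (by simp)
    omega)
  obtain ⟨l, hl⟩ := h.hB2 hy
  have hv : u + 1 = l * t := by
    have := h.het
    rw [hl, mul_assoc, mul_comm (u + 1)] at this
    exact (Nat.eq_of_mul_eq_mul_left (by have := h.hum; omega) this).symm
  have ht1 : t = 1 := hcop t (hv ▸ dvd_mul_left _ _) (hm ▸ (dvd_mul_left _ _).mul_left _)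
  have := h.ev2 (by rw [ht1, one_mul] at hz; exact hz)
  rw [ht1] at this
  exact absurd this (by decide)

theorem e2 (hz : t * z = (u + 1) * (u * m + 1))
    (star : -(z : ℤ) = e + p * (x * u - y1 - y2 * (m + 1))) : False := by
  have ht := h.t_pos
  have hpe := h.hpe
  have het := h.het
  have hc := h.count
  have hu := h.hu
  have hum := h.hum
  have h1 : ((u : ℤ) + 1) = t * -(x * u - y1 - y2 * (m + 1)) := by
    refine mul_left_cancel₀ h.p_pos.ne' ?_
    zify at hz hpe het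
    linear_combination -t * star - hz - het + (u + 1) * hpe
  obtain ⟨k, hk⟩ : t ∣ u + 1 := by exact_mod_cast (Dvd.intro _ h1.symm : (t : ℤ) ∣ (u : ℤ) + 1)
  have he : e = m * k := Nat.eq_of_mul_eq_mul_right ht (by rw [het, hk]; ring)
  have hzk : z = k * (u * m + 1) := Nat.eq_of_mul_eq_mul_left ht (by rw [hz, hk]; ring)
  have h2 : x * (u + 1) + k + 1 = m * k + y2 * m := by
    have h3 : (k : ℤ) = -(x * u - y1 - y2 * (m + 1)) := by
      refine mul_left_cancel₀ (a := (t : ℤ)) (by omega) ?_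
      rw [← h1]; exact_mod_cast hk.symm
    rw [← he]
    zify at hc ⊢
    linear_combination h3 + hc
  have hkv : k ∣ u + 1 := hk ▸ dvd_mul_left _ _
  have hcop : k.Coprime m := Nat.coprime_of_dvd' fun d _ h3 h4 => by
    have h5 : d ∣ x * (u + 1) + k + 1 := h2 ▸ dvd_add (h4.mul_right k) (h4.mul_left _)
    exact (Nat.dvd_add_right (dvd_add ((h3.trans hkv).mul_left x) h3)).1 h5
  by_cases hk1 : k = 1
  · subst hk1
    rw [mul_one] at hk he
    subst he
    rcases Nat.eq_zero_or_pos x with rfl | hx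
    · have h4 : e * (1 + y2) = 2 := by linear_combination -h2
      have h5 : e = 2 := le_antisymm (Nat.le_of_dvd two_pos (Dvd.intro _ h4)) h.he2
      subst h5
      obtain rfl : u = 1 := by omega
      have := h.v_dvd (hk ▸ h.hB1 (by omega))
      omega
    · have h4 := h.hA2 hx
      have h5 : u + 1 ∣ 2 := by
        have h6 : u + 1 ∣ x * (u + 1) + 2 := by
          rw [show x * (u + 1) + 2 = e * 1 + y2 * e from h2]
          exact dvd_add (h4.mul_right _) (h4.mul_left _)
        exact (Nat.dvd_add_right (dvd_mul_left _ _)).1 h6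
      obtain rfl : u = 1 := by have := Nat.le_of_dvd two_pos h5; omega
      have hy1 : y1 = 0 := by
        by_contra hy
        have := h.v_dvd (hk ▸ h.hB1 (Nat.pos_of_ne_zero hy))
        omega
      subst hy1
      have h7 : e = y2 * (e + 2) := by
        zify at h2 hc ⊢
        linear_combination h2 - 2 * hc
      rcases Nat.eq_zero_or_pos y2 with rfl | hy
      · omega
      · have := Nat.le_mul_of_pos_left (e + 2) hy
        omega
  obtain ⟨r, hr, hrk⟩ := Nat.exists_prime_and_dvd hk1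
  obtain ⟨s, hs, hsm⟩ := Nat.exists_prime_and_dvd (show m ≠ 1 by omega)
  have hre : r ∣ e := he ▸ hrk.mul_left _
  have hrv := hrk.trans hkv
  have hrm := nd_cop hr hcop hrk
  refine h.van ⟨r, p * m * (p + u + 1), hr, hre, by rw [hzk, he]; ring,
    nd_mul hr (nd_mul hr (h.nd_p_v hr hrv) hrm) (h.nd_B hr hrv)⟩ (fun hx => ?_)
    fun _ => ⟨s, p * k * (u * m + 1), hs, he ▸ hsm.mul_right _, by rw [he]; ring,
      nd_mul hs (nd_mul hs (h.nd_p_m hs hsm) (nd_cop hs hcop.symm hsm)) (nd_A hs hsm)⟩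
  obtain ⟨l, hl⟩ := h.hA2 hx
  have hk0 : 0 < k := Nat.pos_of_ne_zero (by rintro rfl; omega)
  have hml : m = t * l := Nat.eq_of_mul_eq_mul_right hk0 (by rw [← he, hl, hk]; ring)
  exact ⟨r, p * l * (p + u + 1), hr, hre, by rw [hl]; ring,
    nd_mul hr (nd_mul hr (h.nd_p_v hr hrv) fun hd => hrm (hml ▸ hd.mul_left _)) (h.nd_B hr hrv)⟩

theorem e1 (hz : t * z = m * (p + u + 1))
    (star : (z : ℤ) = e + p * (x * u - y1 - y2 * (m + 1))) :
    t = m ∧ e = u + 1 ∧ z = p + u + 1 ∧ y2 = 0 ∧ x = 1 ∧ (u = 1 ∨ (m = u + 2 ∧ Even m)) := by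
  have ht := h.t_pos
  have hpe := h.hpe
  have het := h.het
  have hc := h.count
  have hu := h.hu
  have hum := h.hum
  have h1 : (m : ℤ) = t * (x * u - y1 - y2 * (m + 1)) := by
    refine mul_left_cancel₀ h.p_pos.ne' ?_
    zify at hz hpe het
    linear_combination t * star - hz + het
  obtain ⟨k, hk⟩ : t ∣ m := by exact_mod_cast (Dvd.intro _ h1.symm : (t : ℤ) ∣ (m : ℤ))
  have he : e = (u + 1) * k := Nat.eq_of_mul_eq_mul_right ht (by rw [het, hk]; ring)
  have hzk : z = k * (p + u + 1) := Nat.eq_of_mul_eq_mul_left ht (by rw [hz, hk]; ring)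
  have h2 : x * (u + 1) + 1 = (u + 1) * k + k + y2 * m := by
    have h3 : (k : ℤ) = x * u - y1 - y2 * (m + 1) := by
      refine mul_left_cancel₀ (a := (t : ℤ)) (by omega) ?_
      rw [← h1]; exact_mod_cast hk.symm
    rw [← he]
    zify at hc ⊢
    linear_combination hc - h3
  have hkm : k ∣ m := hk ▸ dvd_mul_left _ _
  have hcop : k.Coprime (u + 1) := Nat.coprime_of_dvd' fun d _ h3 h4 => by
    have h5 : d ∣ x * (u + 1) + 1 :=
      h2 ▸ dvd_add (dvd_add (h4.mul_right k) h3) ((h3.trans hkm).mul_left _)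
    exact (Nat.dvd_add_right (h4.mul_left x)).1 h5
  by_cases hk1 : k = 1
  · subst hk1
    rw [mul_one] at hk he
    subst hk
    rw [one_mul] at hzk
    have hy1 : 0 < y1 → m = u + 2 := fun hy => by
      have h4 := h.m_dvd (h.hB1 hy)
      have h5 := Nat.le_of_dvd (by omega) h4
      by_contra h6
      obtain rfl : m = u + 1 := by omega
      have := Nat.le_of_dvd one_pos ((Nat.dvd_add_right dvd_rfl).1 h4)
      omega
    have hy2 : y2 = 0 := by
      by_contra hy
      have h4 := Nat.le_of_dvd (by omega) (h.hB2 (Nat.pos_of_ne_zero hy))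
      obtain rfl : m = u + 1 := by omega
      have h5 : y1 = 0 := by by_contra h5; have := hy1 (Nat.pos_of_ne_zero h5); omega
      have h6 : x = 1 + y2 := Nat.eq_of_mul_eq_mul_right (Nat.succ_pos u) (by
        zify at h2 ⊢; linear_combination h2)
      have h7 : Even (u + 1) := ⟨1 + y2, by omega⟩
      refine h.cyc (he ▸ h7) (Odd.mul ((h7.mul_left u).add_one) ?_)
      rw [h.hB]
      exact (h7.mul_right _).add_one
    subst hy2
    have hx : x = 1 := Nat.eq_of_mul_eq_mul_right (Nat.succ_pos u) (by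
      zify at h2 ⊢; linear_combination h2)
    refine ⟨rfl, he, hzk, rfl, hx, ?_⟩
    by_cases hu1 : u = 1
    · exact Or.inl hu1
    · exact Or.inr ⟨hy1 (by omega), h.ev1 (by omega)⟩
  exfalso
  obtain ⟨r, hr, hrk⟩ := Nat.exists_prime_and_dvd hk1
  obtain ⟨s, hs, hsv⟩ := Nat.exists_prime_and_dvd (show u + 1 ≠ 1 by omega)
  have hre : r ∣ e := he ▸ hrk.mul_left _
  have hrm := hrk.trans hkm
  have hrv := nd_cop hr hcop hrk
  refine h.van ⟨r, p * (u + 1) * (u * m + 1), hr, hre, by rw [hzk, he]; ring,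
    nd_mul hr (nd_mul hr (h.nd_p_m hr hrm) hrv) (nd_A hr hrm)⟩
    (fun _ => ⟨s, p * k * (p + u + 1), hs, he ▸ hsv.mul_right _, by rw [he]; ring,
      nd_mul hs (nd_mul hs (h.nd_p_v hs hsv) (nd_cop hs hcop.symm hsv)) (h.nd_B hs hsv)⟩)
    fun hy => ?_
  obtain ⟨l, hl⟩ := h.hB2 hy
  have hk0 : 0 < k := Nat.pos_of_ne_zero (by rintro rfl; omega)
  have hvl : u + 1 = t * l := Nat.eq_of_mul_eq_mul_right hk0 (by rw [← he, hl, hk]; ring)
  exact ⟨r, p * l * (u * m + 1), hr, hre, by rw [hl]; ring,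
    nd_mul hr (nd_mul hr (h.nd_p_m hr hrm) fun hd => hrv (hvl ▸ hd.mul_left _)) (nd_A hr hrm)⟩

end Ar

end Arith

section Grp

variable {G : Type*} [Group G] [Fintype G] {p : ℕ} [hp : Fact p.Prime]

theorem exists_gen (h : SelfCent p G) (P : Sylow p G) {e : ℕ}
    (he : Nat.card (normalizer ((P : Subgroup G) : Set G)) = p * e) (hpe : ¬ p ∣ e) :
    ∃ c ∈ normalizer ((P : Subgroup G) : Set G), orderOf c = e := by
  set N := normalizer ((P : Subgroup G) : Set G) with hN
  have hPN : Nat.card ((P : Subgroup G).subgroupOf N) = p := by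
    rw [Nat.card_congr (subgroupOfEquivOfLe (le_normalizer (H := (P : Subgroup G)))).toEquiv,
      h.card P]
  have hidx : ((P : Subgroup G).subgroupOf N).index = e := by
    have := ((P : Subgroup G).subgroupOf N).card_mul_index
    rw [hPN, he] at this
    exact Nat.eq_of_mul_eq_mul_left hp.out.pos this
  obtain ⟨E, hE⟩ := exists_right_complement'_of_coprime (N := (P : Subgroup G).subgroupOf N) (by
      rw [hPN, hidx, hp.out.coprime_iff_not_dvd]; exact hpe)
  have hd : ∀ y ∈ E.map N.subtype, y ∈ (P : Subgroup G) → y = 1 := by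
    rintro _ ⟨y, hy, rfl⟩ hyP
    have : y = 1 := disjoint_def.1 hE.disjoint hyP hy
    simp [this]
  have hcyc := h.isCyclic_of_disjoint P (E := E.map N.subtype) (map_subtype_le E) hd
  obtain ⟨c, hc⟩ := IsCyclic.exists_generator (α := E.map N.subtype)
  refine ⟨c, map_subtype_le E c.2, ?_⟩
  rw [orderOf_coe, orderOf_eq_card_of_forall_mem_zpowers hc, H3.card_map_subtype,
    ← hE.symm.index_eq_card, hidx]

theorem vanish_N (h : SelfCent p G) (P : Sylow p G) (χ : IrrCharacter G)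
    (hfix : fixDim P χ.1 = 0) {y : G} (hyN : y ∈ normalizer ((P : Subgroup G) : Set G))
    (hyP : y ∉ (P : Subgroup G)) : χ.1 y = 0 := by
  let f : ↥(P : Subgroup G) → ↥(P : Subgroup G) := fun u => ⟨u * (y * (u : G)⁻¹ * y⁻¹),
    mul_mem u.2 ((mem_normalizer_iff.1 hyN _).1 (inv_mem u.2))⟩
  have hf : Function.Injective f := by
    intro u v huv
    have e1 : (u : G) * (y * (u : G)⁻¹ * y⁻¹) = v * (y * (v : G)⁻¹ * y⁻¹) :=
      congrArg Subtype.val huv
    by_contra hne
    refine hyP (h.mem_of_commute P (mul_mem (inv_mem v.2) u.2)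
      (fun e => hne (Subtype.ext (inv_mul_eq_one.1 e).symm)) ?_)
    calc (v : G)⁻¹ * u * y = (v : G)⁻¹ * (u * (y * (u : G)⁻¹ * y⁻¹)) * y * u := by group
      _ = _ := by rw [e1]; group
  have h1 := sumOn_mul_eq_zero (H11.irr_isCharacter χ) hfix y
  rw [sumOn_congr (f' := fun _ => χ.1 y) fun u hu => by
    obtain ⟨w, hw⟩ := Finite.surjective_of_injective hf ⟨u, hu⟩
    have e1 : (w : G) * (y * (w : G)⁻¹ * y⁻¹) = u := congrArg Subtype.val hw
    rw [← e1, ← H11.isClassFunction_of_irr χ.2 y w]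
    congr 1; group, sumOn_const, show Nat.card (P : Subgroup G) = p from h.card P,
    mul_eq_zero] at h1
  exact h1.resolve_left (by exact_mod_cast hp.out.ne_zero)

theorem vanish_of_van {c : G} {χ : IrrCharacter G}
    (hv : Van (orderOf c) (Nat.card G) (charDegree χ.1)) : χ.1 c = 0 := by
  obtain ⟨r, d, hr, h1, h2, h3⟩ := hv
  exact vanish_of_not_dvd χ hr h2 h3 h1

omit hp in
theorem not_cyc (hG : commutator G = ⊤) {c : G} {k : ℕ} (hc : Even (orderOf c))
    (h : Nat.card G = orderOf c * k) (hk : Odd k) : False := by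
  have : Fact (Nat.Prime 2) := ⟨Nat.prime_two⟩
  have h2 : 2 ∣ Nat.card G := h ▸ hc.two_dvd.mul_right k
  obtain ⟨S⟩ : Nonempty (Sylow 2 (zpowers c)) := inferInstance
  have hi : (zpowers c).index = k := by
    have := (zpowers c).card_mul_index
    rw [Nat.card_zpowers, h] at this
    exact Nat.eq_of_mul_eq_mul_left (orderOf_pos c) this
  have hS : IsPGroup 2 ((S : Subgroup (zpowers c)).map (zpowers c).subtype) := S.isPGroup'.map _
  have hidx : ¬ 2 ∣ ((S : Subgroup (zpowers c)).map (zpowers c).subtype).index := by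
    rw [index_map_subtype, hi]
    exact nd_mul Nat.prime_two S.not_dvd_index hk.not_two_dvd_nat
  let T : Sylow 2 G := hS.toSylow hidx
  have hc : IsCyclic T := isCyclic_of_le (H' := zpowers c) (map_subtype_le _)
  have h1 := hc.isComplement' (Nat.minFac_eq_two_iff _ |>.2 h2)
  let _ : CommGroup T := hc.commGroup
  have h3 := hG ▸ Abelianization.commutator_subset_ker
    (MonoidHom.transferSylow T (hc.normalizer_le_centralizer (Nat.minFac_eq_two_iff _ |>.2 h2)))
  exact T.ne_bot_of_dvd_card h2 (top_disjoint.1 (h1.disjoint.mono_left h3))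

variable {P : Sylow p G} {u m e t : ℕ}

theorem even_t (D : Dat G p P u m e t) (h : SelfCent p G) (χ : IrrCharacter G)
    (hχ : charDegree χ.1 + 1 = p) : Even t := by
  obtain ⟨x, hx, hx1⟩ := h.exists_mem P
  have h1 := h.mul_card_classes P (h.card_normalizer P D.he P)
  have h2 := D.het'
  have h3 := D.he2
  have h4 := S4508.result p hp.out x (orderOf_eq_of_mem_of_card_prime hp.out D.hP hx hx1)
    (by rw [centralizer_singleton_eq D.hP hx hx1, h.cent P]
        exact eq_zpowers_of_card_prime hp.out D.hP hx hx1) t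
    (Nat.eq_of_mul_eq_mul_left (show 0 < e by omega) (by omega)) χ hχ
  rw [D.perfect, index_top] at h4
  exact h4.resolve_right (by decide)

theorem ar (D : Dat G p P u m e t) (h : SelfCent p G) (hA1 : D.A1 = ∅) :
    Ar p u m e t D.z D.A2.card D.B1.card D.B2.card := by
  have hc := D.count
  rw [hA1, Finset.card_empty, add_zero] at hc
  have hpe : ¬ p ∣ e := fun hd => by
    have := nd_succ hp.out (hd.mul_right t)
    rw [D.het'] at this
    exact this dvd_rfl
  obtain ⟨c, hcN, hco⟩ := exists_gen h P (h.card_normalizer P D.he P) hpe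
  have hcP : c ∉ (P : Subgroup G) := fun hc => by
    have h1 : c ≠ 1 := by rintro rfl; have := D.he2; rw [orderOf_one] at hco; omega
    exact hpe (hco ▸ (orderOf_eq_of_mem_of_card_prime hp.out D.hP hc h1).symm.dvd)
  obtain ⟨θ, hθ⟩ : D.Y.Nonempty := Finset.card_pos.1 (D.cardY.symm ▸ D.t_pos)
  refine ⟨D.hpe, D.hu, D.hum, D.he2, D.het, hc, fun hx => ?_, fun hx => ?_, fun hx => ?_,
    fun h1 h2 h3 => ?_, fun hx => ?_, fun hz => even_t D h θ (by rw [D.degY θ hθ, hz]),
    fun h1 h2 => ?_⟩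
  · obtain ⟨χ, hχ⟩ := Finset.card_pos.1 hx
    exact D.dvd_of_A2 hχ
  · obtain ⟨χ, hχ⟩ := Finset.card_pos.1 hx
    exact D.dvd_of_B2 hχ
  · obtain ⟨χ, hχ⟩ := Finset.card_pos.1 hx
    exact D.dvd_of_B1 hχ
  · rw [← D.card_G h] at h1 h2 h3
    have h4 := D.rel4 hθ (g := c) (hco ▸ hpe)
    rw [hA1, Finset.sum_empty, vanish_of_van (χ := θ) (by rwa [hco, D.degY θ hθ]),
      Finset.sum_eq_zero (s := D.A2) fun χ hχ => vanish_of_van (by
        rw [hco, (D.mem_A2.1 hχ).2, D.vA]; exact h2 (Finset.card_pos.2 ⟨χ, hχ⟩)),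
      Finset.sum_eq_zero (s := D.B1) fun χ hχ => vanish_N h P χ
        (D.fixDim_B D.hP (D.mem_B1.1 hχ).1 (by have := (D.mem_B1.1 hχ).2; omega)) hcN hcP,
      Finset.sum_eq_zero (s := D.B2) fun χ hχ => vanish_of_van (by
        have h5 := (D.mem_B2.1 hχ).2
        rw [D.mB, Nat.add_right_cancel_iff] at h5
        rw [hco, h5]; exact h3 (Finset.card_pos.2 ⟨χ, hχ⟩))] at h4
    simp at h4
  · obtain ⟨χ, hχ⟩ := Finset.card_pos.1 hx
    exact even_t D h χ (D.mem_B1.1 hχ).2
  · refine not_cyc D.perfect (c := c) (k := p * ((u * m + 1) * (p + u + 1))) (hco ▸ h1)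
      (by rw [D.card_G h, hco]; ring) (Odd.mul ?_ h2)
    exact hp.out.odd_of_ne_two (by have := D.five_le; omega)

end Grp

theorem shape : ShapeStmt.{w} := by
  intro G _ _ p _ P u m e t D h hA1 hz
  have a := ar D h hA1
  have star := D.star
  rw [hA1, Finset.card_empty, Nat.cast_zero, zero_mul, zero_add] at star
  rcases D.degZ with ⟨hε, h1 | h1⟩ | ⟨hε, h1 | h1⟩
  · rw [hε, one_mul] at star
    exact (a.e4 h1 star).elim
  · rw [hε, one_mul] at star
    rw [D.mB, Nat.add_right_cancel_iff] at h1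
    obtain ⟨h2, h3, h4, h5, h6, h7⟩ := a.e1 h1 star
    exact ⟨hε, h2, h3, h4, Finset.card_eq_zero.1 h5, h6, h7⟩
  · rw [hε, neg_one_mul] at star
    exact (a.e2 (h1.trans D.vA) star).elim
  · exact (hz h1).elim

end Cfsg.Agent.H65.SqShape
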