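import Cfsg.Agent.H53.TCDefs

/-! Project TC, pieces HUA and ADD. -/

set_option autoImplicit false

namespace Cfsg.Agent.H65.TcAdd

open Cfsg.Agent.H53.TC

universe u

theorem exists_tr (K : Type u) [Field K] [Finite K] : ∃ (A : Type) (_ : AddCommGroup A) (T : K →+ A),
    (∀ (τ : RingAut K) (a : K), T (τ a) = T a) ∧ ∀ a, (∀ b, T (a * b) = 0) → a = 0 := by
  obtain ⟨p, hp⟩ := CharP.exists K
  have : Fact p.Prime := ⟨CharP.char_is_prime K p⟩
  let _ := ZMod.algebra K p
  refine ⟨ZMod p, inferInstance, (Algebra.trace (ZMod p) K).toAddMonoidHom, fun τ a => ?_,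
    fun a h => ?_⟩
  · exact Algebra.trace_eq_of_algEquiv (AlgEquiv.ofRingEquiv (f := τ) fun c =>
      RingHom.congr_fun (RingHom.ext_zmod ((τ : K →+* K).comp (algebraMap (ZMod p) K))
        (algebraMap (ZMod p) K)) c) a
  · exact (traceForm_nondegenerate (ZMod p) K).1 a fun b => h b

theorem hua_id {K : Type u} [Field K] {x y : K} (hx : x ≠ 0) (hy : y ≠ 0) (h : y⁻¹ ≠ x) :
    x ^ 2 * y = x - (x⁻¹ + (y⁻¹ - x)⁻¹)⁻¹ := by
  have h1 : 1 - x * y ≠ 0 := fun e => h (by field_simp; linear_combination e)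
  have h2 : (y⁻¹ - x)⁻¹ = y * (1 - x * y)⁻¹ := by
    rw [show y⁻¹ - x = (1 - x * y) * y⁻¹ by field_simp, mul_inv, inv_inv, mul_comm]
  have h3 : x⁻¹ + y * (1 - x * y)⁻¹ = (x * (1 - x * y))⁻¹ := by
    field_simp
    ring
  rw [h2, h3, inv_inv]
  ring

theorem hua : HuaStmt.{u} := by
  intro K _ _ φ hb h1 h
  obtain ⟨A, _, T, hT, nd⟩ := exists_tr K
  have h0 : φ 0 = 0 := by
    obtain ⟨τ, e⟩ := h 1 0 one_ne_zero
    rw [e, zero_div, map_zero, zero_mul]
  have hne : ∀ s, s ≠ 0 → φ s ≠ 0 := fun s hs e => hs (hb.1 (e.trans h0.symm))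
  let ψ : K → K := fun u => (φ u⁻¹)⁻¹
  have hψ : Function.Surjective ψ := inv_surjective.comp (hb.2.comp inv_surjective)
  have key : ∀ t u, T (φ t * ψ u) = T (t * u) := fun t u => by
    by_cases hu : u = 0
    · simp only [ψ, hu, inv_zero, h0, mul_zero]
    obtain ⟨τ, e⟩ := h u⁻¹ t (inv_ne_zero hu)
    rw [e, div_inv_eq_mul, mul_inv_cancel_right₀ (hne _ (inv_ne_zero hu)), hT]
  have a1 : ∀ t t', φ (t + t') = φ t + φ t' := fun t t' => sub_eq_zero.1 (nd _ fun b => by
    obtain ⟨u, rfl⟩ := hψ b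
    rw [sub_mul, add_mul, map_sub, map_add, key, key, key, add_mul, map_add, sub_self])
  have a2 : ∀ t t', ψ (t + t') = ψ t + ψ t' := fun t t' => sub_eq_zero.1 (nd _ fun b => by
    obtain ⟨u, rfl⟩ := hb.2 b
    rw [mul_comm, mul_sub, mul_add, map_sub, map_add, key, key, key, mul_add, map_add, sub_self])
  have a3 : ∀ t t', φ (t - t') = φ t - φ t' := fun t t' => by
    rw [eq_sub_iff_add_eq, ← a1, sub_add_cancel]
  have i1 : ∀ a, φ a⁻¹ = (ψ a)⁻¹ := fun a => (inv_inv _).symm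
  have i2 : ∀ a, ψ a⁻¹ = (φ a)⁻¹ := fun a => by simp only [ψ, inv_inv]
  have m1 : ∀ x y, φ (x ^ 2 * y) = φ x ^ 2 * ψ y := fun x y => by
    by_cases hx : x = 0
    · simp [hx, h0]
    by_cases hy : y = 0
    · simp [hy, h0, ψ]
    by_cases e : y⁻¹ = x
    · have e1 : y = x⁻¹ := by rw [← e, inv_inv]
      rw [e1, i2, pow_two, pow_two, mul_inv_cancel_right₀ hx, mul_inv_cancel_right₀ (hne x hx)]
    have e2 : (ψ y)⁻¹ ≠ φ x := fun e' => e (hb.1 ((i1 y).trans e'))
    rw [hua_id hx hy e, a3, i1, a2, i2, i2, a3, i1,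
      hua_id (hne x hx) (inv_ne_zero (hne _ (inv_ne_zero hy))) e2]
  have m2 : ∀ y, ψ y = φ y := fun y => by
    have := m1 1 y
    rw [h1, one_pow, one_mul, one_mul] at this
    exact this.symm
  have m3 : ∀ x, φ (x ^ 2) = φ x ^ 2 := fun x => by
    have := m1 x 1
    rwa [m2, h1, mul_one, mul_one] at this
  have m4 : ∀ x y, φ (x * y) = φ x * φ y := fun x y => by
    by_cases h2 : (2 : K) = 0
    · have : CharP K 2 := CharTwo.of_one_ne_zero_of_two_eq_zero one_ne_zero h2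
      obtain ⟨z, rfl⟩ := FiniteField.isSquare_of_char_two (ringChar.eq K 2) x
      rw [← pow_two, m1, m2, m3]
    · have := m3 (x + y)
      rw [show (x + y) ^ 2 = x ^ 2 + (x * y + x * y) + y ^ 2 by ring, a1, a1, a1, a1, m3, m3] at this
      exact mul_left_cancel₀ h2 (by linear_combination this)
  exact ⟨RingEquiv.ofBijective (⟨⟨⟨φ, h1⟩, m4⟩, h0, a1⟩ : K →+* K) hb, fun _ => rfl⟩

theorem add (hH : HuaStmt.{u}) : AddStmt.{u} := by
  intro G V K _ _ _ _ _ _ _ σ semi hK f f0 h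
  have hne : ∀ x, x ≠ 0 → f x ≠ 0 := fun x hx e => hx (f.injective (e.trans f0.symm))
  have h0 : ∀ y z, ∃ g : G, f y = g • y ∧ f z = g • z := fun y z => by
    simpa only [f0, sub_zero] using h 0 y z
  have ha : ∀ x, ∃ τ : RingAut K, ∀ t : K, f (t • x) = τ t • f x := fun x => by
    by_cases hx : x = 0
    · exact ⟨1, fun t => by rw [hx, smul_zero, f0, smul_zero]⟩
    have k : ∀ t : K, ∃ c : K, f (t • x) = c • f x := fun t => by
      obtain ⟨g, e1, e2⟩ := h0 x (t • x)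
      exact ⟨σ g t, by rw [e2, semi, e1]⟩
    choose φ hφ using k
    have inj := smul_left_injective K (hne x hx)
    have hi : Function.Injective φ := fun s t e =>
      smul_left_injective K hx (f.injective (by rw [hφ, hφ, e]))
    obtain ⟨τ, hτ⟩ := hH K φ (Finite.injective_iff_bijective.1 hi)
      (inj (by simp only [← hφ, one_smul])) fun s t hs => by
        obtain ⟨g, e1, e2⟩ := h0 (s • x) (t • x)
        refine ⟨σ g, inj ?_⟩
        simp only [mul_smul]
        rw [← hφ, ← hφ, e1, ← semi, smul_smul, div_mul_cancel₀ _ hs, e2]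
    exact ⟨τ, fun t => by rw [hφ, hτ]⟩
  have ind : ∀ x y, x ≠ 0 → (∀ s : K, y ≠ s • x) → ∀ a b a' b' : K,
      a • f x + b • f y = a' • f x + b' • f y → a = a' ∧ b = b' := fun x y hx hy a b a' b' e => by
    obtain ⟨g, e1, e2⟩ := h0 x y
    obtain ⟨c, hc⟩ := (σ g).surjective (a - a')
    obtain ⟨d, hd⟩ := (σ g).surjective (b - b')
    have e3 : g • (c • x + d • y) = 0 := by
      rw [smul_add, semi, semi, hc, hd, ← e1, ← e2, sub_smul, sub_smul, sub_add_sub_comm, e, sub_self]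
    rw [smul_eq_zero_iff_eq] at e3
    have d0 : d = 0 := by
      by_contra hn
      refine hy (-(d⁻¹ * c)) ?_
      rw [neg_smul, mul_smul, eq_neg_of_add_eq_zero_left e3, smul_neg, neg_neg, inv_smul_smul₀ hn]
    rw [d0, zero_smul, add_zero, smul_eq_zero_iff_left hx] at e3
    rw [e3, map_zero] at hc
    rw [d0, map_zero] at hd
    exact ⟨sub_eq_zero.1 hc.symm, sub_eq_zero.1 hd.symm⟩
  have hadd : ∀ x y, f (x + y) = f x + f y := by
    by_cases h2 : (2 : K) = 0
    swap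
    · have k1 : ∀ x y, f (y + y - x) = f y + f y - f x := fun x y => by
        obtain ⟨g, e1, e2⟩ := h x y (y + y - x)
        rw [show y + y - x - x = (y - x) + (y - x) by abel, smul_add, ← e1, sub_eq_iff_eq_add] at e2
        rw [e2]; abel
      have k2 : ∀ y, f (y + y) = f y + f y := fun y => by simpa only [f0, sub_zero] using k1 0 y
      have k3 : ∀ x, f (-x) = -f x := fun x => by simpa only [f0, add_zero, zero_sub] using k1 x 0
      intro x y
      obtain ⟨z, rfl⟩ : ∃ z, x = z + z :=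
        ⟨(2 : K)⁻¹ • x, by rw [← two_smul K, smul_inv_smul₀ h2]⟩
      rw [← sub_neg_eq_add, k1, k3, k2, sub_neg_eq_add]
    intro x y
    by_cases hx : x = 0
    · rw [hx, f0, zero_add, zero_add]
    obtain ⟨σ1, h1⟩ := ha x
    by_cases hy : ∃ s : K, y = s • x
    · obtain ⟨s, rfl⟩ := hy
      have := h1 (1 + s)
      rwa [map_add, map_one, add_smul, add_smul, one_smul, one_smul, ← h1] at this
    push Not at hy
    obtain ⟨σ2, h2'⟩ := ha y
    have k1 : ∀ t : K, t ≠ 0 → t ≠ 1 → ∃ α β : K, f (x + y) = α • f x + β • f y ∧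
        β * σ2 t - α * σ1 t = 1 - α := fun t t0 t1 => by
      have t2 : 1 - t ≠ 0 := sub_ne_zero.2 t1.symm
      obtain ⟨g, e1, e2⟩ := h ((1 - t)⁻¹ • x) (t⁻¹ • y) (x + y)
      have e3 : x + y - (1 - t)⁻¹ • x = t • (t⁻¹ • y - (1 - t)⁻¹ • x) := by
        rw [smul_sub, smul_inv_smul₀ t0, smul_smul, sub_eq_sub_iff_add_eq_add, add_right_comm,
          add_comm y, add_left_inj]
        nth_rewrite 1 [← one_smul K x]
        rw [← add_smul]
        congr 1
        field_simp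
        ring
      rw [e3, semi, ← e1, h1, h2', sub_eq_iff_eq_add] at e2
      refine ⟨(1 - σ g t) * σ1 (1 - t)⁻¹, σ g t * σ2 t⁻¹, ?_, ?_⟩
      · rw [e2]
        module
      · have b1 : σ1 (1 - t)⁻¹ * (1 - σ1 t) = 1 := by
          rw [show 1 - σ1 t = σ1 (1 - t) by rw [map_sub, map_one], ← map_mul, inv_mul_cancel₀ t2,
            map_one]
        have b2 : σ2 t⁻¹ * σ2 t = 1 := by rw [← map_mul, inv_mul_cancel₀ t0, map_one]
        linear_combination σ g t * b2 + (1 - σ g t) * b1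
    obtain ⟨t, t0, t1⟩ : ∃ t : K, t ≠ 0 ∧ t ≠ 1 := by
      classical
      have := Fintype.ofFinite K
      rw [Nat.card_eq_fintype_card] at hK
      obtain ⟨c, -, hc⟩ := Finset.exists_mem_notMem_of_card_lt_card (s := ({0, 1} : Finset K))
        (t := Finset.univ) (by
          have := Finset.card_le_two (a := (0 : K)) (b := 1)
          rw [Finset.card_univ]; omega)
      exact ⟨c, fun e => hc (by simp [e]), fun e => hc (by simp [e])⟩
    obtain ⟨α, β, e, b1⟩ := k1 t t0 t1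
    obtain ⟨α2, β2, e2, b2⟩ := k1 (t + 1) (fun e => t1 (by linear_combination e - h2))
      fun e => t0 (by linear_combination e)
    obtain ⟨α3, β3, e3, b3⟩ := k1 (t ^ 2) (pow_ne_zero 2 t0) fun e => t1 (sub_eq_zero.1
      (pow_eq_zero_iff two_ne_zero |>.1 (show (t - 1) ^ 2 = 0 by
        linear_combination e + (1 - t) * h2)))
    obtain ⟨rfl, rfl⟩ := ind x y hx hy _ _ _ _ (e.symm.trans e2)
    obtain ⟨rfl, rfl⟩ := ind x y hx hy _ _ _ _ (e.symm.trans e3)
    rw [map_add, map_add, map_one, map_one] at b2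
    rw [map_pow, map_pow] at b3
    obtain rfl : α = β := by linear_combination b1 - b2
    have c1 : α ≠ 0 := by
      rintro rfl
      exact one_ne_zero (by linear_combination -b1 : (1 : K) = 0)
    have c2 : (σ2 t - σ1 t) * (σ2 t - σ1 t - 1) = 0 := mul_left_cancel₀ c1 (by
      linear_combination b3 - b1 + α * (σ1 t ^ 2 - σ1 t * σ2 t) * h2)
    have c3 : α = 1 := by
      rcases mul_eq_zero.1 c2 with c | c
      · linear_combination b1 - α * c
      · exact absurd (by linear_combination -b1 + α * c + α * h2 : (1 : K) = 0) one_ne_zero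
    rw [e, c3, one_smul, one_smul]
  refine ⟨hadd, ?_⟩
  obtain ⟨x, hx⟩ := exists_ne (0 : V)
  obtain ⟨τ, hτ⟩ := ha x
  refine ⟨τ, fun c y => ?_⟩
  by_cases hy : ∃ s : K, y = s • x
  · obtain ⟨s, rfl⟩ := hy
    rw [smul_smul, hτ, hτ, map_mul, mul_smul]
  push Not at hy
  obtain ⟨τ1, h1⟩ := ha y
  obtain ⟨τ2, h2⟩ := ha (x + y)
  have e := h2 c
  rw [smul_add, hadd, hadd, smul_add, hτ, h1] at e
  obtain ⟨e1, e2⟩ := ind x y hx hy _ _ _ _ e
  rw [h1, e1, e2]

end Cfsg.Agent.H65.TcAdd
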