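import Cfsg.Agent.H97.U4Defs

/-! Reflections, diagonal and field automorphisms of `SU₄`, and its extensions by diagonal and field
automorphisms. -/

set_option autoImplicit false

namespace Cfsg.Agent.H65.U4X

open Cfsg.Agent.H97 Cfsg.Agent.H97.U4 Matrix
open Cfsg.Agent.H97.U5 (Hm)

universe u

variable {K : Type u} [Field K] (T : Hm K)

theorem xext {g k : XU T} (h : g.1.1 = k.1.1) : g = k := Subtype.ext (Subtype.ext h)

theorem coe_mul (g k : XU T) : (g * k).1.1 = g.1.1 * k.1.1 := rfl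

/-- the reflection normalizing `Q` -/
noncomputable def nQ : XU T :=
  ⟨⟨!![1, 0, 0, 0; 0, 0, T.ep, 0; 0, -T.ep⁻¹, 0, 0; 0, 0, 0, 1], by
    have := T.ep_ne
    simp [Matrix.det_succ_row_zero, Fin.sum_univ_succ, Fin.succAbove, this]⟩, by
    have := T.ep_ne
    change _ = _
    ext i j
    fin_cases i <;> fin_cases j <;> simp [J4, Matrix.mul_apply, Fin.sum_univ_four, T.σ_ep, this]⟩

/-- the reflection normalizing `J` -/
def nJ : XU T :=
  ⟨⟨!![0, 1, 0, 0; -1, 0, 0, 0; 0, 0, 0, -1; 0, 0, 1, 0], by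
    simp [Matrix.det_succ_row_zero, Fin.sum_univ_succ, Fin.succAbove]⟩, by
    change _ = _
    ext i j
    fin_cases i <;> fin_cases j <;> simp [J4, Matrix.mul_apply, Fin.sum_univ_four]⟩

theorem nQ_conj (u : U T) (hu : u ∈ Q T) : nQ T * iU T u * (nQ T)⁻¹ = iU T (wQ u) := by
  rw [mul_inv_eq_iff_eq_mul]
  refine xext T ?_
  rw [coe_mul, coe_mul, coe_iU, coe_iU]
  have h2 : u.d = 0 := hu
  have := T.ep_ne
  ext i j
  fin_cases i <;> fin_cases j <;>
    simp [nQ, mat, wQ, Matrix.mul_apply, Fin.sum_univ_four, h2, T.σ_ep] <;> field_simp <;> ring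

theorem nJ_conj (u : U T) (hu : u ∈ J T) : nJ T * iU T u * (nJ T)⁻¹ = iU T (wJ u) := by
  rw [mul_inv_eq_iff_eq_mul]
  refine xext T ?_
  rw [coe_mul, coe_mul, coe_iU, coe_iU]
  have h1 : u.t = 0 := hu
  ext i j
  fin_cases i <;> fin_cases j <;>
    simp [nJ, mat, wJ, Matrix.mul_apply, Fin.sum_univ_four, h1]

/-- the diagonal entries -/
def dv (c : Kˣ × Kˣ) : Fin 4 → K := ![c.1, c.2, (T.σ c.2)⁻¹, (T.σ c.1)⁻¹]

/-- the diagonal matrix -/
def D (c : Kˣ × Kˣ) : Matrix (Fin 4) (Fin 4) K := diagonal (dv T c)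

theorem D_mul (c e : Kˣ × Kˣ) : D T (c * e) = D T c * D T e := by
  rw [D, D, D, diagonal_mul_diagonal]
  congr 1
  funext i
  fin_cases i <;> simp [dv, mul_comm]

theorem D_one : D T 1 = 1 := by
  rw [D, ← diagonal_one]
  congr 1
  funext i
  fin_cases i <;> simp [dv]

theorem D_inv (c : Kˣ × Kˣ) : D T c⁻¹ * D T c = 1 := by rw [← D_mul, inv_mul_cancel, D_one]

theorem D_unit (c : Kˣ × Kˣ) : ((D T c).map T.σ).transpose * J4 K * D T c = J4 K := by
  have h1 := T.σ_ne_zero c.1.ne_zero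
  have h2 := T.σ_ne_zero c.2.ne_zero
  rw [D, diagonal_map (map_zero _), diagonal_transpose]
  ext i j
  rw [mul_diagonal, diagonal_mul]
  fin_cases i <;> fin_cases j <;> simp [dv, J4, h1, h2]

theorem unit_mul {A B : Matrix (Fin 4) (Fin 4) K} (ha : (A.map T.σ).transpose * J4 K * A = J4 K)
    (hb : (B.map T.σ).transpose * J4 K * B = J4 K) :
    ((A * B).map T.σ).transpose * J4 K * (A * B) = J4 K := by
  rw [Matrix.map_mul, Matrix.transpose_mul, Matrix.mul_assoc, Matrix.mul_assoc,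
    ← Matrix.mul_assoc (J4 K), ← Matrix.mul_assoc _ (J4 K * A), ← Matrix.mul_assoc _ (J4 K), ha,
    ← Matrix.mul_assoc, hb]

/-- conjugation by a diagonal matrix -/
def cT (c : Kˣ × Kˣ) (g : XU T) : XU T :=
  ⟨⟨D T c * g.1.1 * D T c⁻¹, by
    rw [det_mul, det_mul, g.1.2, mul_one, ← det_mul, ← D_mul, mul_inv_cancel, D_one, det_one]⟩,
    unit_mul T (unit_mul T (D_unit T c) g.2) (D_unit T c⁻¹)⟩

theorem coe_cT (c : Kˣ × Kˣ) (g : XU T) : (cT T c g).1.1 = D T c * g.1.1 * D T c⁻¹ := rfl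

theorem cT_cT (c e : Kˣ × Kˣ) (g : XU T) : cT T c (cT T e g) = cT T (c * e) g :=
  xext T (by
    rw [coe_cT, coe_cT, coe_cT, _root_.mul_inv_rev, D_mul, D_mul]
    simp only [Matrix.mul_assoc])

theorem cT_one (g : XU T) : cT T 1 g = g :=
  xext T (by rw [coe_cT, inv_one, D_one, Matrix.one_mul, Matrix.mul_one])

/-- the diagonal automorphisms -/
def aT : Kˣ × Kˣ →* MulAut (XU T) := MonoidHom.mk' (fun c =>
    { toFun := cT T c
      invFun := cT T c⁻¹
      left_inv := fun g => by rw [cT_cT, inv_mul_cancel, cT_one]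
      right_inv := fun g => by rw [cT_cT, mul_inv_cancel, cT_one]
      map_mul' := fun g k => xext T (by
        rw [coe_mul, coe_cT, coe_cT, coe_cT, coe_mul]
        simp only [Matrix.mul_assoc]
        rw [← Matrix.mul_assoc (D T c⁻¹) (D T c), D_inv, Matrix.one_mul]) })
  fun c e => MulEquiv.ext fun g => (cT_cT T c e g).symm

theorem aT_iU (c : Kˣ × Kˣ) (u : U T) : aT T c (iU T u) = iU T (tor T c u) := by
  have h1 := T.σ_ne_zero c.1.ne_zero
  have h2 := T.σ_ne_zero c.2.ne_zero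
  refine xext T ?_
  change D T c * mat u * D T c⁻¹ = mat (tor T c u)
  ext i j
  rw [D, D, mul_diagonal, diagonal_mul]
  fin_cases i <;> fin_cases j <;> simp [dv, mat, h1, h2] <;> field_simp

/-- a field automorphism applied to the entries -/
def cF (φ : RingAut K) (g : XU T) : XU T :=
  ⟨⟨g.1.1.map φ, by
    have := RingHom.map_det (φ : K →+* K) g.1.1
    rw [g.1.2, map_one] at this
    exact this.symm⟩, by
    have h : (g.1.1.map T.σ).transpose * J4 K * g.1.1 = J4 K := g.2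
    have hJ : (J4 K).map φ = J4 K := by
      ext i j
      fin_cases i <;> fin_cases j <;> simp [J4]
    have e : ((g.1.1.map φ).map T.σ).transpose = ((g.1.1.map T.σ).transpose).map φ := by
      ext i j
      exact (T.com φ _).symm
    change ((g.1.1.map φ).map T.σ).transpose * J4 K * g.1.1.map φ = J4 K
    rw [e]
    conv_lhs => rw [← hJ]
    rw [← Matrix.map_mul, ← Matrix.map_mul, h, hJ]⟩

theorem coe_cF (φ : RingAut K) (g : XU T) : (cF T φ g).1.1 = g.1.1.map φ := rfl

/-- the field automorphisms -/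
def aF : RingAut K →* MulAut (XU T) := MonoidHom.mk' (fun φ =>
    { toFun := cF T φ
      invFun := cF T φ⁻¹
      left_inv := fun g => xext T (Matrix.ext fun _ _ => φ.symm_apply_apply _)
      right_inv := fun g => xext T (Matrix.ext fun _ _ => φ.apply_symm_apply _)
      map_mul' := fun g k => xext T Matrix.map_mul })
  fun _ _ => MulEquiv.ext fun _ => rfl

theorem aF_iU (φ : RingAut K) (u : U T) : aF T φ (iU T u) = iU T (fld T φ u) := by
  refine xext T ?_
  change (mat u).map φ = mat (fld T φ u)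
  ext i j
  fin_cases i <;> fin_cases j <;> simp [mat, T.com]

theorem D_map (φ : RingAut K) (c : Kˣ × Kˣ) :
    (D T c).map φ = D T (fT φ c) := by
  rw [D, D, diagonal_map (map_zero _)]
  congr 1
  funext i
  fin_cases i <;> simp [dv, fT, T.com]

theorem aF_aT (φ : RingAut K) (c : Kˣ × Kˣ) :
    aF T φ * aT T c = aT T (fT φ c) * aF T φ := by
  refine MulEquiv.ext fun g => xext T ?_
  change (D T c * g.1.1 * D T c⁻¹).map φ = D T _ * g.1.1.map φ * D T _
  rw [Matrix.map_mul, Matrix.map_mul, D_map, D_map]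
  rfl

theorem aT_scalar (e : Kˣ) (he : e * T.σ e = 1) : aT T (e, e) = 1 := by
  have h1 : (T.σ e)⁻¹ = e := inv_eq_of_mul_eq_one_left he
  have h2 : D T (e, e) = (e : K) • (1 : Matrix (Fin 4) (Fin 4) K) := by
    rw [D, smul_one_eq_diagonal]
    congr 1
    funext i
    fin_cases i <;> simp [dv, h1]
  refine MulEquiv.ext fun g => xext T ?_
  change D T (e, e) * g.1.1 * D T (e, e)⁻¹ = g.1.1
  have h3 : D T (e, e) * g.1.1 = g.1.1 * D T (e, e) := by
    rw [h2, Matrix.smul_mul, Matrix.mul_smul, Matrix.one_mul, Matrix.mul_one]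
  rw [h3, Matrix.mul_assoc, ← D_mul, mul_inv_cancel, D_one, Matrix.mul_one]

variable {T}

theorem x1 : X1Stmt T :=
  ⟨⟨nQ T, nQ_conj T⟩, ⟨nJ T, nJ_conj T⟩, aT T, aF T, aT_iU T, aF_iU T, aF_aT T, aT_scalar T⟩

theorem tf_inj {c c' : Kˣ × Kˣ} {φ φ' : RingAut K}
    (h : tor T c * fld T φ = tor T c' * fld T φ') :
    (∃ e : Kˣ, e * T.σ e = 1 ∧ c = c' * (e, e)) ∧ φ = φ' := by
  have h1 : ∀ x : K, (c.1 : K) * (c.2 : K)⁻¹ * φ x = c'.1 * (c'.2 : K)⁻¹ * φ' x :=
    fun x => congrArg U.t (DFunLike.congr_fun h (xt T x))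
  have h2 := h1 1
  rw [map_one, map_one, mul_one, mul_one] at h2
  have n1 := c'.1.ne_zero
  have n2 := c'.2.ne_zero
  have n3 := c.2.ne_zero
  have n4 := T.σ_ne_zero n2
  have h3 : φ = φ' := RingEquiv.ext fun x => by
    have := h1 x
    rw [h2] at this
    exact mul_left_cancel₀ (mul_ne_zero n1 (inv_ne_zero n2)) this
  subst h3
  have h4 : (c.2 : K) * T.σ c.2 * φ T.ep = c'.2 * T.σ c'.2 * φ T.ep :=
    congrArg U.d (DFunLike.congr_fun h (xd T T.ep (by rw [T.σ_ep, add_neg_cancel])))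
  have h5 := mul_right_cancel₀ ((map_ne_zero φ).2 T.ep_ne) h4
  refine ⟨⟨c.2 * c'.2⁻¹, ?_, Prod.ext (Units.ext ?_) ?_⟩, rfl⟩
  · rw [Units.val_mul, Units.val_inv_eq_inv_val, map_mul, map_inv₀]
    field_simp
    exact h5
  · rw [Prod.fst_mul, Units.val_mul, Units.val_mul, Units.val_inv_eq_inv_val]
    field_simp at h2 ⊢
    exact h2
  · rw [Prod.snd_mul, mul_comm, inv_mul_cancel_right]

open Subgroup in
theorem real [Finite K] {p : ℕ} [Fact p.Prime] (h1 : X1Stmt T) (h2 : X2Stmt T p)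
    (h3 : X3Stmt T) : RealStmt T p := by
  intro L hL hp hS
  obtain ⟨⟨gQ, hQ⟩, ⟨gR, hR⟩, aT, aF, hT, hF, hc, hsc⟩ := h1
  have hfin : Finite L := Nat.finite_of_card_ne_zero fun h => hp (h ▸ dvd_zero p)
  choose c φ hcφ using fun l : L => hL l.2
  let a : L →* MulAut (XU T) := MonoidHom.mk' (fun l => aT (c l) * aF (φ l)) fun l m => by
    have e : tor T (c (l * m)) * fld T (φ (l * m)) =
        tor T (c l * fT (φ l) (c m)) * fld T (φ l * φ m) := by
      rw [← hcφ, Subgroup.coe_mul, hcφ l, hcφ m, map_mul, map_mul, mul_assoc,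
        ← mul_assoc (fld T _), fld_tor]
      simp only [mul_assoc]
    obtain ⟨⟨x, hx, e1⟩, e2⟩ := tf_inj e
    rw [e1, e2, map_mul, hsc x hx, mul_one, map_mul, map_mul, mul_assoc, mul_assoc,
      ← mul_assoc (aF _), hc]
    simp only [mul_assoc]
  have ha : ∀ (l : L) u, a l (iU T u) = iU T (l.1 u) := fun l u => by
    rw [hcφ l]
    exact (congrArg (aT (c l)) (hF _ u)).trans (hT _ _)
  let G := XU T ⋊[a] L
  let ι : U T →* G := SemidirectProduct.inl.comp (iU T)
  have key : ∀ (x : XU T) (l : L) (u : U T), (SemidirectProduct.inl x * SemidirectProduct.inr l : G) *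
      ι u * (SemidirectProduct.inl x * SemidirectProduct.inr l)⁻¹ =
      SemidirectProduct.inl (x * iU T (l.1 u) * x⁻¹) := fun x l u => by
    rw [← ha, map_mul, map_mul, map_inv]
    have := SemidirectProduct.inl_aut (φ := a) l (iU T u)
    rw [map_inv] at this
    refine Eq.trans ?_ (congrArg (fun y : G => SemidirectProduct.inl x * y *
      (SemidirectProduct.inl x)⁻¹) this.symm)
    simp only [ι, MonoidHom.comp_apply, _root_.mul_inv_rev, mul_assoc]
  have key1 : ∀ (x : XU T) (u : U T), (SemidirectProduct.inl x : G) * ι u *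
      (SemidirectProduct.inl x)⁻¹ = SemidirectProduct.inl (x * iU T u * x⁻¹) := fun x u => by
    simp [ι]
  refine ⟨G, inferInstance, Finite.of_equiv _ SemidirectProduct.equivProd.symm, ι,
    SemidirectProduct.inl_injective.comp (iU_inj T), ?_, fun g hg => ?_, fun l hl => ?_,
    ⟨_, fun u hu => (key1 gQ u).trans (congrArg _ (hQ u hu))⟩,
    ⟨_, fun u hu => (key1 gR u).trans (congrArg _ (hR u hu))⟩, fun g hg κ x => ?_⟩
  · rw [MonoidHom.range_comp, index_map_of_injective _ SemidirectProduct.inl_injective,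
      SemidirectProduct.range_inl_eq_ker_rightHom, index_ker,
      MonoidHom.range_eq_top.2 SemidirectProduct.rightHom_surjective, card_top]
    exact fun h => ((Nat.Prime.dvd_mul Fact.out).1 h).elim h2.1 hp
  · rw [← SemidirectProduct.inl_left_mul_inr_right g] at hg ⊢
    have hn : g.left ∈ normalizer ((iU T).range : Set (XU T)) := by
      refine mem_normalizer_fintype ?_
      rintro _ ⟨u, rfl⟩
      obtain ⟨v, e⟩ := (mem_normalizer_iff.1 hg _).1 ⟨g.right.1⁻¹ u, rfl⟩
      rw [key, MulAut.apply_inv_self] at e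
      exact ⟨v, SemidirectProduct.inl_injective e⟩
    obtain ⟨s, d, l, hl, e⟩ := h2.2 _ hn
    exact ⟨s, _, mul_mem (mul_mem (hS.1 d) (hS.2 l hl)) g.right.2, fun u => by
      rw [key, e]; rfl⟩
  · exact ⟨_, fun u => by simpa [ι] using key 1 ⟨l, hl⟩ u⟩
  · rw [← SemidirectProduct.inl_left_mul_inr_right g] at hg ⊢
    have hn : ∀ u ∈ Q T, ∃ v ∈ Q T, g.left * iU T u * g.left⁻¹ = iU T v := fun u hu => by
      obtain ⟨v, hv, e⟩ := hg (g.right.1⁻¹ u) (by
        have h0 : u.d = 0 := hu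
        have := hcφ g.right⁻¹
        rw [Subgroup.coe_inv] at this
        rw [this, mem_Q, MulAut.mul_apply, tor_d, fld_d, h0, map_zero, mul_zero])
      rw [key, MulAut.apply_inv_self] at e
      exact ⟨v, hv, SemidirectProduct.inl_injective e⟩
    have hx : ∀ z : K, g.right.1 (xm T z) =
        xm T ((c g.right).1 * T.σ (c g.right).2 * φ g.right z) := fun z => by
      rw [hcφ g.right]
      ext <;> simp
    refine ⟨(φ g.right).symm κ * x, fun u v hu hv => ?_⟩
    rw [key, hx] at hu hv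
    rw [map_mul (φ g.right), RingEquiv.apply_symm_apply, mul_left_comm] at hv
    exact h3 _ hn κ _ u v (SemidirectProduct.inl_injective hu) (SemidirectProduct.inl_injective hv)

end Cfsg.Agent.H65.U4X
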