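import Mathlib
import Cfsg.Agent.H85.Basic
import Cfsg.Agent.H72.NG0a
import Cfsg.Agent.S3224
import Cfsg.Prelude.Def_CaseTheorems

/-!
# Central extensions of dihedral-like `2`-groups as Sylow subgroups

If a Sylow `2`-subgroup `S` of `G` is a central extension of a dihedral-like group by a cyclic
group of order at least `4` and the involution of the kernel is not isolated, then `G` has
`2`-rank at most `2`.
-/

set_option autoImplicit false

namespace Cfsg.Agent.H65.UO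

open Subgroup Cfsg.Agent.H72 Cfsg.Agent.H85

section PP

variable {X : Type*} [Group X]

/-- The square of an element of order `4` of `D` lies in each four-group of `D`, and no element of
order `4` centralizes a four-group. -/
def PP (D : Subgroup X) : Prop :=
  ∀ y ∈ D, ∀ a ∈ D, ∀ b ∈ D, y * y ≠ 1 → y * y * (y * y) = 1 → Inv2 a b →
    (y * y = a ∨ y * y = b ∨ y * y = a * b) ∧ ¬ (a * y = y * a ∧ b * y = y * b)

theorem PP.mono {D E : Subgroup X} (h : PP D) (hE : E ≤ D) : PP E :=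
  fun y hy a ha b hb => h y (hE hy) a (hE ha) b (hE hb)

theorem inv2_map {Y : Type*} [Group Y] {f : X →* Y} (hf : Function.Injective f) {a b : X}
    (h : Inv2 a b) : Inv2 (f a) (f b) :=
  ⟨by rw [← map_mul, h.sa, map_one], by rw [← map_mul, h.sb, map_one],
    fun e => h.na (hf (e.trans (map_one f).symm)), fun e => h.nb (hf (e.trans (map_one f).symm)),
    fun e => h.ne (hf e), by rw [← map_mul, h.comm, map_mul]⟩

theorem PP.comap {Y : Type*} [Group Y] {D : Subgroup Y} (h : PP D) {f : X →* Y}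
    (hf : Function.Injective f) : PP (D.comap f) := by
  intro y hy a ha b hb h1 h2 hab
  obtain ⟨k1, k2⟩ := h _ hy _ ha _ hb (fun e => h1 (hf (by rw [map_mul, e, map_one])))
    (by rw [← map_mul, ← map_mul, h2, map_one]) (inv2_map hf hab)
  refine ⟨?_, fun ⟨e1, e2⟩ => k2 ⟨by rw [← map_mul, e1, map_mul], by rw [← map_mul, e2, map_mul]⟩⟩
  simp only [← map_mul] at k1
  exact k1.imp (@hf _ _) (Or.imp (@hf _ _) (@hf _ _))

theorem PP.map {Y : Type*} [Group Y] {D : Subgroup X} (h : PP D) {f : X →* Y}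
    (hf : Function.Injective f) : PP (D.map f) := by
  rintro _ ⟨y, hy, rfl⟩ _ ⟨a, ha, rfl⟩ _ ⟨b, hb, rfl⟩ h1 h2 hab
  obtain ⟨k1, k2⟩ := h _ hy _ ha _ hb (fun e => h1 (by rw [← map_mul, e, map_one]))
    (hf (by rw [map_mul, map_mul, h2, map_one]))
    ⟨hf (by rw [map_mul, hab.sa, map_one]), hf (by rw [map_mul, hab.sb, map_one]),
      fun e => hab.na (by rw [e, map_one]), fun e => hab.nb (by rw [e, map_one]),
      fun e => hab.ne (by rw [e]), hf (by rw [map_mul, hab.comm, map_mul])⟩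
  refine ⟨?_, fun ⟨e1, e2⟩ => k2 ⟨hf (by rw [map_mul, e1, map_mul]), hf (by rw [map_mul, e2, map_mul])⟩⟩
  simp only [← map_mul]
  exact k1.imp (congrArg f) (Or.imp (congrArg f) (congrArg f))

theorem pp_of_top {D : Subgroup X} (h : PP (⊤ : Subgroup D)) : PP D := by
  have := h.map D.subtype_injective
  rwa [← MonoidHom.range_eq_map, range_subtype] at this

theorem pp_of_sq {D : Subgroup X} (h : ∀ y ∈ D, y * y = 1) : PP D :=
  fun y hy _ _ _ _ h1 => absurd (h y hy) h1

theorem pp_of_crit {D T : Subgroup X}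
    (h1 : ∀ s ∈ T, ∀ t ∈ T, s * s = 1 → t * t = 1 → s ≠ 1 → t ≠ 1 → s = t)
    (h2 : ∀ x ∈ D, ∀ y ∈ D, x ∉ T → y ∉ T → x * y ∈ T)
    (h3 : ∀ c ∈ D, c ∉ T → ∀ y ∈ T, y * y * (y * y) = 1 → c * y = y * c → y * y = 1) : PP D := by
  intro y hy a ha b hb y2 y4 hab
  have yT : y * y ∈ T := by
    by_cases h : y ∈ T
    · exact T.mul_mem h h
    · exact h2 y hy y hy h h
  have key : ∀ c ∈ D, c ∉ T → c * c = 1 → c * y = y * c → False := fun c hc cT cc cy => by
    by_cases h : y ∈ T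
    · exact y2 (h3 c hc cT y h y4 cy)
    · have e : y * c * (y * c) = y * y := by
        rw [mul_assoc, ← mul_assoc c, cy, mul_assoc, cc, mul_one]
      refine y2 (e ▸ h3 c hc cT _ (h2 y hy c hc h cT) (by rw [e, y4]) ?_)
      rw [← mul_assoc, cy]
  have hm := hab.mul
  constructor
  · by_cases aT : a ∈ T
    · exact Or.inl (h1 _ yT _ aT y4 hab.sa y2 hab.na)
    by_cases bT : b ∈ T
    · exact Or.inr (Or.inl (h1 _ yT _ bT y4 hab.sb y2 hab.nb))
    exact Or.inr (Or.inr (h1 _ yT _ (h2 a ha b hb aT bT) y4 hm.sb y2 hm.nb))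
  · rintro ⟨e1, e2⟩
    by_cases aT : a ∈ T
    · by_cases bT : b ∈ T
      · exact hab.ne (h1 _ aT _ bT hab.sa hab.sb hab.na hab.nb)
      · exact key b hb bT hab.sb e2
    · exact key a ha aT hab.sa e1

theorem cyc_inv {T : Subgroup X} [Finite T] (h : IsCyclic T) :
    ∀ s ∈ T, ∀ t ∈ T, s * s = 1 → t * t = 1 → s ≠ 1 → t ≠ 1 → s = t := by
  classical
  intro s hs t ht s2 t2 s1 t1
  by_contra hne
  have := Fintype.ofFinite T
  have c := IsCyclic.card_pow_eq_one_le (α := T) (n := 2) two_pos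
  have : ({1, ⟨s, hs⟩, ⟨t, ht⟩} : Finset T) ⊆ Finset.univ.filter fun a : T => a ^ 2 = 1 := by
    intro x hx
    simp only [Finset.mem_insert, Finset.mem_singleton] at hx
    rcases hx with rfl | rfl | rfl <;> simp [sq, Subtype.ext_iff, s2, t2]
  have c2 := Finset.card_le_card this
  have c3 : ({1, ⟨s, hs⟩, ⟨t, ht⟩} : Finset T).card = 3 :=
    Finset.card_eq_three.2 ⟨1, ⟨s, hs⟩, ⟨t, ht⟩, by simp [Subtype.ext_iff, s1.symm],
      by simp [Subtype.ext_iff, t1.symm], by simp [hne], rfl⟩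
  omega

theorem pp_dihedral (n : ℕ) [NeZero n] : PP (⊤ : Subgroup (DihedralGroup n)) := by
  have hr : ∀ x : DihedralGroup n, x ∉ zpowers (DihedralGroup.r 1) → ∃ i, x = DihedralGroup.sr i := by
    rintro (i | i) hx
    · refine absurd ⟨(i.val : ℤ), ?_⟩ hx
      simp
    · exact ⟨i, rfl⟩
  have hm : ∀ i : ZMod n, DihedralGroup.r i ∈ zpowers (DihedralGroup.r 1) := fun i =>
    ⟨(i.val : ℤ), by simp⟩
  refine pp_of_crit (T := zpowers (DihedralGroup.r 1)) (cyc_inv inferInstance) ?_ ?_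
  · intro x _ y _ hx hy
    obtain ⟨i, rfl⟩ := hr x hx
    obtain ⟨j, rfl⟩ := hr y hy
    exact hm _
  · intro c _ hc y hy _ e
    obtain ⟨i, rfl⟩ := hr c hc
    obtain ⟨k, rfl⟩ := hy
    simp only [DihedralGroup.r_one_zpow, DihedralGroup.sr_mul_r, DihedralGroup.r_mul_sr,
      DihedralGroup.sr.injEq, DihedralGroup.r_mul_r] at e ⊢
    rw [DihedralGroup.one_def, DihedralGroup.r.injEq]
    linear_combination e

theorem pp_quasi [Finite X] (h : IsQuasiDihedral X) : PP (⊤ : Subgroup X) := by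
  obtain ⟨n, hn, hc, x, y, ox, oy, hxy⟩ := h
  obtain ⟨m, rfl⟩ : ∃ m, n = m + 3 := ⟨n - 3, by omega⟩
  have hi : (zpowers x).index = 2 := by
    have := (zpowers x).card_mul_index
    rw [Nat.card_zpowers, ox, hc, pow_succ 2 (m + 3)] at this
    exact Nat.eq_of_mul_eq_mul_left (by positivity) this
  -- `y` inverts the elements of order dividing `4` of `⟨x⟩`
  have hinv : ∀ z ∈ zpowers x, z * z * (z * z) = 1 → y * z * y⁻¹ = z⁻¹ := by
    rintro _ ⟨k, rfl⟩ h4
    have e : y * x ^ k * y⁻¹ = (x ^ k) ^ (2 ^ (m + 2) - 1) := by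
      rw [← conj_zpow, hxy, ← zpow_natCast, ← zpow_natCast, ← zpow_mul, ← zpow_mul, mul_comm]
      rfl
    simp only
    rw [e, eq_inv_iff_mul_eq_one, ← pow_succ, Nat.sub_add_cancel Nat.one_le_two_pow, pow_add, mul_comm,
      pow_mul, show (x ^ k) ^ 2 ^ 2 = 1 by rw [← h4]; simp [pow_succ, mul_assoc], one_pow]
  have hy : y ∉ zpowers x := by
    intro hy
    have e := hinv (x ^ 2 ^ (m + 1)) (pow_mem (mem_zpowers x) _) (by
      rw [← pow_add, ← pow_add, ← pow_orderOf_eq_one x, ox]; congr 1; ring)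
    obtain ⟨k, rfl⟩ := hy
    rw [((Commute.refl x).zpow_left k).pow_right _ |>.eq, mul_inv_cancel_right,
      eq_inv_iff_mul_eq_one, ← pow_add, ← orderOf_dvd_iff_pow_eq_one, ox, ← two_mul, ← pow_succ',
      Nat.pow_dvd_pow_iff_le_right one_lt_two] at e
    omega
  refine pp_of_crit (T := zpowers x) (cyc_inv inferInstance) ?_ ?_
  · intro a _ b _ ha hb
    rw [mul_mem_iff_of_index_two hi]
    simp [ha, hb]
  · intro c _ hc z hz z4 e
    have h1 : y⁻¹ * c ∈ zpowers x := by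
      rw [mul_mem_iff_of_index_two hi]
      simp [hy, hc]
    have h2 : (y⁻¹ * c) * z = z * (y⁻¹ * c) := by
      obtain ⟨k, hk⟩ := h1
      obtain ⟨l, rfl⟩ := hz
      rw [← hk]
      exact (((Commute.refl x).zpow_left k).zpow_right l).eq
    have h3 : y * z * y⁻¹ = z := by
      calc y * z * y⁻¹ = y * (z * (y⁻¹ * c)) * c⁻¹ := by group
        _ = c * z * c⁻¹ := by rw [← h2]; group
        _ = z := by rw [e]; group
    rw [hinv z hz z4] at h3
    nth_rewrite 1 [← h3]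
    exact inv_mul_cancel z

theorem pp_of_card_le [Finite X] (h : Nat.card X ≤ 4) : PP (⊤ : Subgroup X) := by
  intro y _ a _ b _ y2 y4 hab
  have oy : orderOf y = 4 := by
    have := orderOf_eq_prime_pow (x := y) (p := 2) (n := 1) (by simpa [sq] using y2)
      (by simpa [pow_succ, mul_assoc] using y4)
    simpa using this
  have ht : zpowers y = ⊤ := eq_top_of_le_card _ (by rw [Nat.card_zpowers, oy]; exact h)
  exact absurd (cyc_inv (T := zpowers y) inferInstance a (ht ▸ trivial) b (ht ▸ trivial) hab.sa hab.sb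
    hab.na hab.nb) hab.ne

/-- A `2`-group with an involution whose centralizer has order at most `4`. -/
theorem pp_of_cent [Finite X] (hX : IsPGroup 2 X) {x : X} (hx : orderOf x = 2)
    (hC : Nat.card (centralizer ({x} : Set X)) ≤ 4) : PP (⊤ : Subgroup X) := by
  classical
  by_cases h4 : Nat.card (centralizer ({x} : Set X)) = 4
  · rcases S3224.result hX x hx h4 with ⟨n, ⟨e⟩⟩ | h | h
    · have : NeZero n := ⟨by
        rintro rfl
        have := Finite.of_equiv _ e.toEquiv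
        exact not_finite (DihedralGroup 0)⟩
      exact (pp_dihedral n).comap (f := e.toMonoidHom) e.injective
    · exact pp_quasi h
    · exact pp_of_card_le h.le
  · have : Nontrivial X := ⟨⟨x, 1, fun e => by simp [e] at hx⟩⟩
    have := hX.center_nontrivial
    obtain ⟨z, hz1⟩ := exists_ne (1 : center X)
    obtain ⟨k, hk⟩ := (IsPGroup.iff_card (p := 2)).1 (hX.to_subgroup (centralizer {x}))
    have hk2 : k ≤ 1 := by
      by_contra hh
      have : 2 ^ 2 ≤ 2 ^ k := Nat.pow_le_pow_right two_pos (by omega)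
      omega
    have e : zpowers x = centralizer {x} := eq_of_le_of_card_ge
      (zpowers_le.2 (mem_c1.2 rfl)) (by
        rw [Nat.card_zpowers, hx, hk]; exact (Nat.pow_le_pow_right two_pos hk2).trans (by norm_num))
    have hzx : (z : X) ∈ zpowers x := e ▸ mem_c1.2 (mem_center_iff.1 z.2 x).symm
    have hzx' : (z : X) = x := by
      rw [mem_zpowers_iff_mem_range_orderOf, hx] at hzx
      simp only [Finset.mem_image, Finset.mem_range] at hzx
      obtain ⟨i, hi, hz⟩ := hzx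
      interval_cases i
      · exact absurd (Subtype.ext (by simpa using hz.symm)) hz1
      · simpa using hz.symm
    have : centralizer ({x} : Set X) = ⊤ := eq_top_iff.2 fun g _ =>
      mem_c1.2 (hzx' ▸ mem_center_iff.1 z.2 g)
    rw [this, card_top] at hC
    exact pp_of_card_le hC

end PP

variable {G : Type*} [Group G] [Finite G]

theorem exists_extremal {S : Subgroup G} (hS : IsSyl 2 S ⊤) {t u : G} (ht : ∀ s ∈ S, s * t = t * s)
    (hc : IsConj t u) : ∃ g : G, g * u * g⁻¹ = t ∧ ∀ x ∈ S, x * u = u * x → g * x * g⁻¹ ∈ S := by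
  obtain ⟨h, hh⟩ := isConj_iff.1 hc.symm
  have h1 : IsSyl 2 S (centralizer {t}) := hS.of_le (fun s hs => mem_c1.2 (ht s hs)) le_top
  obtain ⟨c, hc, hle⟩ := h1.exists_cj_le (Q := cj h (S ⊓ centralizer {u}))
    (isPGroup_cj h hS.isPGroup.to_inf_left) (by
      rintro _ ⟨x, hx, rfl⟩
      refine mem_c1.2 ?_
      have := mem_c1.1 hx.2
      rw [← hh]
      calc h * x * h⁻¹ * (h * u * h⁻¹) = h * (x * u) * h⁻¹ := by group
        _ = h * u * h⁻¹ * (h * x * h⁻¹) := by rw [this]; group)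
  refine ⟨c * h, ?_, fun x hx e => ?_⟩
  · calc c * h * u * (c * h)⁻¹ = c * (h * u * h⁻¹) * c⁻¹ := by group
      _ = t := by rw [hh, mem_c1.1 hc]; group
  · have := hle (conj_mem_cj (g := c) (conj_mem_cj (g := h) (show x ∈ S ⊓ centralizer {u} from
      ⟨hx, mem_c1.2 e⟩)))
    convert this using 1
    group

theorem exists_tri {S : Subgroup G} (hS : IsSyl 2 S ⊤) (hr : ¬ PRankLE 2 2 G) {t : G} :
    ∃ a ∈ S, ∃ b ∈ S, Inv2 a b ∧ a ≠ t ∧ b ≠ t ∧ a * b ≠ t := by
  classical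
  simp only [PRankLE, not_forall, not_le] at hr
  obtain ⟨A, hA, h2, hc⟩ := hr
  obtain ⟨g, -, hle⟩ := hS.exists_cj_le (Q := A) (fun a => ⟨1, Subtype.ext (by simpa using h2 a a.2)⟩)
    le_top
  have hB : 4 < Nat.card (cj g A) := by rw [card_cj]; exact hc
  have sq : ∀ x ∈ cj g A, x * x = 1 := by
    rintro _ ⟨x, hx, rfl⟩
    exact conj_sq (by rw [← pow_two, h2 x hx]) g
  have cm : ∀ x ∈ cj g A, ∀ y ∈ cj g A, x * y = y * x := by
    rintro _ ⟨x, hx, rfl⟩ _ ⟨y, hy, rfl⟩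
    have e : x * y = y * x := congrArg Subtype.val (hA.1.1 ⟨x, hx⟩ ⟨y, hy⟩)
    rw [← map_mul, ← map_mul, e]
  have pick : ∀ s : Finset G, s.card ≤ 4 → ∃ x ∈ cj g A, x ∉ s := fun s hs => by
    by_contra hh
    push Not at hh
    have := Set.ncard_le_ncard (s := (cj g A : Set G)) (t := s) hh
    rw [Set.ncard_coe_finset, ← Nat.card_coe_set_eq] at this
    exact absurd (this.trans hs) (not_le.2 hB)
  obtain ⟨a, ha, na⟩ := pick {1, t} (Finset.card_le_two.trans (by norm_num))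
  obtain ⟨b, hb, nb⟩ := pick {1, t, a, a * t} Finset.card_le_four
  simp only [Finset.mem_insert, Finset.mem_singleton, not_or] at na nb
  refine ⟨a, hle ha, b, hle hb, ⟨sq a ha, sq b hb, na.1, nb.1, fun e => nb.2.2.1 e.symm, cm a ha b hb⟩,
    na.2, nb.2.1, fun e => nb.2.2.2 ?_⟩
  rw [← e, ← mul_assoc, sq a ha, one_mul]

/-- The central extension lemma. -/
theorem rank_of_ext {S : Subgroup G} (hS : IsSyl 2 S ⊤) {X : Type*} [Group X] (f : S →* X)
    (hP : PP f.range) {j : G} (hj : j ∈ S) (j4 : j * j * (j * j) = 1) (j2 : j * j ≠ 1)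
    (hjc : ∀ s ∈ S, s * j = j * s) (ft : f ⟨j * j, S.mul_mem hj hj⟩ = 1)
    (hk : ∀ z : S, f z = 1 → (∀ s ∈ S, s * z = z * s) ∧ ((z : G) * z = 1 → z = 1 ∨ (z : G) = j * j))
    {u : G} (hu : u ∈ S) (hut : u ≠ j * j) (hc : IsConj (j * j) u) : PRankLE 2 2 G := by
  by_contra hr
  have htc : ∀ s ∈ S, s * (j * j) = j * j * s := fun s hs => by
    rw [← mul_assoc, hjc s hs, mul_assoc, hjc s hs, mul_assoc]
  have fne : ∀ x : S, (x : G) * x = 1 → (x : G) ≠ 1 → (x : G) ≠ j * j → f x ≠ 1 := fun x h1 h2 h3 e =>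
    ((hk x e).2 h1).elim (fun e => h2 (by rw [e]; rfl)) h3
  -- the images of a four-group not containing `j²`
  have tri : ∀ a b : S, Inv2 (a : G) b → (a : G) ≠ j * j → (b : G) ≠ j * j → (a : G) * b ≠ j * j →
      Inv2 (f a) (f b) := fun a b h h1 h2 h3 =>
    ⟨by rw [← map_mul, show a * a = 1 from Subtype.ext h.sa, map_one],
      by rw [← map_mul, show b * b = 1 from Subtype.ext h.sb, map_one],
      fne a h.sa h.na h1, fne b h.sb h.nb h2, fun e => fne (a * b) h.mul.sb h.mul.nb h3 (by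
        rw [map_mul, e, ← map_mul, show b * b = 1 from Subtype.ext h.sb, map_one]),
      by rw [← map_mul, show a * b = b * a from Subtype.ext h.comm, map_mul]⟩
  -- an extremal conjugation gives an element of order `4` modulo the kernel
  have ext : ∀ u ∈ S, u ≠ j * j → IsConj (j * j) u → ∃ g : G, g * u * g⁻¹ = j * j ∧
      (∀ x ∈ S, x * u = u * x → g * x * g⁻¹ ∈ S) ∧ ∃ y : S, (y : G) = g * j * g⁻¹ ∧
        (y : G) * y = g * (j * j) * g⁻¹ ∧ (y : G) * y ≠ j * j ∧ f y * f y ≠ 1 ∧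
        f y * f y * (f y * f y) = 1 := fun u hu hut hc => by
    obtain ⟨g, h1, h2⟩ := exists_extremal hS htc hc
    have e : g * j * g⁻¹ * (g * j * g⁻¹) = g * (j * j) * g⁻¹ := by group
    have ne : g * (j * j) * g⁻¹ ≠ j * j := fun e' => hut (by
      rw [← e'] at h1; simpa using h1)
    have s4 := conj_sq j4 g
    refine ⟨g, h1, h2, ⟨_, h2 j hj (hjc u hu).symm⟩, rfl, e, e ▸ ne, ?_, ?_⟩
    · rw [← map_mul]
      refine fne _ ?_ ?_ ?_ <;> simp only [coe_mul, e]
      exacts [s4, by simpa using j2, ne]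
    · rw [← map_mul, ← map_mul, ← map_one f]
      congr 1
      ext
      simp only [coe_mul, e, s4, coe_one]
  obtain ⟨a, ha, b, hb, hab, n1, n2, n3⟩ := exists_tri hS hr (t := j * j)
  have hab' := tri ⟨a, ha⟩ ⟨b, hb⟩ hab n1 n2 n3
  obtain ⟨g, -, -, y, -, y1, y2, y3, y4⟩ := ext u hu hut hc
  have k := (hP _ ⟨y, rfl⟩ _ ⟨_, rfl⟩ _ ⟨_, rfl⟩ y3 y4 hab').1
  have ws : (y : G) * y * (y * y) = 1 := by rw [y1]; exact conj_sq j4 g
  -- `w = y²` centralizes `a` and `b`
  have cw : ∀ e : S, (e : G) * a = a * e → (e : G) * b = b * e → f y * f y = f e →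
      a * (y * y) = y * y * a ∧ b * (y * y) = y * y * b := fun e e1 e2 h => by
    have hz := (hk (y * y * e⁻¹) (by rw [map_mul, map_mul, h, map_inv, mul_inv_cancel])).1
    have h1 := hz a ha
    have h2 := hz b hb
    simp only [coe_mul, coe_inv] at h1 h2
    constructor
    · calc a * (y * y : G) = a * (y * y * (e : G)⁻¹) * e := by group
        _ = y * y * a := by rw [h1, mul_assoc _ a, ← e1]; group
    · calc b * (y * y : G) = b * (y * y * (e : G)⁻¹) * e := by group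
        _ = y * y * b := by rw [h2, mul_assoc _ b, ← e2]; group
  have cw' : a * (y * y) = y * y * a ∧ b * (y * y) = y * y * b := by
    rcases k with k | k | k
    · exact cw ⟨a, ha⟩ rfl hab.comm k
    · exact cw ⟨b, hb⟩ hab.comm.symm rfl k
    · refine cw (⟨a, ha⟩ * ⟨b, hb⟩) ?_ ?_ (by rw [k, map_mul])
      · simp only [coe_mul]; rw [mul_assoc, ← hab.comm]
      · simp only [coe_mul]; rw [← mul_assoc, ← hab.comm]
  obtain ⟨e, e2, e1, et, ew, ef⟩ : ∃ e : S, (e : G) * e = 1 ∧ (e : G) ≠ 1 ∧ (e : G) ≠ j * j ∧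
      (e : G) * (y * y) = y * y * e ∧ f e ≠ f y * f y := by
    by_cases h : f ⟨a, ha⟩ = f y * f y
    · exact ⟨⟨b, hb⟩, hab.sb, hab.nb, n2, cw'.2, fun e => hab'.ne (h.trans e.symm)⟩
    · exact ⟨⟨a, ha⟩, hab.sa, hab.na, n1, cw'.1, h⟩
  obtain ⟨g', g1, g2, y', z0, z1, z2, z3, z4⟩ := ext _ (S.mul_mem y.2 y.2) y2
    (isConj_iff.2 ⟨g, y1.symm⟩)
  have i2 : Inv2 (e : G) (j * j) := ⟨e2, j4, e1, j2, et, htc _ e.2⟩
  have cne : ∀ x : G, x ≠ y * y → g' * x * g'⁻¹ ≠ j * j := fun x hx h => hx (by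
    rw [← h] at g1; simpa using g1.symm)
  have i3 := tri ⟨_, g2 e e.2 ew⟩ ⟨_, g2 _ (S.mul_mem hj hj) (htc _ (S.mul_mem y.2 y.2)).symm⟩
    (i2.conj g') (cne _ fun h => ef (by rw [← map_mul]; exact congrArg f (Subtype.ext h)))
    (cne _ y2.symm) (by
      have : g' * e * g'⁻¹ * (g' * (j * j) * g'⁻¹) = g' * (e * (j * j)) * g'⁻¹ := by group
      simp only [this]
      refine cne _ fun h => ef ?_
      rw [← map_mul, show y * y = e * ⟨j * j, S.mul_mem hj hj⟩ from Subtype.ext h.symm, map_mul, ft,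
        mul_one])
  refine (hP _ ⟨y', rfl⟩ _ ⟨_, rfl⟩ _ ⟨_, rfl⟩ z3 z4 i3).2 ⟨?_, ?_⟩ <;> rw [← map_mul, ← map_mul] <;>
    congr 1 <;> ext <;> simp only [coe_mul, z0]
  · calc g' * e * g'⁻¹ * (g' * j * g'⁻¹) = g' * (e * j) * g'⁻¹ := by group
      _ = _ := by rw [hjc _ e.2]; group
  · group

end Cfsg.Agent.H65.UO
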