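import Mathlib
import Cfsg.Agent.H65.UOddA
import Cfsg.Agent.H11.ZassClass
import Cfsg.Agent.H29.Klein
import Cfsg.Agent.H29.PSLFacts

/-!
# Sylow `2`-subgroups of Zassenhaus groups of even degree with odd two-point stabilizers
-/

set_option autoImplicit false

namespace Cfsg.Agent.H65.UO

open Subgroup MulAction Cfsg.Agent.H72 Cfsg.Agent.H85 Cfsg.Agent.H61
open scoped MatrixGroups

universe u

theorem exists_central {X : Type*} [Group X] {Q : Subgroup X} [Finite Q] (hQ : IsPGroup 2 Q)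
    (h : Q ≠ ⊥) : ∃ z ∈ Q, z ≠ 1 ∧ z * z = 1 ∧ ∀ x ∈ Q, x * z = z * x := by
  have := (nontrivial_iff_ne_bot Q).2 h
  have := hQ.center_nontrivial
  obtain ⟨k, hk0, hk⟩ := (hQ.to_subgroup (center Q)).nontrivial_iff_card.1 this
  obtain ⟨z, hz1, hz2⟩ := exists_involution_of_even (H := center Q)
    (by rw [hk]; exact (Nat.even_pow.2 ⟨even_two, hk0.ne'⟩))
  exact ⟨z.1, z.1.2, fun e => hz1 (Subtype.ext (Subtype.ext e)),
    congrArg (fun x : center Q => (x.1 : X)) hz2,
    fun x hx => congrArg Subtype.val (mem_center_iff.1 z.2 ⟨x, hx⟩)⟩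

theorem pp_psl {F : Type*} [Field F] [Finite F] (ho : Odd (Nat.card F)) (Q : Subgroup PSL(2, F))
    (hQ : IsPGroup 2 Q) : PP Q := by
  have := H29.finite_PGL2 (F := F)
  have : Finite PSL(2, F) := Finite.of_injective _ H29.pslp_injective
  by_cases h0 : Q = ⊥
  · exact pp_of_sq fun y hy => by rw [h0, mem_bot] at hy; rw [hy, one_mul]
  obtain ⟨z, hz, z1, z2, zc⟩ := exists_central hQ h0
  have h1 : H29.pslp z ≠ 1 := fun e => z1 (H29.pslp_injective (e.trans (map_one _).symm))
  obtain ⟨T, D, h, hT⟩ := H29.exists_torus_of_invol ho h1 (by rw [← map_mul, z2, map_one])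
  have hD : PP D := pp_of_crit (T := T) (cyc_inv h.isCyclic)
    (fun x hx y hy => h.mul_mem_of_not_mem hx hy) fun c hc cT y hy _ e => by
      have := h.conj_eq_inv hc cT hy
      rw [e, mul_inv_cancel_right] at this
      nth_rewrite 1 [this]
      exact inv_mul_cancel y
  exact (hD.comap H29.pslp_injective).mono fun x hx =>
    h.mem_D_of_commute hT h1 (by rw [← map_mul, zc x hx, map_mul])

theorem le_of_odd_index {X : Type*} [Group X] {N Q : Subgroup X} [N.Normal] (hN : Odd N.index)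
    (hQ : IsPGroup 2 Q) : Q ≤ N := fun x hx => by
  obtain ⟨k, hk⟩ := hQ ⟨x, hx⟩
  have h1 : orderOf x ∣ 2 ^ k := orderOf_dvd_of_pow_eq_one (congrArg Subtype.val hk)
  obtain ⟨m, hm⟩ := exists_pow_eq_self_of_coprime (x := x) (n := N.index)
    (Nat.Coprime.coprime_dvd_right h1 ((Nat.coprime_two_right.2 hN).pow_right k))
  exact hm ▸ N.pow_mem (N.pow_index_mem x) m

theorem pp_of_regular {X Ω : Type*} [Group X] [MulAction X Ω] [Finite Ω] (h : IsZ X Ω) {a b : Ω}
    (hab : a ≠ b) (ho : Odd (Nat.card (stab2 X a b))) (he : Even (Nat.card Ω)) (R : Subgroup X)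
    [hR : R.Normal] (h1 : IsPretransitive R Ω) (h2 : ∀ c : Ω, stabilizer R c = ⊥)
    (Q : Subgroup X) (hQ : IsPGroup 2 Q) : PP Q := by
  have := h.finite
  have free : ∀ r ∈ R, r • a = a → r = 1 := fun r hr e => by
    have : (⟨r, hr⟩ : R) ∈ stabilizer R a := e
    rw [h2, mem_bot] at this
    exact congrArg Subtype.val this
  have uniq : ∀ r ∈ R, ∀ s ∈ R, r • a = s • a → r = s := fun r hr s hs e => by
    rw [← inv_smul_eq_iff, ← mul_smul] at e
    exact (inv_mul_eq_one.1 (free _ (R.mul_mem (R.inv_mem hr) hs) (by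
      rw [mul_smul, inv_smul_eq_iff] at e ⊢; exact e.symm)))
  have cR : Nat.card R = Nat.card Ω := by
    have := (stabilizer R a).card_mul_index
    rwa [index_stabilizer_of_transitive, h2, card_bot, one_mul, eq_comm] at this
  have hi : Odd R.index := by
    have c := R.card_mul_index
    have : Nonempty Ω := ⟨a⟩
    rw [h.card_eq hab, cR] at c
    rw [Nat.eq_of_mul_eq_mul_left Nat.card_pos c]
    exact (Nat.Even.sub_odd Nat.card_pos he odd_one).mul ho
  obtain ⟨r, r1, r2⟩ := exists_involution_of_even (H := R) (cR ▸ he)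
  refine pp_of_sq fun y hy => ?_
  have yR := le_of_odd_index hi hQ hy
  by_cases y1 : y = 1
  · rw [y1, one_mul]
  obtain ⟨g, g1, g2⟩ := h.trans a ((r : X) • a) a (y • a)
    (fun e => r1 (Subtype.ext (free _ r.2 e.symm))) (fun e => y1 (free _ yR e.symm))
  rw [← uniq _ (hR.conj_mem _ r.2 g) _ yR (by rw [mul_smul, mul_smul, inv_smul_eq_iff.2 g1.symm, g2])]
  exact conj_sq (congrArg Subtype.val r2) g

theorem pp_isZ {X : Type u} {Ω : Type*} [Group X] [MulAction X Ω] [Finite Ω] (h : IsZ X Ω) {a b : Ω}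
    (hab : a ≠ b) (ho : Odd (Nat.card (stab2 X a b))) (he : Even (Nat.card Ω))
    (Q : Subgroup X) (hQ : IsPGroup 2 Q) : PP Q := by
  induction hn : Nat.card X using Nat.strong_induction_on generalizing X with
  | _ n ih =>
  have := h.finite
  by_cases hreg : ∃ R : Subgroup X, R.Normal ∧ IsPretransitive R Ω ∧ ∀ c : Ω, stabilizer R c = ⊥
  · obtain ⟨R, _, h1, h2⟩ := hreg
    exact pp_of_regular h hab ho he R h1 h2 Q hQ
  have hne : stab2 X a b ≠ ⊥ := fun h0 => by
    obtain ⟨s, s1, -⟩ := h.trans a b b a hab hab.symm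
    refine hreg (h.exists_regular_normal ⊤ (fun e => hab ?_) fun g _ c d hcd g1 g2 => ?_)
    · have : s ∈ (⊥ : Subgroup X) := e ▸ mem_top s
      rw [mem_bot.1 this, one_smul] at s1; exact s1
    · have c := h.card_stab2_eq hab hcd
      rw [h0, card_bot, card_eq_one] at c
      exact mem_bot.1 (c ▸ mem_stab2.2 ⟨g1, g2⟩)
  have hZ : IsZassenhausGroup X Ω := by
    obtain ⟨g, hg, g1⟩ := (stab2 X a b).bot_or_exists_ne_one.resolve_left hne
    refine ⟨h.faithfulSMul, h.two, h.three, ⟨g, g1, a, b, hab, (mem_stab2.1 hg).1, (mem_stab2.1 hg).2⟩,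
      fun N hN ht => ?_⟩
    by_contra hh
    push Not at hh
    exact hreg ⟨N, hN, ht, hh⟩
  by_cases hs : IsSimpleGroup X
  · obtain ⟨F, hF⟩ := h.exists_isKer hab.symm hne
    have : Nonempty Ω := ⟨a⟩
    have oF : Odd (Nat.card F) := by
      rw [hF.card_eq hab.symm]; exact Nat.Even.sub_odd Nat.card_pos he odd_one
    rcases H11.zass_simple_cases hZ hF with ⟨K, _, _, hK, ⟨e⟩⟩ | ⟨h2, u, v, huv⟩
    · have oK : Odd (Nat.card K) := by
        rw [hK, Nat.even_add_one, Nat.not_even_iff_odd] at he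
        rwa [Nat.card_eq_fintype_card]
      have := (pp_psl oK _ (hQ.map e.toMonoidHom)).comap (f := e.toMonoidHom) e.injective
      exact this.mono (le_comap_map _ _)
    · obtain ⟨k, hk⟩ := (IsPGroup.iff_card (p := 2)).1 h2
      rw [hk] at oF
      obtain rfl : k = 0 := by
        by_contra hk0
        exact (Nat.not_even_iff_odd.2 oF) (Nat.even_pow.2 ⟨even_two, hk0⟩)
      have := (Nat.card_eq_one_iff_unique.1 hk).1
      exact absurd (Subsingleton.elim _ _) huv
  obtain ⟨N, hN, h1, h2⟩ : ∃ N : Subgroup X, N.Normal ∧ N ≠ ⊥ ∧ N ≠ ⊤ := by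
    by_contra hh
    push Not at hh
    obtain ⟨g, hg, -⟩ := hZ.2.2.2.1
    have : Nontrivial X := ⟨⟨g, 1, hg⟩⟩
    exact hs ⟨fun N hN => or_iff_not_imp_left.2 (hh N hN)⟩
  have hZN := zass_normal hZ N h1
  have c := H11.zass_index_mul_card_stab2 hZ hZN hab.symm
  rw [← c, Nat.odd_mul] at ho
  have hle := le_of_odd_index ho.1 hQ
  have := ih (Nat.card N)
    (hn ▸ (card_le_card_group N).lt_of_ne fun e => h2 (eq_top_of_card_eq N e))
    (IsZ.of_zass hZN) ho.2 (Q.subgroupOf N) hQ.comap_subtype rfl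
  have := this.map N.subtype_injective
  rwa [map_subgroupOf_eq_of_le hle] at this

end Cfsg.Agent.H65.UO
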