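import Cfsg.Agent.H42.VpDefs
import Cfsg.Agent.H11.Irr

set_option autoImplicit false

namespace Cfsg.Agent.H65.VpI1

open Subgroup Cfsg Cfsg.Agent.H42.Vp

universe u

theorem i1 : I1Stmt.{u} := by
  intro G _ _ K hK x hx k hk
  classical
  have hc : IsConj (⟨k, hk⟩ : K) ⟨x * k * x⁻¹, hK.conj_mem k hk x⟩ := by
    haveI : Fintype K := Fintype.ofFinite K
    rw [H11.isConj_iff_forall_irr]
    intro θ hθ
    exact (((H14.mem_inertia' K).1 (hx θ hθ)) ⟨k, hk⟩).symm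
  obtain ⟨c, hc⟩ := isConj_iff.1 hc
  refine ⟨c, c.2, ?_⟩
  have := congrArg Subtype.val hc
  simpa using this.symm

end Cfsg.Agent.H65.VpI1
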